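/-
S3140 (standard subgroups of type `L₃(3)`): structures and chunk statements.  Paper proofs: `notes/T3.md`.
-/
import Cfsg.Agent.H8.LS1

set_option autoImplicit false

namespace H12.T3
open Cfsg Subgroup Matrix H8.LS
open scoped MatrixGroups

universe u v

/-- the conclusion -/
def Cn (F : Type u) [Group F] : Prop :=
  (∃ (K : Type) (_ : Field K) (_ : Fintype K), Fintype.card K = 9 ∧ Nonempty (F ≃* PSL(3, K))) ∨
    Nonempty (F ≃* PSL(4, ZMod 3)) ∨ Nonempty (F ≃* PSp 3 (ZMod 3))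

variable {G : Type u} [Group G]

/-- `C(t) = φ(SL₃(3)) X {1, t, f, t f}`, with `X` of odd order; `f` induces the inverse transpose if `h` -/
structure St (φ : S3 →* G) (t : G) (h b : Bool) (f : G) (X : Subgroup G) : Prop where
  inj : Function.Injective φ
  t2 : t * t = 1
  t1 : t ≠ 1
  tφ : ∀ s, φ s * t = t * φ s
  f1 : h = false → f = 1
  fφ : ∀ s, f * φ s = φ (cond h (γ0 s) s) * f
  f2 : f * f = cond b t 1
  ft : f * t = t * f
  od : Odd (Nat.card X)
  Xφ : ∀ x ∈ X, ∀ s, x * φ s = φ s * x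
  Xt : ∀ x ∈ X, x * t = t * x
  nm : ∀ g, g * t = t * g → ∀ x ∈ X, g * x * g⁻¹ ∈ X
  cov : ∀ g, g * t = t * g → ∃ s, ∃ x ∈ X, g = φ s * x ∨ g = φ s * x * t ∨ g = φ s * x * f ∨ g = φ s * x * (t * f)

/-- `F` is a simple normal subgroup, `G = F ⟨t⟩` -/
structure Se (F : Subgroup G) (t : G) : Prop where
  nm : F.Normal
  si : IsSimpleGroup F
  ix : ∀ g, g ∈ F ∨ g * t ∈ F

/-- relations of a wreathed group of order 128 -/
structure Wr (a s : G) : Prop where
  a8 : a ^ 8 = 1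
  a4 : a ^ 4 ≠ 1
  ss : s * s = 1
  cm : a * (s * a * s⁻¹) = s * a * s⁻¹ * a
  ne : s * a ^ 4 ≠ a ^ 4 * s

/-- relations of a Sylow 2-subgroup of `L₄(3)` (`ω = 1`) or `L₄(5)` (`ω = z`): `H21.L4.Sq 0 z r s t u ω` -/
structure Q4 (z r s t u ω : G) : Prop where
  rz : r * r = z
  ss : s * s = z
  sr : s * r * s⁻¹ = r⁻¹
  tt : t * t = 1
  tz : t * z = z * t
  rr : r * (t * r * t⁻¹) = t * r * t⁻¹ * r
  rs : r * (t * s * t⁻¹) = t * s * t⁻¹ * r
  s2 : s * (t * s * t⁻¹) = t * s * t⁻¹ * s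
  z1 : z ≠ 1
  ur : u * r = r * u
  ur' : u * (t * r * t⁻¹) = t * r * t⁻¹ * u
  us : u * s * u⁻¹ = r * s
  us' : u * (t * s * t⁻¹) * u⁻¹ = t * r * t⁻¹ * (t * s * t⁻¹)
  uu : u * u = r * (t * r * t⁻¹) * ω
  tu : t * u * t⁻¹ = u * ω⁻¹
  ty : ω = 1 ∨ ω = z

/-- relations of a semidihedral group of order 16 -/
structure Sd (x y : G) : Prop where
  x8 : x ^ 8 = 1
  x4 : x ^ 4 ≠ 1
  yy : y * y = 1
  yx : y * x * y⁻¹ = x ^ 3

/-! ### chunks -/

/-- the centraliser of a standard `L₃(3)` has cyclic Sylow 2-subgroups -/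
def NC : Prop := ∀ (G : Type u) [Group G] [Finite G] (φ : S3 →* G), Function.Injective φ → IsStandardSubgroup φ.range →
  ¬ φ.range.Normal → IsSimpleGroup (layer G) → φ.range ≤ layer G → centralizer (layer G : Set G) = ⊥ →
  ∀ P : Subgroup G, P ≤ centralizer (φ.range : Set G) → IsPGroup 2 P → IsCyclic P

/-- the structure of `C(t)` -/
def ST : Prop := ∀ (G : Type u) [Group G] [Finite G] (F : Subgroup G) (φ : S3 →* G) (t : G), Se F t →
  Function.Injective φ → t * t = 1 → t ≠ 1 → (∀ s, φ s * t = t * φ s) →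
  centralizer ({t} : Set G) ≤ normalizer (φ.range : Set G) →
  (∀ P : Subgroup G, P ≤ centralizer (φ.range : Set G) → IsPGroup 2 P → IsCyclic P) → ∃ h b f X, St φ t h b f X

def BS : Prop := ∀ (G : Type u) [Group G] [Finite G] (φ : S3 →* G) (t : G) (h b : Bool) (f : G) (X : Subgroup G),
  St φ t h b f X → H2.LS.Base h b (φ z0) t (φ u0) (φ v0) (φ w0) f

/-- the main part -/
def MAIN : Prop := ∀ (G : Type u) [Group G] [Finite G] (F : Subgroup G) (φ : S3 →* G) (t : G) (h b : Bool) (f : G)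
  (X : Subgroup G), Se F t → St φ t h b f X → (t ∉ F → f ∈ F) → (∃ g, g * t ≠ t * g) → Cn F

/-- wreathed Sylow 2-subgroups -/
def LW : Prop := ∀ (G : Type u) [Group G] [Finite G] (F : Subgroup G) (φ : S3 →* G) (t : G) (h : Bool) (f : G)
  (X : Subgroup G), Se F t → t ∉ F → f ∈ F → St φ t h false f X → ¬ 256 ∣ Nat.card F →
  ∀ a ∈ F, ∀ s ∈ F, Wr a s → Cn F

/-- Sylow 2-subgroups of type `L₄(q)`, of order 128 -/
def L4 : Prop := ∀ (G : Type u) [Group G] [Finite G] (F : Subgroup G) (φ : S3 →* G) (t : G) (h : Bool) (f : G)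
  (X : Subgroup G), Se F t → t ∉ F → f ∈ F → St φ t h false f X → ¬ 256 ∣ Nat.card F →
  ∀ z r s τ y ω : G, r ∈ F → s ∈ F → τ ∈ F → y ∈ F → Q4 z r s τ y ω → Nat.card (closure {r, s, τ, y}) = 128 → Cn F

/-- Sylow 2-subgroups `SD₁₆ × SD₁₆` -/
def SS : Prop := ∀ (F : Type u) [Group F] [Finite F], IsSimpleGroup F → ¬ 512 ∣ Nat.card F →
  ∀ x y x' y' : F, Sd x y → Sd x' y' → x * x' = x' * x → x * y' = y' * x → y * x' = x' * y → y * y' = y' * y →
  x ^ 4 ≠ x' ^ 4 → False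

/-- the statement -/
def FIN : Prop := ∀ {G : Type u} [Group G] [Finite G], oddCore G = ⊥ → ∀ L : Subgroup G, IsStandardSubgroup L →
  ∀ {F : Type v} [Field F] [Fintype F], Fintype.card F = 3 → Nonempty (L ≃* PSL(3, F)) →
    L.Normal ∨ (normalClosure (L : Set G) = generalizedFittingSubgroup G ∧
      ((∃ (K : Type) (_ : Field K) (_ : Fintype K), Fintype.card K = 9 ∧
          Nonempty (generalizedFittingSubgroup G ≃* PSL(3, K))) ∨
        Nonempty (generalizedFittingSubgroup G ≃* PSL(4, F)) ∨ Nonempty (generalizedFittingSubgroup G ≃* PSL(5, F)) ∨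
        Nonempty (generalizedFittingSubgroup G ≃* PSp 3 F) ∨
        (Nonempty (generalizedFittingSubgroup G ≃* L × L) ∧ ∃ u : G, orderOf u = 2 ∧ centralizer (L : Set G) = zpowers u)))

def RED : Prop := NC.{u} → ST.{u} → MAIN.{u} → FIN.{u, v}

end H12.T3
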