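/-
S3140, the case `PSp₆(3)`: structures and chunk statements.  Paper proofs: `notes/T3.md`, second part.
-/
import Cfsg.Agent.H12.T30

set_option autoImplicit false

namespace H12.T3
open Cfsg Subgroup Matrix H8.LS
open scoped MatrixGroups

universe u

/-! ### the model `W = (Q₈ wr 2) × Q₈` -/

abbrev Q8 := QuaternionGroup 2

@[ext] structure W where
  p : Q8
  q : Q8
  r : Q8
  s : Bool
  deriving DecidableEq, Fintype

instance : Mul W := ⟨fun a b => ⟨a.p * cond a.s b.q b.p, a.q * cond a.s b.p b.q, a.r * b.r, xor a.s b.s⟩⟩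
instance : One W := ⟨⟨1, 1, 1, false⟩⟩
instance : Inv W := ⟨fun a => ⟨cond a.s a.q⁻¹ a.p⁻¹, cond a.s a.p⁻¹ a.q⁻¹, a.r⁻¹, a.s⟩⟩
theorem W.mul_def (a b : W) : a * b = ⟨a.p * cond a.s b.q b.p, a.q * cond a.s b.p b.q, a.r * b.r, xor a.s b.s⟩ := rfl
theorem W.one_def : (1 : W) = ⟨1, 1, 1, false⟩ := rfl
theorem W.inv_def (a : W) : a⁻¹ = ⟨cond a.s a.q⁻¹ a.p⁻¹, cond a.s a.p⁻¹ a.q⁻¹, a.r⁻¹, a.s⟩ := rfl
instance : Group W := Group.ofLeftAxioms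
  (by rintro ⟨a, b, c, _ | _⟩ ⟨d, e, f, _ | _⟩ ⟨g, h, i, _ | _⟩ <;> simp [W.mul_def, mul_assoc])
  (by rintro ⟨a, b, c, _ | _⟩ <;> simp [W.mul_def, W.one_def])
  (by rintro ⟨a, b, c, _ | _⟩ <;> simp [W.mul_def, W.one_def, W.inv_def])

def wa : W := ⟨.a 1, 1, 1, false⟩
def wb : W := ⟨.xa 0, 1, 1, false⟩
def wv : W := ⟨1, 1, 1, true⟩
def wx : W := ⟨1, 1, .a 1, false⟩
def wy : W := ⟨1, 1, .xa 0, false⟩
def wu : W := ⟨.a 2, 1, 1, false⟩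
def wz : W := ⟨1, 1, .a 2, false⟩
def wc : W := ⟨.a 2, .a 2, .a 2, false⟩
def wf : W := ⟨.a 1, .a 1, .a 1, false⟩
/-- the action of `t` -/
def qt : Q8 → Q8
  | .a i => .a (-i)
  | .xa i => .xa (3 - i)
def wt (a : W) : W := ⟨qt a.p, qt a.q, qt a.r, a.s⟩

/-- the preimage of `T = Q₈ wr 2` -/
def WT : Subgroup W where
  carrier := {a | a.r = 1 ∨ a.r = .a 2}
  one_mem' := .inl rfl
  mul_mem' := fun {a b} => (by decide : ∀ x y : Q8, x = 1 ∨ x = .a 2 → y = 1 ∨ y = .a 2 → x * y = 1 ∨ x * y = .a 2) a.r b.r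
  inv_mem' := fun {a} => (by decide : ∀ x : Q8, x = 1 ∨ x = .a 2 → x⁻¹ = 1 ∨ x⁻¹ = .a 2) a.r
/-- the preimage of the third quaternion group -/
def WQ : Subgroup W where
  carrier := {a | a.s = false ∧ a.p = a.q ∧ (a.p = 1 ∨ a.p = .a 2)}
  one_mem' := ⟨rfl, rfl, .inl rfl⟩
  mul_mem' := by
    rintro ⟨a, b, c, d⟩ ⟨e, f, g, h⟩ ⟨rfl, e1, h1⟩ ⟨rfl, e2, h2⟩
    obtain rfl : a = b := e1
    obtain rfl : e = f := e2
    exact ⟨rfl, rfl, (by decide : ∀ x y : Q8, x = 1 ∨ x = .a 2 → y = 1 ∨ y = .a 2 → x * y = 1 ∨ x * y = .a 2) _ _ h1 h2⟩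
  inv_mem' := by
    rintro ⟨a, b, c, d⟩ ⟨rfl, e1, h1⟩
    obtain rfl : a = b := e1
    exact ⟨rfl, rfl, (by decide : ∀ x : Q8, x = 1 ∨ x = .a 2 → x⁻¹ = 1 ∨ x⁻¹ = .a 2) _ h1⟩
instance (a : W) : Decidable (a ∈ WT) := inferInstanceAs (Decidable (a.r = 1 ∨ a.r = .a 2))
instance (a : W) : Decidable (a ∈ WQ) := inferInstanceAs (Decidable (a.s = false ∧ a.p = a.q ∧ (a.p = 1 ∨ a.p = .a 2)))

/-! ### the model of `Sp₄(3)` -/

abbrev P4 := symplecticGroup (Fin 2) (ZMod 3)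
def U0 : P4 := ⟨fromBlocks !![2, 0; 0, 1] 0 0 !![2, 0; 0, 1], by rw [SymplecticGroup.mem_iff]; decide +kernel⟩
def V0 : P4 := ⟨fromBlocks !![0, 2; 2, 0] 0 0 !![0, 2; 2, 0], by rw [SymplecticGroup.mem_iff]; decide +kernel⟩
def W0 : P4 := ⟨fromBlocks !![1, 1; 1, 2] 0 0 !![2, 2; 2, 1], by rw [SymplecticGroup.mem_iff]; decide +kernel⟩
def C0 : P4 := ⟨fromBlocks !![0, 1; 2, 2] 0 0 !![2, 1; 2, 0], by rw [SymplecticGroup.mem_iff]; decide +kernel⟩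
/-- the central involution -/
def Z0 : P4 := ⟨-1, by rw [SymplecticGroup.mem_iff]; decide +kernel⟩
/-- long root elements in the second plane -/
def XL : P4 := ⟨fromBlocks 1 !![0, 0; 0, 1] 0 1, by rw [SymplecticGroup.mem_iff]; decide +kernel⟩
def YL : P4 := ⟨fromBlocks 1 0 !![0, 0; 0, 1] 1, by rw [SymplecticGroup.mem_iff]; decide +kernel⟩

variable {G : Type u} [Group G]

/-- three commuting quaternion groups `⟨a, b⟩`, `v ⟨a, b⟩ v⁻¹`, `⟨x, y⟩` -/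
structure PD (t z u v f a b x y : G) : Prop where
  aa : a * a = u
  bb : b * b = u
  ba : b * a * b⁻¹ = a⁻¹
  xx : x * x = z
  yy : y * y = z
  yx : y * x * y⁻¹ = x⁻¹
  a2 : a * (v * a * v⁻¹) = v * a * v⁻¹ * a
  ab : a * (v * b * v⁻¹) = v * b * v⁻¹ * a
  b2 : b * (v * b * v⁻¹) = v * b * v⁻¹ * b
  ax : a * x = x * a
  ay : a * y = y * a
  bx : b * x = x * b
  by' : b * y = y * b
  vx : v * x = x * v
  vy : v * y = y * v
  ta : t * a * t⁻¹ = a⁻¹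
  tb : t * b * t⁻¹ = a * b
  tx : t * x * t⁻¹ = x⁻¹
  ty : t * y * t⁻¹ = x * y
  ff : f = a * (v * a * v⁻¹) * x

/-- the output of the certificates -/
structure Ps (F : Subgroup G) (φ : S3 →* G) (t f : G) (X : Subgroup G) (a b x y : G) : Prop where
  se : Se F t
  tF : t ∉ F
  st : St φ t true false f X
  aF : a ∈ F
  bF : b ∈ F
  xF : x ∈ F
  yF : y ∈ F
  pd : PD t (φ z0) (φ u0) (φ v0) f a b x y
  sy : ¬ 1024 ∣ Nat.card F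
  nf : ∀ g ∈ F, ∀ e, e = x ∨ e = y ∨ e = x * y → g * e * g⁻¹ ∈ closure {a, b, φ v0, x, y} →
    g * e * g⁻¹ * (g * e * g⁻¹) = φ z0 → g * e * g⁻¹ ∈ closure {x, y}

/-- the same with the model: `ι.range` is a Sylow 2-subgroup (order 512) of `F` -/
structure Pm (F : Subgroup G) (φ : S3 →* G) (t : G) (X : Subgroup G) (ι : W →* G) : Prop where
  se : Se F t
  tF : t ∉ F
  st : St φ t true false (ι wf) X
  φF : ∀ s, φ s ∈ F
  mem : ∀ s, ι s ∈ F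
  ker : ∀ s, ι s = 1 ↔ s = 1 ∨ s = wc
  ez : ι wz = φ z0
  eu : ι wu = φ u0
  ev : ι wv = φ v0
  et : ∀ s, t * ι s * t⁻¹ = ι (wt s)
  sy : ¬ 1024 ∣ Nat.card F
  nf : ∀ g ∈ F, ∀ s ∈ WQ, ∀ s', g * ι s * g⁻¹ = ι s' → ι s' * ι s' = φ z0 → s' ∈ WQ

/-- strong closure in `H = C_F(z)` -/
def Sc (F : Subgroup G) (ι : W →* G) : Prop := ∀ h ∈ F, h * ι wz = ι wz * h → ∀ s s', h * ι s * h⁻¹ = ι s' →
  (s ∈ WQ → s' ∈ WQ) ∧ (s ∈ WT → s' ∈ WT)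

/-- the quotient `Y = H / ⟨z⟩ O(H)`; `w`, `c` are the images of `φ w0`, `φ c0` -/
structure Bq {Y : Type u} [Group Y] (j : W →* Y) (w c : Y) : Prop where
  ker : ∀ s, j s = 1 ↔ s ∈ WT ∧ s ∈ WQ
  syl : ¬ 512 ∣ Nat.card Y
  od : oddCore Y = ⊥
  sc : ∀ g s s', g * j s * g⁻¹ = j s' → (s ∈ WQ → s' ∈ WQ) ∧ (s ∈ WT → s' ∈ WT)
  sq : ∀ g s s', g * j s * g⁻¹ = j s' → s * s = 1 ∨ s * s = wc → s' * s' = 1 ∨ s' * s' = wc
  ww : w * w = 1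
  wu' : w * j wu * w⁻¹ = j wv
  wf' : w * j wf = j wf * w
  c3 : c ^ 3 = 1
  c1 : c * j (wu * wv) * c⁻¹ = w
  c2 : c * w * c⁻¹ = j (wu * wv) * w
  cf : c * j (wu * wv * wf) = j (wu * wv * wf) * c
  cN : c ∈ normalClosure {j wu}

/-- the normal closure of the image of `T` -/
abbrev NT {Y : Type u} [Group Y] (j : W →* Y) : Subgroup Y := normalClosure (WT.map j : Set Y)

def B1c {Y : Type u} [Group Y] (j : W →* Y) : Prop :=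
  (∀ s, j s ∈ NT j → s ∈ WT) ∧ ∀ n ∈ NT j, ∀ s ∈ WQ, n * j s = j s * n

/-- the component of `H` -/
structure Es (F : Subgroup G) (φ : S3 →* G) (t : G) (ι : W →* G) (E : Subgroup G) : Prop where
  le : E ≤ F
  nm : ∀ h ∈ F, h * φ z0 = φ z0 * h → ∀ e ∈ E, h * e * h⁻¹ ∈ E
  nt : ∀ e ∈ E, t * e * t⁻¹ ∈ E
  hT : ∀ s ∈ WT, ι s ∈ E
  hQ : ∀ s ∈ WQ, ∀ e ∈ E, ι s * e = e * ι s
  hw : φ w0 ∈ E
  hc : φ c0 ∈ E

/-- `H = E C_H(E)` -/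
def Hc (F : Subgroup G) (z : G) (E : Subgroup G) : Prop :=
  ∀ h ∈ F, h * z = z * h → ∃ e ∈ E, e⁻¹ * h ∈ centralizer (E : Set G)

/-- `ψ` agrees with `φ` on `GL₂(3)` -/
structure Nz (φ : S3 →* G) (ψ : P4 →* G) : Prop where
  inj : Function.Injective ψ
  u : ψ U0 = φ u0
  v : ψ V0 = φ v0
  w : ψ W0 = φ w0
  c : ψ C0 = φ c0

/-- the third long root subgroup commutes with `E` -/
def Cm (φ : S3 →* G) (ψ : P4 →* G) : Prop := ∀ e,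
  Commute (φ a0 * ψ XL * (φ a0)⁻¹) (ψ e) ∧ Commute (φ a0 * ψ YL * (φ a0)⁻¹) (ψ e)

/-- `H ≤ M × (odd)` -/
def Hm (F : Subgroup G) (z : G) (M : Subgroup G) : Prop :=
  ∀ h ∈ F, h * z = z * h → ∃ m ∈ M, ∃ y ∈ centralizer (M : Set G), Odd (orderOf y) ∧ h = m * y

/-! ### chunks -/

def PS : Prop := ∀ (G : Type u) [Group G] [Finite G] (F : Subgroup G) (φ : S3 →* G) (t f : G) (X : Subgroup G) (a b x y : G),
  Ps F φ t f X a b x y → Nonempty (F ≃* PSp 3 (ZMod 3))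

def MD : Prop := ∀ (G : Type u) [Group G] [Finite G] (F : Subgroup G) (φ : S3 →* G) (t f : G) (X : Subgroup G) (a b x y : G),
  Ps F φ t f X a b x y → ∃ ι, Pm F φ t X ι

def SC : Prop := ∀ (G : Type u) [Group G] [Finite G] (F : Subgroup G) (φ : S3 →* G) (t : G) (X : Subgroup G) (ι : W →* G),
  Pm F φ t X ι → Sc F ι

def B1 : Prop := ∀ (Y : Type u) [Group Y] [Finite Y] (j : W →* Y) (w c : Y), Bq j w c → B1c j

def B2 : Prop := ∀ (Y : Type u) [Group Y] [Finite Y] (j : W →* Y) (w c : Y), Bq j w c → B1c j → commutator (NT j) = ⊤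

def B3 : Prop := ∀ (Y : Type u) [Group Y] [Finite Y] (j : W →* Y) (w c : Y), Bq j w c → B1c j → commutator (NT j) = ⊤ →
  ∃ (K : Type) (_ : Field K) (_ : Fintype K), Odd (Fintype.card K) ∧ Nonempty (NT j ≃* PSp 2 K)

def B4 : Prop := B1.{u} → B2.{u} → B3.{u} →
  ∀ (G : Type u) [Group G] [Finite G] (F : Subgroup G) (φ : S3 →* G) (t : G) (X : Subgroup G) (ι : W →* G),
  Pm F φ t X ι → Sc F ι → ∃ (K : Type) (_ : Field K) (_ : Fintype K) (ψ : symplecticGroup (Fin 2) K →* G),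
    Odd (Fintype.card K) ∧ Function.Injective ψ ∧ Es F φ t ι ψ.range

def K3 : Prop := ∀ (G : Type u) [Group G] [Finite G] (F : Subgroup G) (φ : S3 →* G) (t : G) (X : Subgroup G) (ι : W →* G)
  (K : Type) [Field K] [Fintype K] (ψ : symplecticGroup (Fin 2) K →* G), Pm F φ t X ι → Odd (Fintype.card K) →
  Function.Injective ψ → Es F φ t ι ψ.range →
  (∃ ψ' : P4 →* G, Function.Injective ψ' ∧ ψ'.range = ψ.range) ∧ Hc F (φ z0) ψ.range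

/-- `GL₂(3)` in `Sp₄(3)` -/
def NM : Prop := ∀ U V W C : P4, U * U = 1 → V * V = 1 → W * W = Z0 → V * U = Z0 * U * V → W * U = V * W → W * V = U * W →
  C ^ 3 = 1 → C * (U * V) * C⁻¹ = W → C * W * C⁻¹ = U * V * W →
  ∃ g : P4, g * U0 * g⁻¹ = U ∧ g * V0 * g⁻¹ = V ∧ g * W0 * g⁻¹ = W ∧ g * C0 * g⁻¹ = C

def JY : Prop := ∀ (G : Type u) [Group G] [Finite G] (F : Subgroup G) (φ : S3 →* G) (t : G) (X : Subgroup G) (ι : W →* G)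
  (ψ : P4 →* G), Pm F φ t X ι → Nz φ ψ → Es F φ t ι ψ.range → Hc F (φ z0) ψ.range →
  Cm φ ψ ∧ Hm F (φ z0) (φ.range ⊔ ψ.range)

/-- Curtis-Tits -/
def CT : Prop := ∀ (G : Type u) [Group G] (φ : S3 →* G) (ψ : P4 →* G), Nz φ ψ → Cm φ ψ →
  Nonempty (↥(φ.range ⊔ ψ.range) ≃* PSp 3 (ZMod 3))

/-- Holt -/
def HO : Prop := ∀ (G : Type u) [Group G] [Finite G] (F : Subgroup G) (φ : S3 →* G) (t : G) (X : Subgroup G) (ι : W →* G)
  (M : Subgroup G), Pm F φ t X ι → M ≤ F → φ.range ≤ M → Nonempty (M ≃* PSp 3 (ZMod 3)) → Hm F (φ z0) M →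
  (∀ s ∈ WQ, ι s * φ w0 = φ w0 * ι s) → Nonempty (F ≃* PSp 3 (ZMod 3))

theorem r4 : U0 * U0 = 1 ∧ V0 * V0 = 1 ∧ W0 * W0 = Z0 ∧ V0 * U0 = Z0 * U0 * V0 ∧ W0 * U0 = V0 * W0 ∧ W0 * V0 = U0 * W0 ∧
    C0 ^ 3 = 1 ∧ C0 * (U0 * V0) = W0 * C0 ∧ C0 * W0 = U0 * V0 * W0 * C0 := by decide +kernel

end H12.T3
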