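import Mathlib

/-! A sign character and the transfer. -/

set_option autoImplicit false

namespace H12.AC
open Subgroup MulAction

theorem sign0 {G : Type*} [Group G] [Finite G] {K L : Subgroup G} {v : G} (hv : v ∈ commutator G)
    (two : ∀ x ∈ K, ∀ y ∈ K, x ∉ L → y ∉ L → x * y ∈ L) (h1 : ∀ g, g⁻¹ * v * g ∈ K)
    (h2 : ∀ g, g ∉ K → g⁻¹ * v * g ∈ L) : v ∈ L := by
  classical
  let φ : K →* ℤˣ := MonoidHom.mk' (fun x => if (x : G) ∈ L then 1 else -1) fun x y => by
    by_cases a : (x : G) ∈ L <;> by_cases b : (y : G) ∈ L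
    · simp [a, b, mul_mem a b]
    · simp [a, b, mul_mem_cancel_left a]
    · simp [a, b, mul_mem_cancel_right b]
    · simp [a, b, two x x.2 y y.2 a b]
  have hφ : ∀ x : K, φ x = 1 ↔ (x : G) ∈ L := fun x => by
    by_cases a : (x : G) ∈ L <;> simp [φ, a]
  have := Fintype.ofFinite (Quotient (orbitRel (zpowers v) (G ⧸ K)))
  have e := Abelianization.commutator_subset_ker (MonoidHom.transfer φ) hv
  have f : ∀ q : G ⧸ K, v • q = q := fun q => by
    induction q using QuotientGroup.induction_on with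
    | _ g => exact QuotientGroup.eq.2 (by simpa [mul_assoc] using inv_mem (h1 g))
  have f2 : ∀ q : G ⧸ K, (Quotient.mk (orbitRel (zpowers v) (G ⧸ K)) q).out = q := fun q => by
    obtain ⟨⟨_, n, rfl⟩, e⟩ := (orbitRel_apply).1 (Quotient.mk_out (s := orbitRel (zpowers v) (G ⧸ K)) q)
    rw [← e]
    exact mem_stabilizer_iff.1 (zpow_mem (mem_stabilizer_iff.2 (f q)) n)
  have m : ∀ q : G ⧸ K, Function.minimalPeriod (v • ·) q = 1 := fun q =>
    Function.minimalPeriod_eq_one_iff_isFixedPt.2 (f q)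
  rw [MonoidHom.mem_ker, MonoidHom.transfer_eq_prod_quotient_orbitRel_zpowers_quot,
    Finset.prod_eq_single (Quotient.mk _ ((1 : G) : G ⧸ K)) (fun q _ n => ?_) (by simp)] at e
  · have k : ((1 : G) : G ⧸ K).out ∈ K := by
      simpa using inv_mem (QuotientGroup.eq.1 (QuotientGroup.out_eq' ((1 : G) : G ⧸ K)))
    have v1 : v ∈ K := by simpa using h1 1
    refine (hφ ⟨v, v1⟩).1 ?_
    have : φ (⟨_, k⟩⁻¹ * ⟨v, v1⟩ * ⟨_, k⟩) = φ ⟨v, v1⟩ := by
      rw [map_mul, map_mul, map_inv, mul_right_comm, inv_mul_cancel, one_mul]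
    rw [← e, ← this]
    congr 1
    ext
    simp [f2, m]
  · rw [hφ]
    simp only [m, pow_one]
    refine h2 _ fun k => n ?_
    have : q.out = ((1 : G) : G ⧸ K) := q.out.out_eq'.symm.trans (QuotientGroup.eq.2 (by simpa using k))
    rw [← this, q.out_eq]

theorem sign {X : Type*} [Group X] [Finite X] {H K L : Subgroup X} {v : X} (hv : v ∈ ⁅H, H⁆)
    (two : ∀ x ∈ K, ∀ y ∈ K, x ∉ L → y ∉ L → x * y ∈ L) (h1 : ∀ g ∈ H, g⁻¹ * v * g ∈ K)
    (h2 : ∀ g ∈ H, g ∉ K → g⁻¹ * v * g ∈ L) : v ∈ L := by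
  rw [← map_subtype_commutator] at hv
  obtain ⟨v, hv, rfl⟩ := hv
  exact sign0 (K := K.subgroupOf H) (L := L.subgroupOf H) hv (fun x hx y hy => two x hx y hy) (fun g => h1 g g.2)
    fun g => h2 g g.2

end H12.AC
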