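/-
Five-dimensional matrix groups: the interface between the parts of the proof.
-/
import Cfsg.Agent.H27.Asch25
import Cfsg.Prelude.Def_Spor_Mathieu

set_option autoImplicit false

namespace H12.D5
open Matrix Cfsg.Geo H27.Asch
open scoped commutatorElement MatrixGroups

abbrev G5 (k : Type*) [Field k] := GL (Fin 5) k

variable {k : Type*} [Field k]

/-- the quotient by the scalars -/
abbrev Qt (P : Subgroup (G5 k)) := P ⧸ (scalars (Fin 5) k).subgroupOf P

/-- perfect, absolutely irreducible, simple modulo scalars -/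
structure Hy (P : Subgroup (G5 k)) : Prop where
  sl : P ≤ specialLinear (Fin 5) k
  perf : ⁅P, P⁆ = P
  top : alg P = ⊤
  simp : IsSimpleGroup (Qt P)
  nab : ¬ IsMulCommutative (Qt P)

/-- all traces are real -/
def Real (P : Subgroup (G5 k)) : Prop := ∀ x ∈ P, (x⁻¹).val.trace = x.val.trace

/-- no transvections -/
def NoTv (P : Subgroup (G5 k)) : Prop := ∀ x ∈ P, ∀ v φ : Fin 5 → k, x.val = 1 - vecMulVec v φ → x = 1

/-- no negatives of reflections -/
def NoRf (P : Subgroup (G5 k)) : Prop := ∀ x ∈ P, ∀ v φ : Fin 5 → k, x.val ≠ vecMulVec v φ - 1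

def L11 (P : Subgroup (G5 k)) : Prop := (11 : k) ≠ 0 ∧ Nonempty (Qt P ≃* PSL(2, ZMod 11))

universe u

/-- odd characteristic -/
def CC : Prop := ∀ (F : Type u) [Field F] [Fintype F] (P : Subgroup (G5 F)), Hy P → (2 : F) ≠ 0 → NoTv P → NoRf P →
  Real P ∨ L11 P ∨ ((3 : F) = 0 ∧ Cfsg.Spor.IsoM11 (Qt P) ∧ ∀ x ∈ P, x.val.trace ^ 3 = x.val.trace)

/-- characteristic two -/
def DD : Prop := ∀ (F : Type u) [Field F] [Fintype F] (P : Subgroup (G5 F)), Hy P → (2 : F) = 0 → NoTv P →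
  Real P ∨ L11 P

/-- the traces of `L₂(11)` -/
def EE : Prop := ∀ (F : Type u) [Field F] [Fintype F] (P : Subgroup (G5 F)), Hy P → L11 P →
  ∀ p : ℕ, p.Prime → CharP F p →
    (p % 11 = 1 ∨ p % 11 = 3 ∨ p % 11 = 4 ∨ p % 11 = 5 ∨ p % 11 = 9 → ∀ x ∈ P, x.val.trace ^ p = x.val.trace) ∧
    (p % 11 = 2 ∨ p % 11 = 6 ∨ p % 11 = 7 ∨ p % 11 = 8 ∨ p % 11 = 10 → ∀ x ∈ P, x.val.trace ^ p = (x⁻¹).val.trace)

/-- `L₂(11)` is not maximal in `SL₅(3)` -/
def E3 : Prop := ∀ (F : Type u) [Field F] [Fintype F] (H P : Subgroup (G5 F)), Fintype.card F = 3 → Hy P → L11 P →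
  IsResidualCore H P → ¬ IsMaximalIn (specialLinear (Fin 5) F) H

end H12.D5
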