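/-
Five-dimensional matrix groups, part 1: reflections and transvections.
-/
import Cfsg.Agent.H21.D3e

set_option autoImplicit false
set_option linter.unusedSectionVars false

namespace H12.D5
open Matrix Cfsg.Geo H27.Asch
open scoped commutatorElement

variable {ι κ : Type} [Fintype ι] [DecidableEq ι] [Fintype κ] [DecidableEq κ] {k : Type*} [Field k]

local notation "vv" => vecMulVec

theorem ro_mulVec (v φ w : ι → k) : (1 - vv v φ) *ᵥ w = w - (φ ⬝ᵥ w) • v := by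
  rw [sub_mulVec, one_mulVec, vecMulVec_mulVec]; simp

theorem vecMul_ro (v φ ψ : ι → k) : ψ ᵥ* (1 - vv v φ) = ψ - (ψ ⬝ᵥ v) • φ := by
  rw [vecMul_sub, vecMul_one, vecMul_vecMulVec]

theorem vv_mul (v φ w ψ : ι → k) : vv v φ * vv w ψ = (φ ⬝ᵥ w) • vv v ψ := by
  rw [vecMulVec_mul_vecMulVec, vecMulVec_smul]

theorem tr_vv (v φ : ι → k) : (vv v φ).trace = φ ⬝ᵥ v := by rw [trace_vecMulVec, dotProduct_comm]

theorem tr_mul_vv (a : Matrix ι ι k) (v φ : ι → k) : (a * vv v φ).trace = φ ⬝ᵥ a *ᵥ v := by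
  rw [mul_vecMulVec, tr_vv]

theorem tr_vv_mul (a : Matrix ι ι k) (v φ : ι → k) : (vv v φ * a).trace = φ ⬝ᵥ a *ᵥ v := by
  rw [trace_mul_comm, tr_mul_vv]

theorem ro_mul (ε : k) (hε : ε * ε = 1) {v φ : ι → k} (h : φ ⬝ᵥ v = 1 + ε) :
    (1 - vv v φ) * (1 - vv v (ε • φ)) = 1 := by
  simp only [sub_mul, mul_sub, one_mul, mul_one, vv_mul, vecMulVec_smul, mul_smul_comm, h, smul_smul]
  match_scalars <;> first | ring1 | linear_combination hε | linear_combination -hε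

theorem ro_inv {ε : k} (hε : ε * ε = 1) {v φ : ι → k} (h : φ ⬝ᵥ v = 1 + ε) {g : GL ι k}
    (hg : g.val = 1 - vv v φ) : (g⁻¹).val = 1 - vv v (ε • φ) :=
  Units.inv_eq_of_mul_eq_one_right (hg ▸ ro_mul ε hε h)

theorem exists_ro {ε : k} (hε : ε * ε = 1) {v φ : ι → k} (h : φ ⬝ᵥ v = 1 + ε) :
    ∃ g : GL ι k, g.val = 1 - vv v φ :=
  ⟨⟨_, _, ro_mul ε hε h, mul_eq_one_comm.1 (ro_mul ε hε h)⟩, rfl⟩

theorem conj_ro {v φ : ι → k} {g : GL ι k} (hg : g.val = 1 - vv v φ) (h : GL ι k) :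
    (h * g * h⁻¹).val = 1 - vv (h.val *ᵥ v) (φ ᵥ* (h⁻¹).val) := by
  rw [Units.val_mul, Units.val_mul, hg, mul_sub, sub_mul, mul_one, Units.mul_inv, mul_vecMulVec, vecMulVec_mul]

theorem dot_conj (h : GL ι k) (φ v : ι → k) : (φ ᵥ* (h⁻¹).val) ⬝ᵥ (h.val *ᵥ v) = φ ⬝ᵥ v := by
  rw [← dotProduct_mulVec, inv_mulVec_mulVec]

theorem vecMul_inv_vecMul (h : GL ι k) (φ : ι → k) : (φ ᵥ* (h⁻¹).val) ᵥ* h.val = φ := by
  rw [vecMul_vecMul, Units.inv_mul, vecMul_one]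

theorem vecMul_vecMul_inv (h : GL ι k) (φ : ι → k) : (φ ᵥ* h.val) ᵥ* (h⁻¹).val = φ := by
  rw [vecMul_vecMul, Units.mul_inv, vecMul_one]

theorem vecMul_inv_of {h : GL ι k} {φ : ι → k} {c : k} (hc : c ≠ 0) (e : φ ᵥ* h.val = c • φ) :
    φ ᵥ* (h⁻¹).val = c⁻¹ • φ := by
  have := vecMul_vecMul_inv h φ
  rw [e, smul_vecMul] at this
  rw [eq_inv_smul_iff₀ hc, this]

theorem inv_mulVec_of {h : GL ι k} {v : ι → k} {c : k} (hc : c ≠ 0) (e : h.val *ᵥ v = c • v) :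
    (h⁻¹).val *ᵥ v = c⁻¹ • v := by
  have := inv_mulVec_mulVec h v
  rw [e, mulVec_smul] at this
  rw [eq_inv_smul_iff₀ hc, this]

theorem exists_dot {v : ι → k} (h : v ≠ 0) : ∃ φ : ι → k, φ ⬝ᵥ v = 1 := by
  obtain ⟨i, hi⟩ := Function.ne_iff.1 h
  exact ⟨Pi.single i (v i)⁻¹, by rw [single_dotProduct, inv_mul_cancel₀ hi]⟩

theorem exists_dot' {φ : ι → k} (h : φ ≠ 0) : ∃ v : ι → k, φ ⬝ᵥ v = 1 :=
  (exists_dot h).imp fun _ e => by rwa [dotProduct_comm]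

theorem vv_left {v w φ : ι → k} (h : vv v φ = vv w φ) (h0 : φ ≠ 0) : v = w := by
  obtain ⟨u, hu⟩ := exists_dot' h0
  have := congrArg (· *ᵥ u) h
  simpa [vecMulVec_mulVec, hu] using this

theorem vv_right {v φ ψ : ι → k} (h : vv v φ = vv v ψ) (h0 : v ≠ 0) : φ = ψ := by
  obtain ⟨u, hu⟩ := exists_dot h0
  have := congrArg (u ᵥ* ·) h
  simpa [vecMul_vecMulVec, hu] using this

theorem vv_prop {v φ w ψ : ι → k} (h : vv v φ = vv w ψ) (h1 : v ≠ 0) (h2 : φ ≠ 0) :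
    ∃ c : k, c ≠ 0 ∧ w = c • v ∧ ψ = c⁻¹ • φ := by
  obtain ⟨u, hu⟩ := exists_dot' h2
  have e : v = (ψ ⬝ᵥ u) • w := by simpa [vecMulVec_mulVec, hu] using congrArg (· *ᵥ u) h
  have c0 : ψ ⬝ᵥ u ≠ 0 := fun c => h1 (by rw [e, c, zero_smul])
  refine ⟨(ψ ⬝ᵥ u)⁻¹, inv_ne_zero c0, (eq_inv_smul_iff₀ c0).2 e.symm, ?_⟩
  rw [inv_inv]
  refine (vv_right (v := w) ?_ fun c => h1 (by rw [e, c, smul_zero])).symm
  rw [← h, vecMulVec_smul, ← smul_vecMulVec, ← e]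

/-- `1 - v φ` is a reflection (`ε = 1`) or a transvection (`ε = -1`) in `G` -/
def Rk (ε : k) (G : Subgroup (GL ι k)) (v φ : ι → k) : Prop :=
  φ ⬝ᵥ v = 1 + ε ∧ ∃ g ∈ G, g.val = 1 - vv v φ

variable {ε : k} {G H : Subgroup (GL ι k)} {v φ w ψ u χ : ι → k}

theorem Rk.mono (h : Rk ε G v φ) (e : G ≤ H) : Rk ε H v φ := ⟨h.1, h.2.imp fun _ a => ⟨e a.1, a.2⟩⟩

theorem Rk.conj (h : Rk ε G v φ) {g : GL ι k} (hg : g ∈ G) : Rk ε G (g.val *ᵥ v) (φ ᵥ* (g⁻¹).val) := by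
  obtain ⟨h1, x, hx, e⟩ := h
  exact ⟨by rw [dot_conj, h1], _, mul_mem (mul_mem hg hx) (inv_mem hg), conj_ro e g⟩

theorem Rk.refl (hε : ε * ε = 1) (h : Rk ε G v φ) {δ : k} (h' : Rk δ G w ψ) :
    Rk δ G (w - (φ ⬝ᵥ w) • v) (ψ - (ε * ψ ⬝ᵥ v) • φ) := by
  obtain ⟨h1, x, hx, e⟩ := h
  have := h'.conj hx
  rwa [ro_inv hε h1 e, e, ro_mulVec, vecMul_ro, smul_smul, mul_comm] at this

theorem Rk.congr (h : Rk ε G v φ) (e : vv w ψ = vv v φ) : Rk ε G w ψ :=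
  ⟨by rw [← tr_vv, e, tr_vv, h.1], e ▸ h.2⟩

theorem Rk.smul (h : Rk ε G v φ) {c : k} (hc : c ≠ 0) : Rk ε G (c • v) (c⁻¹ • φ) :=
  h.congr (by rw [smul_vecMulVec, vecMulVec_smul, smul_smul, mul_inv_cancel₀ hc, one_smul])

theorem Rk.smul' {c : k} (h : Rk ε G (c • v) φ) : Rk ε G v (c • φ) :=
  h.congr (by rw [smul_vecMulVec, vecMulVec_smul])

theorem Rk.smul'' {c : k} (h : Rk ε G v (c • φ)) : Rk ε G (c • v) φ :=
  h.congr (by rw [smul_vecMulVec, vecMulVec_smul])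

theorem Rk.neg (h : Rk ε G v φ) : Rk ε G (-v) (-φ) := h.congr (by simp)

theorem Rk.inv (hε : ε * ε = 1) (h : Rk ε G v φ) : Rk ε G v (ε • φ) := by
  obtain ⟨h1, x, hx, e⟩ := h
  exact ⟨by rw [smul_dotProduct, h1, smul_eq_mul, mul_add, hε, mul_one, add_comm], _, inv_mem hx, ro_inv hε h1 e⟩

theorem Rk.of_eq (h : Rk ε G v φ) (e1 : w = v) (e2 : ψ = φ) : Rk ε G w ψ := e1 ▸ e2 ▸ h

/-- the reflections or transvections as a set -/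
def RS (ε : k) (G : Subgroup (GL ι k)) : Set (GL ι k) := {g | ∃ v φ, Rk ε G v φ ∧ g.val = 1 - vv v φ}

theorem RS_le : RS ε G ⊆ G := by
  rintro g ⟨v, φ, ⟨-, x, hx, e⟩, h⟩
  exact (Units.ext (e.trans h.symm) : x = g) ▸ hx

theorem closure_ind {S : Set (GL ι k)} (hS : ∀ g ∈ S, g⁻¹ ∈ S) {p : GL ι k → Prop} (h1 : p 1)
    (h2 : ∀ g ∈ S, ∀ h ∈ Subgroup.closure S, p h → p (g * h)) : ∀ h ∈ Subgroup.closure S, p h := fun h hh => by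
  induction hh using Subgroup.closure_induction_left with
  | one => exact h1
  | mul_left x hx y hy ih => exact h2 x hx y hy ih
  | inv_mul_cancel x hx y hy ih => exact h2 _ (hS x hx) y hy ih

theorem RS_inv (hε : ε * ε = 1) : ∀ g ∈ RS ε G, g⁻¹ ∈ RS ε G := by
  rintro g ⟨v, φ, h, e⟩
  exact ⟨v, _, h.inv hε, ro_inv hε h.1 e⟩

/-- orthogonality is symmetric -/
def Sy (ε : k) (G : Subgroup (GL ι k)) : Prop :=
  ∀ ⦃v φ w ψ⦄, Rk ε G v φ → Rk ε G w ψ → φ ≠ 0 → w ≠ 0 → φ ⬝ᵥ w = 0 → ψ ⬝ᵥ v = 0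

/-- traces from pairs and triangles -/
theorem cyc (hε : ε * ε = 1) (σ : k →+* k) (h0 : σ ε = ε) (hs : Sy ε G)
    (h2 : ∀ ⦃v φ w ψ⦄, Rk ε G v φ → Rk ε G w ψ → σ (φ ⬝ᵥ w * ψ ⬝ᵥ v) = φ ⬝ᵥ w * ψ ⬝ᵥ v)
    (h3 : ∀ ⦃v φ w ψ u χ⦄, Rk ε G v φ → Rk ε G w ψ → Rk ε G u χ →
      σ (φ ⬝ᵥ w * ψ ⬝ᵥ u * χ ⬝ᵥ v) = ε * (φ ⬝ᵥ u * χ ⬝ᵥ w * ψ ⬝ᵥ v)) :
    ∀ g ∈ Subgroup.closure (RS ε G), (g⁻¹).val.trace = σ g.val.trace := by
  have e1 : ∀ {g h : GL ι k} {u χ : ι → k} (φ v : ι → k), g.val = 1 - vv u χ →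
      φ ⬝ᵥ (g * h).val *ᵥ v = φ ⬝ᵥ h.val *ᵥ v - φ ⬝ᵥ u * χ ⬝ᵥ h.val *ᵥ v := fun φ v e => by
    rw [Units.val_mul, ← mulVec_mulVec, e, ro_mulVec, dotProduct_sub, dotProduct_smul, smul_eq_mul, mul_comm]
  have e2 : ∀ {g h : GL ι k} {u χ : ι → k} (φ v : ι → k), χ ⬝ᵥ u = 1 + ε → g.val = 1 - vv u χ →
      φ ⬝ᵥ (g * h)⁻¹.val *ᵥ v = φ ⬝ᵥ h⁻¹.val *ᵥ v - ε * χ ⬝ᵥ v * φ ⬝ᵥ h⁻¹.val *ᵥ u := fun φ v h e => by
    rw [_root_.mul_inv_rev, Units.val_mul, ← mulVec_mulVec, ro_inv hε h e, ro_mulVec, mulVec_sub, mulVec_smul,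
      dotProduct_sub, dotProduct_smul, smul_dotProduct, smul_eq_mul, smul_eq_mul]
  have Q : ∀ h ∈ Subgroup.closure (RS ε G), ∀ ⦃v φ w ψ⦄, Rk ε G v φ → Rk ε G w ψ →
      σ (φ ⬝ᵥ w * ψ ⬝ᵥ h.val *ᵥ v) = ψ ⬝ᵥ v * φ ⬝ᵥ h⁻¹.val *ᵥ w := by
    refine closure_ind (RS_inv hε) (fun v φ w ψ a b => by simpa [mul_comm] using h2 a b) ?_
    rintro g ⟨u, χ, c, e⟩ h - ih v φ w ψ a b
    rw [e1 _ _ e, e2 _ _ c.1 e, mul_sub, map_sub, ih a b, mul_sub, sub_right_inj]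
    by_cases z : φ = 0 ∨ u = 0 ∨ χ = 0 ∨ v = 0
    · rcases z with z | z | z | z <;> simp [z]
    push Not at z
    by_cases h0' : φ ⬝ᵥ u = 0
    · have := ih a (b.refl hε c)
      have f := h2 b c
      have f' := ih a b
      simp only [dotProduct_sub, sub_dotProduct, dotProduct_smul, smul_dotProduct, smul_eq_mul, h0', hs a c z.1 z.2.1 h0',
        mulVec_sub, mulVec_smul, map_mul, map_sub, h0, map_zero] at this f f' ⊢
      linear_combination -this + ε * σ (ψ ⬝ᵥ u) * σ (χ ⬝ᵥ w) * f' + ε * (ψ ⬝ᵥ v * φ ⬝ᵥ h⁻¹.val *ᵥ w) * f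
    · have h1' : χ ⬝ᵥ v ≠ 0 := fun y => h0' (hs c a z.2.2.1 z.2.2.2 y)
      have := ih a c
      have f := h2 a c
      have f' := h3 a b c
      simp only [map_mul] at this f f' ⊢
      refine mul_left_cancel₀ (mul_ne_zero h0' h1') ?_
      linear_combination -(σ (φ ⬝ᵥ w) * σ (ψ ⬝ᵥ u) * σ (χ ⬝ᵥ h.val *ᵥ v)) * f +
        (σ (φ ⬝ᵥ u) * σ (χ ⬝ᵥ h.val *ᵥ v)) * f' + ε * (φ ⬝ᵥ u * χ ⬝ᵥ w * ψ ⬝ᵥ v) * this
  have Q' : ∀ h ∈ Subgroup.closure (RS ε G), ∀ ⦃v φ⦄, Rk ε G v φ →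
      σ (φ ⬝ᵥ h.val *ᵥ v) = ε * φ ⬝ᵥ h⁻¹.val *ᵥ v := by
    refine closure_ind (RS_inv hε) (fun v φ a => ?_) ?_
    · simp only [Units.val_one, inv_one, one_mulVec, a.1, map_add, map_one, h0]; linear_combination -hε
    rintro g ⟨u, χ, c, e⟩ h hh ih v φ a
    rw [e1 _ _ e, e2 _ _ c.1 e, map_sub, ih a, Q h hh a c]
    linear_combination (χ ⬝ᵥ v * φ ⬝ᵥ h⁻¹.val *ᵥ u) * hε
  refine closure_ind (RS_inv hε) (by simp) ?_
  rintro g ⟨u, χ, c, e⟩ h hh ih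
  rw [_root_.mul_inv_rev, Units.val_mul, Units.val_mul, ro_inv hε c.1 e, e, mul_sub, sub_mul, mul_one, one_mul,
    trace_sub, trace_sub, map_sub, ih, tr_mul_vv, tr_vv_mul, Q' h hh c, smul_dotProduct, smul_eq_mul]

/-! ### transvections -/

theorem neg_one_sq' : (-1 : k) * -1 = 1 := by ring

theorem Rk.dot0 (h : Rk (-1) G v φ) : φ ⬝ᵥ v = 0 := by rw [h.1, add_neg_cancel]

theorem tv_mk {g : GL ι k} (h : φ ⬝ᵥ v = 0) (hg : g ∈ G) (e : g.val = 1 - vv v φ) : Rk (-1) G v φ :=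
  ⟨by rw [h, add_neg_cancel], g, hg, e⟩

theorem tv_zero_left : Rk (-1) G 0 φ := tv_mk (by simp) (one_mem G) (by simp)

theorem tv_zero_right : Rk (-1) G v 0 := tv_mk (by simp) (one_mem G) (by simp)

theorem Rk.add_left (h : Rk (-1) G v φ) (h' : Rk (-1) G w φ) : Rk (-1) G (v + w) φ := by
  obtain ⟨x, hx, e⟩ := h.2
  obtain ⟨y, hy, e'⟩ := h'.2
  refine tv_mk (by rw [dotProduct_add, h.dot0, h'.dot0, add_zero]) (mul_mem hx hy) ?_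
  simp only [Units.val_mul, e, e', sub_mul, mul_sub, one_mul, mul_one, vv_mul, h'.dot0, add_vecMulVec]
  module

theorem Rk.add_right (h : Rk (-1) G v φ) (h' : Rk (-1) G v ψ) : Rk (-1) G v (φ + ψ) := by
  obtain ⟨x, hx, e⟩ := h.2
  obtain ⟨y, hy, e'⟩ := h'.2
  refine tv_mk (by rw [add_dotProduct, h.dot0, h'.dot0, add_zero]) (mul_mem hx hy) ?_
  simp only [Units.val_mul, e, e', sub_mul, mul_sub, one_mul, mul_one, vv_mul, h.dot0, vecMulVec_add]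
  module

theorem Rk.neg_right (h : Rk (-1) G v φ) : Rk (-1) G v (-φ) := by simpa using h.inv neg_one_sq'

theorem Rk.neg_left (h : Rk (-1) G v φ) : Rk (-1) G (-v) φ := by simpa using h.neg_right.neg

theorem Rk.sub_left (h : Rk (-1) G v φ) (h' : Rk (-1) G w φ) : Rk (-1) G (v - w) φ :=
  sub_eq_add_neg v w ▸ h.add_left h'.neg_left

theorem Rk.sub_right (h : Rk (-1) G v φ) (h' : Rk (-1) G v ψ) : Rk (-1) G v (φ - ψ) :=
  sub_eq_add_neg φ ψ ▸ h.add_right h'.neg_right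

theorem Rk.comm (h : Rk (-1) G v φ) (h' : Rk (-1) G w ψ) (h0 : ψ ⬝ᵥ v = 0) : Rk (-1) G ((φ ⬝ᵥ w) • v) ψ := by
  have := h.refl neg_one_sq' h'
  rw [h0, mul_zero, zero_smul, sub_zero] at this
  simpa using h'.sub_left this

theorem Rk.comm' (h : Rk (-1) G v φ) (h' : Rk (-1) G w ψ) (h0 : φ ⬝ᵥ w = 0) : Rk (-1) G ((ψ ⬝ᵥ v) • w) φ :=
  h'.comm h h0

/-- two reflections with the same axis -/
theorem Rk.same_axis (h : Rk 1 G v φ) (h' : Rk 1 G w φ) : Rk (-1) G (v - w) φ := by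
  obtain ⟨x, hx, e⟩ := h.2
  obtain ⟨y, hy, e'⟩ := h'.2
  refine tv_mk (by rw [dotProduct_sub, h.1, h'.1, sub_self]) (mul_mem hy hx) ?_
  simp only [Units.val_mul, e, e', sub_mul, mul_sub, one_mul, mul_one, vv_mul, h.1, sub_vecMulVec]
  module

theorem Rk.same_center (h : Rk 1 G v φ) (h' : Rk 1 G v ψ) : Rk (-1) G v (φ - ψ) := by
  obtain ⟨x, hx, e⟩ := h.2
  obtain ⟨y, hy, e'⟩ := h'.2
  refine tv_mk (by rw [sub_dotProduct, h.1, h'.1, sub_self]) (mul_mem hx hy) ?_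
  simp only [Units.val_mul, e, e', sub_mul, mul_sub, one_mul, mul_one, vv_mul, h.1, vecMulVec_sub]
  module

/-- the commutator of two elements of a Heisenberg group -/
theorem heis {z θ η₁ η₂ w₁ w₂ : ι → k} {c₁ c₂ : k} {x y : GL ι k} (hx : x ∈ G) (hy : y ∈ G)
    (g1 : x.val = 1 + vv z η₁ + vv w₁ θ + c₁ • vv z θ) (g2 : y.val = 1 + vv z η₂ + vv w₂ θ + c₂ • vv z θ)
    (e1 : η₁ ⬝ᵥ z = 0) (e2 : η₂ ⬝ᵥ z = 0) (e3 : θ ⬝ᵥ z = 0) (e4 : θ ⬝ᵥ w₁ = 0) (e5 : θ ⬝ᵥ w₂ = 0) :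
    Rk (-1) G z ((η₂ ⬝ᵥ w₁ - η₁ ⬝ᵥ w₂) • θ) := by
  refine tv_mk (by simp [e3]) (g := x * y * (y * x)⁻¹) (mul_mem (mul_mem hx hy) (inv_mem (mul_mem hy hx))) ?_
  rw [Units.val_mul, Units.mul_inv_eq_iff_eq_mul, Units.val_mul, Units.val_mul, g1, g2]
  simp only [vecMulVec_smul, add_mul, mul_add, sub_mul, one_mul, mul_one, vv_mul, smul_mul_assoc, mul_smul_comm, e1,
    e2, e3, e4, e5, zero_smul, smul_zero, add_zero, smul_dotProduct]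
  module

/-- no transvections -/
def NT (G : Subgroup (GL ι k)) : Prop := ∀ ⦃v φ⦄, Rk (-1) G v φ → v = 0 ∨ φ = 0

theorem Rk.two (h : Rk 1 G v φ) : φ ⬝ᵥ v = 2 := by rw [h.1]; norm_num

theorem Rk.ne (h : Rk 1 G v φ) (h2 : (2 : k) ≠ 0) : v ≠ 0 ∧ φ ≠ 0 :=
  ⟨fun e => h2 (by rw [← h.two, e, dotProduct_zero]), fun e => h2 (by rw [← h.two, e, zero_dotProduct])⟩

theorem Rk.refl1 (h : Rk 1 G v φ) {δ : k} (h' : Rk δ G w ψ) :
    Rk δ G (w - (φ ⬝ᵥ w) • v) (ψ - (ψ ⬝ᵥ v) • φ) := by simpa using h.refl (one_mul 1) h'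

theorem Rk.tv (h : Rk (-1) G v φ) {δ : k} (h' : Rk δ G w ψ) :
    Rk δ G (w - (φ ⬝ᵥ w) • v) (ψ + (ψ ⬝ᵥ v) • φ) := by simpa using h.refl neg_one_sq' h'

theorem rk_two (h2 : (2 : k) = 0) : Rk 1 G v φ ↔ Rk (-1) G v φ := by
  rw [show (-1 : k) = 1 by linear_combination -h2]

theorem NT.sy (h : NT G) (h2 : (2 : k) ≠ 0) : Sy 1 G := fun v φ w ψ a b _ _ e => by
  have := b.refl1 a
  rw [e, zero_smul, sub_zero] at this
  have := (h (a.same_axis this)).resolve_right (a.ne h2).2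
  simpa [(b.ne h2).1] using this

/-- tangent reflections -/
theorem NT.tan (h : NT G) (h2 : (2 : k) ≠ 0) {y ξ θ : ι → k} {c : k} (c0 : c ≠ 0) (c1 : c ^ 2 ≠ 1)
    (h1 : Rk 1 G (y + u) (ξ + θ)) (h3 : Rk 1 G (y + c • u) (ξ + c⁻¹ • θ))
    (h4 : Rk 1 G (y + c ^ 2 • u) (ξ + (c ^ 2)⁻¹ • θ)) (e1 : ξ ⬝ᵥ u = 0) (e2 : θ ⬝ᵥ y = 0) (e3 : θ ⬝ᵥ u = 0) :
    u = 0 ∧ θ = 0 := by
  have e4 : ξ ⬝ᵥ y = 2 := by simpa [e1, e2, e3] using h1.two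
  have c2 : 1 - c ≠ 0 := fun e => c1 (by linear_combination -(1 + c) * e)
  have key : ∀ d : k, Rk 1 G (y + d • u) (ξ + d⁻¹ • θ) → ∃ x ∈ G, ∃ e : k,
      x.val = 1 + vv u ((1 - d) • ξ) + vv ((d⁻¹ - 1) • y) θ + e • vv u θ := fun d h' => by
    obtain ⟨x, hx, f1⟩ := h1.2
    obtain ⟨x', hx', f2⟩ := h'.2
    refine ⟨_, mul_mem hx hx', 2 * d⁻¹ - 1 - d * d⁻¹, ?_⟩
    have e5 : (ξ + θ) ⬝ᵥ (y + d • u) = 2 := by simp [e1, e2, e3, e4]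
    simp only [Units.val_mul, f1, f2, sub_mul, mul_sub, one_mul, mul_one, vv_mul, e5]
    simp only [add_vecMulVec, vecMulVec_add, smul_vecMulVec, vecMulVec_smul]
    module
  obtain ⟨x, hx, _, g1⟩ := key c h3
  obtain ⟨x', hx', _, g2⟩ := key _ h4
  have := h (heis hx hx' g1 g2 (by simp [e1]) (by simp [e1]) e3 (by simp [e2]) (by simp [e2]))
  have n : ((1 - c ^ 2) • ξ) ⬝ᵥ (c⁻¹ - 1) • y - ((1 - c) • ξ) ⬝ᵥ ((c ^ 2)⁻¹ - 1) • y ≠ 0 := by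
    have : ((1 - c ^ 2) • ξ) ⬝ᵥ (c⁻¹ - 1) • y - ((1 - c) • ξ) ⬝ᵥ ((c ^ 2)⁻¹ - 1) • y =
        -(2 * (1 - c) ^ 2 * (1 - c ^ 2) / c ^ 2) := by
      simp only [smul_dotProduct, dotProduct_smul, e4, smul_eq_mul]; field_simp; ring
    rw [this]
    exact neg_ne_zero.2 (div_ne_zero (mul_ne_zero (mul_ne_zero h2 (pow_ne_zero _ c2)) (sub_ne_zero.2 c1.symm))
      (pow_ne_zero _ c0))
  rcases this.imp_right (fun e => (smul_eq_zero.1 e).resolve_left n) with rfl | rfl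
  · have := (h (Rk.same_center (by simpa using h1) (show Rk 1 G y _ by simpa using h3))).resolve_left
      fun e => h2 (by rw [← e4, e, dotProduct_zero])
    rw [add_sub_add_left_eq_sub, ← one_smul k θ, smul_smul, ← sub_smul, smul_eq_zero] at this
    refine ⟨rfl, this.resolve_left fun e => c2 ?_⟩
    field_simp at e; linear_combination -e
  · have := (h (Rk.same_axis (by simpa using h1) (show Rk 1 G _ ξ by simpa using h3))).resolve_right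
      fun e => h2 (by rw [← e4, e, zero_dotProduct])
    rw [add_sub_add_left_eq_sub, ← one_smul k u, smul_smul, ← sub_smul, smul_eq_zero, mul_one] at this
    exact ⟨by simpa using this.resolve_left c2, rfl⟩

/-! ### irreducible groups -/

/-- a conjugation invariant family of rank one elements generating an irreducible group -/
structure Cl (ε : k) (G : Subgroup (GL ι k)) (D : (ι → k) → (ι → k) → Prop) : Prop where
  rk : ∀ ⦃v φ⦄, D v φ → Rk ε G v φ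
  conj : ∀ ⦃v φ⦄, D v φ → ∀ g ∈ G, D (g.val *ᵥ v) (φ ᵥ* (g⁻¹).val)
  irr : ∀ W : Submodule k (ι → k), (∀ ⦃v φ⦄, D v φ → ∀ w ∈ W, (φ ⬝ᵥ w) • v ∈ W) → W = ⊥ ∨ W = ⊤

variable {D : (ι → k) → (ι → k) → Prop}

theorem Cl.refl (hε : ε * ε = 1) (h : Cl ε G D) (h1 : D v φ) (h2 : D w ψ) :
    D (w - (φ ⬝ᵥ w) • v) (ψ - (ε * ψ ⬝ᵥ v) • φ) := by
  obtain ⟨a, x, hx, e⟩ := h.rk h1
  have := h.conj h2 x hx
  rwa [ro_inv hε a e, e, ro_mulVec, vecMul_ro, smul_smul, mul_comm] at this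

/-- the kernel of a covector -/
def kr (φ : ι → k) : Submodule k (ι → k) := LinearMap.ker (dotProductBilin k k φ)

theorem mem_kr : v ∈ kr φ ↔ φ ⬝ᵥ v = 0 := Iff.rfl

theorem kr_ne (h : φ ≠ 0) : kr φ ≠ ⊤ := fun e => by
  obtain ⟨u, hu⟩ := exists_dot' h
  exact one_ne_zero (hu.symm.trans (mem_kr.1 (e ▸ trivial)))

theorem Cl.opp (hι : 2 ≤ Fintype.card ι) (hε : ε * ε = 1) (h : Cl ε G D) (hv : v ≠ 0) (hφ : φ ≠ 0) :
    ∃ y ξ, D y ξ ∧ φ ⬝ᵥ y ≠ 0 ∧ ξ ⬝ᵥ v ≠ 0 := by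
  by_contra hc
  push Not at hc
  have a0 : ∀ W : Submodule k (ι → k), W ≤ kr φ → W ≠ ⊤ := fun W e e' => kr_ne hφ (top_le_iff.1 (e' ▸ e))
  obtain ⟨y₂, ξ₂, d₂, n₂⟩ : ∃ y ξ, D y ξ ∧ ξ ⬝ᵥ v ≠ 0 ∧ y ≠ 0 := by
    by_contra hn
    push Not at hn
    rcases h.irr (Submodule.span k {v}) (fun y ξ d w hw => by
      obtain ⟨c, rfl⟩ := Submodule.mem_span_singleton.1 hw
      by_cases e : ξ ⬝ᵥ v = 0
      · simp [e]
      · simp [hn y ξ d e]) with e | e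
    · exact hv (Submodule.span_singleton_eq_bot.1 e)
    · have := finrank_span_singleton (K := k) hv
      rw [e, finrank_top, Module.finrank_fintype_fun_eq_card] at this
      omega
  have a1 : ∀ {y ξ}, D y ξ → ξ ⬝ᵥ v ≠ 0 → φ ⬝ᵥ y = 0 := fun d n => by_contra fun e => n (hc _ _ d e)
  have a2 : ∀ {y ξ y' ξ'}, D y ξ → D y' ξ' → ξ ⬝ᵥ v = 0 → ξ' ⬝ᵥ v ≠ 0 →
      (ξ' - (ε * ξ' ⬝ᵥ y) • ξ) ⬝ᵥ v ≠ 0 := fun d d' e n => by simpa [e] using n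
  rcases h.irr (Submodule.span k {y | ∃ ξ, D y ξ ∧ ξ ⬝ᵥ v ≠ 0}) (fun y ξ d w hw => by
    by_cases e : ξ ⬝ᵥ v = 0
    · induction hw using Submodule.span_induction with
      | mem y' hy =>
        obtain ⟨ξ', d', n'⟩ := hy
        have := sub_mem (Submodule.subset_span (R := k) (s := {y | ∃ ξ, D y ξ ∧ ξ ⬝ᵥ v ≠ 0}) ⟨ξ', d', n'⟩)
          (Submodule.subset_span (s := {y | ∃ ξ, D y ξ ∧ ξ ⬝ᵥ v ≠ 0}) ⟨_, h.refl hε d d', a2 d d' e n'⟩)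
        rwa [sub_sub_cancel] at this
      | zero => simp
      | add a b _ _ ha hb => rw [dotProduct_add, add_smul]; exact add_mem ha hb
      | smul c a _ ha => rw [dotProduct_smul, smul_eq_mul, mul_smul]; exact Submodule.smul_mem _ _ ha
    · exact Submodule.smul_mem _ _ (Submodule.subset_span (s := {y | ∃ ξ, D y ξ ∧ ξ ⬝ᵥ v ≠ 0}) ⟨ξ, d, e⟩)) with e | e
  · exact n₂.2 ((Submodule.span_eq_bot.1 e) _ ⟨ξ₂, d₂, n₂.1⟩)
  · exact a0 _ (Submodule.span_le.2 fun y hy => hy.elim fun ξ h => a1 h.1 h.2) e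

/-- groups which are simple modulo scalars -/
structure QS (G : Subgroup (GL ι k)) : Prop where
  top : alg G = ⊤
  simp : ∀ N ≤ G, Nm G N → N ≤ scalars ι k ∨ G ≤ N ⊔ scalars ι k
  nab : ¬ ∀ x ∈ G, ∀ y ∈ G, ⁅x, y⁆ ∈ scalars ι k

theorem not_scalar (hι : 2 ≤ Fintype.card ι) {g : GL ι k} (e : g.val = 1 - vv v φ) (hv : v ≠ 0) (hφ : φ ≠ 0) :
    g ∉ scalars ι k := fun h => by
  haveI := nonempty_of_two hι
  obtain ⟨c, hc⟩ := mem_scalars.1 h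
  obtain ⟨u, hu⟩ := exists_dot' hφ
  obtain ⟨w, w1, w2⟩ : ∃ w, w ≠ 0 ∧ φ ⬝ᵥ w = 0 := by
    have := (dotProductBilin k k φ).finrank_range_add_finrank_ker
    have h2 := Submodule.finrank_le (LinearMap.range (dotProductBilin k k φ))
    rw [Module.finrank_fintype_fun_eq_card] at this
    rw [Module.finrank_self] at h2
    obtain ⟨w, w1, w2⟩ := (Submodule.ne_bot_iff (kr φ)).1 fun e => by
      rw [show LinearMap.ker _ = ⊥ from e, finrank_bot] at this; omega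
    exact ⟨w, w2, w1⟩
  have h1 := congrArg (· *ᵥ w) (e.symm.trans hc)
  simp only [ro_mulVec, w2, zero_smul, sub_zero, smul_mulVec, one_mulVec] at h1
  have h2 : c = 1 := smul_left_injective k w1 (by simpa using h1.symm)
  rw [h2, one_smul, e, sub_eq_self, vecMulVec_eq_zero] at hc
  exact hc.elim hv hφ

theorem QS.le_closure (h : QS G) {S : Set (GL ι k)} (h1 : S ⊆ G) (h2 : ∀ g ∈ G, ∀ x ∈ S, g * x * g⁻¹ ∈ S)
    (h3 : ∃ x ∈ S, x ∉ scalars ι k) : G ≤ Subgroup.closure S ⊔ scalars ι k := by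
  refine (h.simp _ ((Subgroup.closure_le _).2 h1) fun g hg x hx => ?_).resolve_left fun e => ?_
  · induction hx using Subgroup.closure_induction with
    | mem x hx => exact Subgroup.subset_closure (h2 g hg x hx)
    | one => simp
    | mul x y _ _ a b => simpa [mul_assoc] using mul_mem a b
    | inv x _ a => simpa [mul_assoc] using inv_mem a
  · obtain ⟨x, a, b⟩ := h3
    exact b (e (Subgroup.subset_closure a))

/-- stabilizer of a subspace -/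
def stS (W : Submodule k (ι → k)) : Subgroup (GL ι k) where
  carrier := {g | ∀ w, g.val *ᵥ w ∈ W ↔ w ∈ W}
  mul_mem' {a b} ha hb w := by rw [Units.val_mul, ← mulVec_mulVec, ha, hb]
  one_mem' w := by simp
  inv_mem' {a} ha w := by rw [← ha, mulVec_inv_mulVec]

theorem mem_stS (hε : ε * ε = 1) {W : Submodule k (ι → k)} {g : GL ι k} (h : φ ⬝ᵥ v = 1 + ε)
    (e : g.val = 1 - vv v φ) (hW : ∀ w ∈ W, (φ ⬝ᵥ w) • v ∈ W) : g ∈ stS W := fun w =>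
  ⟨fun a => by
    rw [← inv_mulVec_mulVec g w, ro_inv hε h e, ro_mulVec, smul_dotProduct, smul_eq_mul, mul_smul]
    exact sub_mem a (W.smul_mem _ (hW _ a)), fun a => by rw [e, ro_mulVec]; exact sub_mem a (hW w a)⟩

theorem scalars_le_stS (W : Submodule k (ι → k)) : scalars ι k ≤ stS W := fun x hx w => by
  obtain ⟨c, rfl⟩ := exists_sc hx
  rw [sc_val, smul_mulVec, one_mulVec, W.smul_mem_iff c.ne_zero]

/-- the group generated by a family -/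
def gen (D : (ι → k) → (ι → k) → Prop) : Subgroup (GL ι k) :=
  Subgroup.closure {g | ∃ v φ, D v φ ∧ g.val = 1 - vv v φ}

theorem QS.le_gen (hι : 2 ≤ Fintype.card ι) (h : QS G) (h1 : ∀ ⦃v φ⦄, D v φ → Rk ε G v φ)
    (h2 : ∀ ⦃v φ⦄, D v φ → ∀ g ∈ G, D (g.val *ᵥ v) (φ ᵥ* (g⁻¹).val)) (d : D v φ) (hv : v ≠ 0) (hφ : φ ≠ 0) :
    G ≤ gen D ⊔ scalars ι k :=
  h.le_closure (fun _ ⟨v, φ, d, e⟩ => RS_le ⟨v, φ, h1 d, e⟩) (fun g hg _ ⟨_, _, d, e⟩ => ⟨_, _, h2 d g hg, conj_ro e g⟩)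
    ((h1 d).2.elim fun x hx => ⟨x, ⟨v, φ, d, hx.2⟩, not_scalar hι hx.2 hv hφ⟩)

theorem QS.cl (hι : 2 ≤ Fintype.card ι) (hε : ε * ε = 1) (h : QS G) (h1 : ∀ ⦃v φ⦄, D v φ → Rk ε G v φ)
    (h2 : ∀ ⦃v φ⦄, D v φ → ∀ g ∈ G, D (g.val *ᵥ v) (φ ᵥ* (g⁻¹).val)) (d : D v φ) (hv : v ≠ 0) (hφ : φ ≠ 0) :
    Cl ε G D := by
  refine ⟨h1, h2, fun W hW => irr_of_alg h.top W fun g hg w hw => ?_⟩
  have h3 : gen D ⊔ scalars ι k ≤ stS W := sup_le ((Subgroup.closure_le _).2 fun x ⟨y, ξ, d, e⟩ =>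
    mem_stS hε (h1 d).1 e (hW d)) (scalars_le_stS W)
  exact (h3 (h.le_gen hι h1 h2 d hv hφ hg) w).2 hw

theorem QS.cl_all (hι : 2 ≤ Fintype.card ι) (hε : ε * ε = 1) (h : QS G) (d : Rk ε G v φ) (hv : v ≠ 0) (hφ : φ ≠ 0) :
    Cl ε G (Rk ε G) := h.cl hι hε (fun _ _ a => a) (fun _ _ a _ hg => a.conj hg) d hv hφ

theorem le_of_perfect {P : Subgroup (GL ι k)} (hP : ⁅P, P⁆ = P) (h : P ≤ H ⊔ scalars ι k) : P ≤ H := by
  rw [← hP, Subgroup.commutator_le]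
  intro x hx y hy
  haveI := scalars_normal (ι := ι) (F := k)
  obtain ⟨a, ha, z, hz, rfl⟩ := Subgroup.mem_sup_of_normal_right.1 (h hx)
  obtain ⟨b, hb, z', hz', rfl⟩ := Subgroup.mem_sup_of_normal_right.1 (h hy)
  have c : ∀ {z : GL ι k}, z ∈ scalars ι k → ∀ a u v, u * z * a * v = u * a * v * z := fun hz a u v => by
    rw [mul_assoc u, scalars_comm hz, ← mul_assoc, mul_assoc _ _ v, scalars_comm hz, ← mul_assoc]
  have : ⁅a * z, b * z'⁆ = a * b * a⁻¹ * b⁻¹ := by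
    rw [commutatorElement_def, c hz _ _ (a * z)⁻¹, ← mul_assoc a, _root_.mul_inv_rev a, ← mul_assoc,
      c (inv_mem hz) a⁻¹ _ z |>.trans (by rw [mul_inv_cancel_right]), c hz', _root_.mul_inv_rev, ← mul_assoc,
      c (inv_mem hz') b⁻¹ _ z' |>.trans (by rw [mul_inv_cancel_right])]
  exact this ▸ mul_mem (mul_mem (mul_mem ha hb) (inv_mem ha)) (inv_mem hb)

end H12.D5
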