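/-
Five-dimensional matrix groups: the interface for groups containing reflections or transvections.
-/
import Cfsg.Agent.H12.D5I
import Cfsg.Agent.H12.D5a

set_option autoImplicit false
set_option linter.unusedSectionVars false

namespace H12.D5
open Matrix Cfsg.Geo H27.Asch
open scoped commutatorElement MatrixGroups

variable {k : Type*} [Field k]

local notation "vv" => vecMulVec

/-- the group extended by the scalars -/
abbrev GZ (P : Subgroup (G5 k)) : Subgroup (G5 k) := P ⊔ scalars (Fin 5) k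

theorem Hy.qs {P G : Subgroup (G5 k)} (h : Hy P) (h1 : P ≤ G) (h2 : G ≤ GZ P) : QS G := by
  haveI := scalars_normal (ι := Fin 5) (F := k)
  haveI := h.simp
  refine ⟨top_le_iff.1 (h.top ▸ alg_mono h1), fun N hN hn => ?_, fun e => h.nab ⟨⟨fun a b => ?_⟩⟩⟩
  · haveI : ((N ⊔ scalars (Fin 5) k).subgroupOf P).Normal := ⟨fun x hx g =>
      Nm.sup hn (fun a _ b hb => (scalars_normal (ι := Fin 5) (F := k)).conj_mem b hb a) g (h1 g.2) x hx⟩
    rcases (Subgroup.Normal.map this (QuotientGroup.mk' ((scalars (Fin 5) k).subgroupOf P))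
      (QuotientGroup.mk'_surjective _)).eq_bot_or_eq_top with e | e
    · refine .inl fun x hx => ?_
      obtain ⟨a, ha, z, hz, rfl⟩ := Subgroup.mem_sup_of_normal_right.1 (h2 (hN hx))
      have : (⟨a, ha⟩ : P) ∈ (scalars (Fin 5) k).subgroupOf P := (QuotientGroup.eq_one_iff _).1
        ((Subgroup.map_eq_bot_iff _).1 e (show a ∈ N ⊔ scalars (Fin 5) k by
          simpa using mul_mem (Subgroup.mem_sup_left hx) (Subgroup.mem_sup_right (inv_mem hz))))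
      exact mul_mem this hz
    · refine .inr (h2.trans (sup_le (fun x hx => ?_) le_sup_right))
      obtain ⟨y, hy, e'⟩ := e.ge (Subgroup.mem_top (QuotientGroup.mk' _ (⟨x, hx⟩ : P)))
      simpa using mul_mem (show y.1 ∈ N ⊔ scalars (Fin 5) k from hy)
        (Subgroup.mem_sup_right (show (y⁻¹ * ⟨x, hx⟩).1 ∈ scalars (Fin 5) k from
          (QuotientGroup.eq (s := (scalars (Fin 5) k).subgroupOf P)).1 e'))
  · obtain ⟨a, rfl⟩ := QuotientGroup.mk_surjective a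
    obtain ⟨b, rfl⟩ := QuotientGroup.mk_surjective b
    rw [← commutatorElement_eq_one_iff_mul_comm]
    exact (QuotientGroup.eq_one_iff (⁅a, b⁆ : P)).2 (e _ (h1 a.2) _ (h1 b.2))

/-- the group generated by an invariant family of reflections or transvections contains `P` -/
theorem Hy.le_gen {P : Subgroup (G5 k)} (h : Hy P) {ε : k} {D : (Fin 5 → k) → (Fin 5 → k) → Prop}
    (h1 : ∀ ⦃v φ⦄, D v φ → Rk ε (GZ P) v φ) (h2 : ∀ ⦃v φ⦄, D v φ → ∀ g ∈ GZ P, D (g.val *ᵥ v) (φ ᵥ* (g⁻¹).val))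
    {v φ : Fin 5 → k} (d : D v φ) (hv : v ≠ 0) (hφ : φ ≠ 0) : P ≤ gen D :=
  le_of_perfect h.perf (le_sup_left.trans ((h.qs le_sup_left le_rfl).le_gen (by simp) h1 h2 d hv hφ))

/-- `P` is the commutator subgroup of `GZ P` -/
theorem Hy.le_of_perf {P H : Subgroup (G5 k)} (h : ⁅H, H⁆ = H) (h1 : H ≤ GZ P) : H ≤ P := le_of_perfect h h1

/-- the traces generate the field -/
def TG (P : Subgroup (G5 k)) : Prop := ∀ K : Subfield k, (∀ x ∈ P, x.val.trace ∈ K) → K = ⊤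

/-- a full unitary group -/
def Uni [Fintype k] (P : Subgroup (G5 k)) : Prop :=
  (∃ σ : k →+* k, (∀ a, σ (σ a) = a) ∧ σ ≠ RingHom.id k ∧ ∀ x ∈ P, (x⁻¹).val.trace = σ x.val.trace) ∧
    ∀ q : ℕ, Fintype.card k = q ^ 2 → P ≤ Cfsg.GU 5 k q → Cfsg.GU 5 k q ⊓ specialLinear (Fin 5) k ≤ P

/-- the group `U₄(2)` -/
def U42 (P : Subgroup (G5 k)) : Prop :=
  (∃ (K : Type) (_ : Field K) (_ : Fintype K), Fintype.card K = 4 ∧ Nonempty (Qt P ≃* Cfsg.PSU 4 K 2)) ∧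
    ∀ p : ℕ, p.Prime → CharP k p → (p % 3 = 1 → ∀ x ∈ P, x.val.trace ^ p = x.val.trace) ∧
      (p % 3 = 2 → ∀ x ∈ P, x.val.trace ^ p = (x⁻¹).val.trace)

/-- different transvections have different centres and different axes -/
def N2 {ι : Type} [Fintype ι] [DecidableEq ι] (G : Subgroup (GL ι k)) : Prop :=
  (∀ ⦃v φ ψ⦄, Rk (-1) G v φ → Rk (-1) G v ψ → v ≠ 0 → φ ≠ 0 → ψ ≠ 0 → φ = ψ) ∧
    ∀ ⦃v w φ⦄, Rk (-1) G v φ → Rk (-1) G w φ → φ ≠ 0 → v ≠ 0 → w ≠ 0 → v = w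

universe u

/-- two transvections with the same centre or the same axis -/
def TT : Prop := ∀ (F : Type u) [Field F] [Fintype F] (P : Subgroup (G5 F)), Hy P → TG P → ¬ N2 (GZ P) →
  P = specialLinear (Fin 5) F ∨ Real P ∨ Uni P

/-- the 45 reflections of `U₄(2) × 2` -/
def UU3 : Prop := ∀ (F : Type u) [Field F] [Fintype F] (P : Subgroup (G5 F)), Hy P → (2 : F) ≠ 0 → (3 : F) ≠ 0 →
  (∃ ω : F, ω ^ 2 + ω + 1 = 0) → ∀ (κ : Type) [Fintype κ] [DecidableEq κ], Fintype.card κ = 4 →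
  ∀ (y ξ : κ → Fin 5 → F) (y' ξ' : Fin 5 → F), (∀ i j, ξ i ⬝ᵥ y j = if i = j then 1 else 0) →
  (∀ i, ξ i ⬝ᵥ y' = 0) → (∀ i, ξ' ⬝ᵥ y i = 0) → ξ' ⬝ᵥ y' = 1 →
  (∀ v φ, Rk 1 (GZ P) v φ ↔ (∃ i j, ∃ ζ : F, i ≠ j ∧ ζ ^ 3 = 1 ∧ vv v φ = vv (y i - ζ • y j) (ξ i - ζ⁻¹ • ξ j)) ∨
    ∃ d : κ → F, (∀ i, d i ^ 3 = 1) ∧ ∏ i, d i = 1 ∧
      vv v φ = vv (∑ i, d i • y i + y') ((3 : F)⁻¹ • (∑ i, (d i)⁻¹ • ξ i + (2 : F) • ξ'))) → U42 P

/-- the 165 transvections of `U₅(2)` -/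
def UU2 : Prop := ∀ (F : Type u) [Field F] [Fintype F] (P : Subgroup (G5 F)), Hy P → TG P → (2 : F) = 0 →
  (∃ ω : F, ω ^ 2 + ω + 1 = 0) → ∀ (κ : Type) [Fintype κ] [DecidableEq κ], Fintype.card κ = 5 →
  ∀ (y ξ : κ → Fin 5 → F), (∀ i j, ξ i ⬝ᵥ y j = if i = j then 1 else 0) →
  (∀ v φ, Rk 1 (GZ P) v φ ↔ ∃ a : κ → F, (∀ i, a i ^ 4 = a i) ∧ ∑ i, a i ^ 3 = 0 ∧
    vv v φ = vv (∑ i, a i • y i) (∑ i, a i ^ 2 • ξ i)) → Uni P

end H12.D5
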