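/-
Five-dimensional matrix groups: the interface for groups containing transvections.
-/
import Cfsg.Agent.H12.D5J

set_option autoImplicit false

namespace H12.D5
open Matrix Cfsg.Geo H27.Asch

variable {k : Type*} [Field k]

/-- root subgroups have order at most two -/
def E2 {ι : Type} [Fintype ι] [DecidableEq ι] (G : Subgroup (GL ι k)) : Prop :=
  ∀ ⦃v φ⦄ ⦃c : k⦄, Rk (-1) G v φ → Rk (-1) G v (c • φ) → v ≠ 0 → φ ≠ 0 → c = 0 ∨ c = 1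

universe u

/-- a root subgroup of order at least three -/
def TT1 : Prop := ∀ (F : Type u) [Field F] [Fintype F] (P : Subgroup (G5 F)), Hy P → TG P → ¬ E2 (GZ P) →
  P = specialLinear (Fin 5) F ∨ Real P ∨ Uni P

/-- the group `L₅(2)` -/
def TT2 : Prop := ∀ (F : Type u) [Field F] [Fintype F] (P : Subgroup (G5 F)), Hy P → TG P → (2 : F) = 0 →
  E2 (GZ P) → ¬ Sy (-1) (GZ P) → (∀ v φ w ψ y β, Rk (-1) (GZ P) v φ → Rk (-1) (GZ P) w ψ → Rk (-1) (GZ P) y β →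
    ψ ⬝ᵥ v = 0 → φ ⬝ᵥ w * ψ ⬝ᵥ y * β ⬝ᵥ v = 0 ∨ φ ⬝ᵥ w * ψ ⬝ᵥ y * β ⬝ᵥ v = 1) → P = specialLinear (Fin 5) F

end H12.D5
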