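import Cfsg.Agent.H16.DG0
import Cfsg.Agent.H12.ClassifyQuad

/-! S4984: counting totally singular subspaces, the parameters of the standard forms, rank two. -/

set_option autoImplicit false
set_option linter.unusedSectionVars false

open Cfsg Module H12 H5 Finset H16.DG H11 Submodule
open scoped Classical

namespace H12.DG

theorem card_fib {α β : Type} [Finite α] [Finite β] (f : α → β) {c : ℕ} (h : ∀ b, Nat.card {a // f a = b} = c) :
    Nat.card α = Nat.card β * c := by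
  have := Fintype.ofFinite β
  rw [← Nat.card_congr (Equiv.sigmaFiberEquiv f), Nat.card_sigma]
  simp [h]
theorem card_split {α : Type} [Finite α] (p r : α → Prop) :
    Nat.card {a // p a} = Nat.card {a // p a ∧ r a} + Nat.card {a // p a ∧ ¬ r a} := by
  rw [← Nat.card_congr (Equiv.sumCompl fun a : {a // p a} => r a), Nat.card_sum,
    Nat.card_congr (Equiv.subtypeSubtypeEquivSubtypeInter p r),
    Nat.card_congr (Equiv.subtypeSubtypeEquivSubtypeInter p fun a => ¬ r a)]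
theorem card_iff {α : Type} {p r : α → Prop} (h : ∀ a, p a ↔ r a) : Nat.card {a // p a} = Nat.card {a // r a} :=
  Nat.card_congr (Equiv.subtypeEquivRight h)

variable {F : Type} [Field F] [Finite F] {T : FormType F} {V : Type} [AddCommGroup V] [Module F V] [Finite V]
  {C : CForm T V} {U W : Submodule F V} {w t : ℕ} {v x y : V}

local notation "𝓆" => Nat.card F

theorem q2 : 2 ≤ 𝓆 := Finite.one_lt_card
theorem card_diff (h : W ≤ U) : Nat.card {v // v ∈ U ∧ v ∉ W} + 𝓆 ^ finrank F W = 𝓆 ^ finrank F U := by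
  rw [← natCard_eq_pow_finrank (K := F) (V := U), ← natCard_eq_pow_finrank (K := F) (V := W), add_comm,
    card_split (· ∈ U) (· ∈ W), card_iff (r := (· ∈ W)) fun a => and_iff_right_of_imp (@h a)]
theorem perp_sup1 : v ∈ C.perp (W ⊔ F ∙ x) ↔ v ∈ C.perp W ∧ C.B x v = 0 := by
  rw [C.perp_sup, Submodule.mem_inf, C.mem_perp_singleton]
theorem ts_sup1 (hW : C.TS W) (h : v ∈ C.perp W) (h0 : C.N v = 0) : C.TS (W ⊔ F ∙ v) :=
  hW.sup (CForm.ts_singleton h0) ((span_singleton_le_iff_mem _ _).2 h)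
theorem mem_sup1 : v ∈ W ⊔ F ∙ v := mem_sup_right (mem_span_singleton_self v)

theorem card_tup (h : Par C w t) (k : ℕ) : Nat.card {s : Fin k → V // LinearIndependent F s ∧ C.TS (span F (Set.range s))} =
    ∏ i ∈ range k, 𝓆 ^ i * ((𝓆 ^ (w - i) - 1) * (𝓆 ^ (w - i - 1) * t + 1)) := by
  induction k with
  | zero => exact Nat.card_eq_one_iff_unique.2 ⟨inferInstance, ⟨⟨![], linearIndependent_empty_type, by simpa using CForm.ts_bot⟩⟩⟩
  | succ k ih =>
  have e : ∀ (v : V) (s : Fin k → V), span F (Set.range (Fin.cons v s : Fin (k + 1) → V)) = span F (Set.range s) ⊔ F ∙ v :=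
    fun v s => by rw [Fin.range_cons, span_insert, sup_comm]
  have k1 : ∀ a : Fin (k + 1) → V, LinearIndependent F a ∧ C.TS (span F (Set.range a)) →
      (LinearIndependent F (Fin.tail a) ∧ C.TS (span F (Set.range (Fin.tail a)))) ∧
        a 0 ∈ C.perp (span F (Set.range (Fin.tail a))) ∧ C.N (a 0) = 0 ∧ a 0 ∉ span F (Set.range (Fin.tail a)) := fun a h => by
    rw [← Fin.cons_self_tail a, linearIndependent_finCons, e] at h
    exact ⟨⟨h.1.1, h.2.mono le_sup_left⟩, C.perp_anti le_sup_left (h.2.le_perp mem_sup1), h.2.1 _ mem_sup1, h.1.2⟩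
  rw [prod_range_succ, ← ih]
  refine card_fib (fun a => ⟨Fin.tail a.1, (k1 _ a.2).1⟩) fun s => ?_
  have := (h.2 _ s.2.2).2
  rw [finrank_span_eq_card s.2.1, Fintype.card_fin] at this
  rw [← this]
  refine (Nat.card_eq_of_bijective (fun v => ⟨⟨Fin.cons v.1 s.1, linearIndependent_finCons.2 ⟨s.2.1, v.2.2.2⟩,
    e _ _ ▸ ts_sup1 s.2.2 v.2.1 v.2.2.1⟩, rfl⟩) ⟨fun a b e => Subtype.ext (congrArg (fun x => x.1.1 0) e), ?_⟩).symm
  rintro ⟨a, rfl⟩
  exact ⟨⟨a.1 0, (k1 _ a.2).2⟩, Subtype.ext (Subtype.ext (Fin.cons_self_tail _))⟩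

theorem ix : IX := by
  intro F _ _ T V _ _ _ C hT hC w t W h hW
  have := Fintype.ofFinite F
  generalize hk : finrank F W = k
  let X := {Y : Submodule F V // C.TS Y ∧ finrank F Y = k}
  letI : MulAction C.isom X := {
    smul g Y := ⟨im C g Y.1, ts_im Y.2.1, finrank_im.trans Y.2.2⟩
    one_smul _ := Subtype.ext im_one
    mul_smul _ _ _ := Subtype.ext im_mul }
  have : MulAction.IsPretransitive C.isom X := ⟨fun Y Z =>
    let ⟨g, a, b⟩ := Y.2.1.exists_map_eq hC Z.2.1 (Y.2.2.trans Z.2.2.symm); ⟨⟨g, a⟩, Subtype.ext b⟩⟩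
  have e1 : (St C W).index = Nat.card X := by
    rw [← MulAction.index_stabilizer_of_transitive C.isom (⟨W, hW, hk⟩ : X)]
    congr 1
    exact Subgroup.ext fun g => mem_St_im.trans ⟨fun h => Subtype.ext h, congrArg Subtype.val⟩
  have e2 := card_fib (β := X) (c := ∏ i ∈ range k, (Nat.card F ^ k - Nat.card F ^ i))
    (fun s : {s : Fin k → V // LinearIndependent F s ∧ C.TS (span F (Set.range s))} =>
      ⟨_, s.2.2, by rw [finrank_span_eq_card s.2.1, Fintype.card_fin]⟩) fun Y => by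
    have := card_linearIndependent (K := F) (V := Y.1) Y.2.2.ge
    rw [Y.2.2, ← Nat.card_eq_fintype_card, Fin.prod_univ_eq_prod_range fun i => Nat.card F ^ k - Nat.card F ^ i] at this
    rw [← this]
    have l : ∀ s : Fin k → Y.1, span F (Set.range (Y.1.subtype ∘ s)) ≤ Y.1 := fun s =>
      span_le.2 (by rintro _ ⟨i, rfl⟩; exact (s i).2)
    refine (Nat.card_eq_of_bijective (fun s => ⟨⟨Y.1.subtype ∘ s.1, s.2.map' _ Y.1.ker_subtype, Y.2.1.mono (l _)⟩,
      Subtype.ext (eq_of_le_of_finrank_eq (l _) (by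
        rw [finrank_span_eq_card (s.2.map' _ Y.1.ker_subtype), Fintype.card_fin, Y.2.2]))⟩)
      ⟨fun a b e => Subtype.ext (funext fun i => Subtype.ext (congrArg (fun x => x.1.1 i) e)), ?_⟩).symm
    rintro ⟨a, rfl⟩
    exact ⟨⟨fun i => ⟨a.1 i, subset_span ⟨i, rfl⟩⟩, .of_comp (Submodule.subtype _) a.2.1⟩, rfl⟩
  rw [card_tup h, prod_mul_distrib, ← e1, prod_congr rfl fun i hi => (show Nat.card F ^ k - Nat.card F ^ i = Nat.card F ^ i * (Nat.card F ^ (k - 1 - i + 1) - 1) by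
    rw [Nat.mul_sub_one, ← pow_add, show i + (k - 1 - i + 1) = k by have := mem_range.1 hi; omega]), prod_mul_distrib (g := fun i => _ ^ (k - 1 - i + 1) - 1),
    prod_range_reflect fun i => Nat.card F ^ (i + 1) - 1, mul_left_comm] at e2
  exact (Nat.eq_of_mul_eq_mul_left (prod_pos fun i _ => pow_pos Nat.card_pos i) e2).symm

variable (C U) in
/-- the number of singular vectors in `U^⊥` -/
noncomputable def zc : ℕ := Nat.card {v // v ∈ C.perp U ∧ C.N v = 0}

theorem zc_eq (hW : C.TS W) : zc C W = 𝓆 ^ finrank F W + Nat.card {v // v ∈ C.perp W ∧ C.N v = 0 ∧ v ∉ W} := by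
  rw [zc, card_split _ (· ∈ W), card_iff (r := (· ∈ W)) fun a => ⟨And.right, fun h => ⟨⟨hW.le_perp h, hW.1 a h⟩, h⟩⟩,
    card_iff fun a => and_assoc, natCard_eq_pow_finrank (K := F)]

theorem zc_step {C : CForm (quadType F) V} (hC : C.Nondeg) (hx : x ∈ C.perp W) (h0 : C.N x = 0) (hxW : x ∉ W) :
    zc C W * 𝓆 + 𝓆 ^ (finrank F V - finrank F W - 1) = zc C (W ⊔ F ∙ x) * 𝓆 + 𝓆 ^ (finrank F V - finrank F W) := by
  have h1 := card_diff (C.perp_anti (le_sup_left : W ≤ W ⊔ F ∙ x))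
  have h2 := hC.finrank_add_finrank_perp W
  have h3 := hC.finrank_add_finrank_perp (W ⊔ F ∙ x)
  rw [finrank_sup_span_singleton hxW] at h3
  have n : ∀ v c, C.N (v + c • x) = C.N v + c * C.B x v := fun v c => by
    rw [C.N_add, C.N_smul_of_zero h0, C.B_smul_right, quad_symm C x v, add_zero]; rfl
  have b : ∀ v (c : F), C.B x (v + c • x) = C.B x v := fun v c => by
    rw [map_add, C.B_smul_right, C.B_self_of_zero h0, mul_zero, add_zero]
  rw [zc, card_split _ (C.B x · = 0), card_iff (r := fun v => v ∈ C.perp (W ⊔ F ∙ x) ∧ C.N v = 0) fun a => by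
    rw [perp_sup1, and_right_comm], add_mul, add_assoc, ← zc, ← Nat.card_prod {a // _ ∧ ¬ _}, show finrank F V - finrank F W - 1 = finrank F (C.perp (W ⊔ F ∙ x)) by omega,
    show finrank F V - finrank F W = finrank F (C.perp W) by omega, ← h1]
  congr 2
  refine Nat.card_eq_of_bijective (fun a => ⟨a.1.1 + a.2 • x, add_mem a.1.2.1.1 (smul_mem _ _ hx),
    fun k => a.1.2.2 (b _ _ ▸ (perp_sup1.1 k).2)⟩) ⟨fun a a' e => ?_, fun u => ?_⟩
  · have e : a.1.1 + a.2 • x = a'.1.1 + a'.2 • x := congrArg Subtype.val e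
    have e1 := congrArg (C.B x) e
    have e2 := congrArg C.N e
    rw [b, b] at e1
    rw [n, n, a.1.2.1.2, a'.1.2.1.2, ← e1, zero_add, zero_add, mul_left_inj' a.1.2.2] at e2
    exact Prod.ext (Subtype.ext (by simpa [e2] using e)) e2
  have u0 : C.B x u ≠ 0 := fun k => u.2.2 (perp_sup1.2 ⟨u.2.1, k⟩)
  exact ⟨(⟨u + (-(C.N u / C.B x u)) • x, ⟨add_mem u.2.1 (smul_mem _ _ hx), by rw [n]; field_simp; ring⟩, by rwa [b]⟩,
    C.N u / C.B x u), Subtype.ext (by simp)⟩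

theorem par_quad {C : CForm (quadType F) V} (hC : C.Nondeg) {d : ℕ} (h : C.HasTS w) (h' : ¬ C.HasTS (w + 1))
    (hd : finrank F V = 2 * w + d) : Par C w (𝓆 ^ d) := by
  have l : ∀ W, C.TS W → finrank F W ≤ w := fun W hW => le_of_not_gt fun k => h' (CForm.HasTS.mono ⟨W, hW, rfl⟩ k)
  refine ⟨h, fun W hW => ⟨l W hW, ?_⟩⟩
  obtain ⟨j, hj⟩ := Nat.exists_eq_add_of_le (l W hW)
  rw [show w - finrank F W = j by omega]
  induction j generalizing W with
  | zero =>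
    have : IsEmpty {v // v ∈ C.perp W ∧ C.N v = 0 ∧ v ∉ W} := ⟨fun v => by
      have := l _ (ts_sup1 hW v.2.1 v.2.2.1)
      rw [finrank_sup_span_singleton v.2.2.2] at this
      omega⟩
    simp
  | succ j ih =>
  obtain ⟨W', a, b⟩ := h
  obtain ⟨X, a1, a2, a3⟩ := hW.exists_le hC a (by omega)
  obtain ⟨x, hx, n⟩ := SetLike.exists_of_lt (lt_of_le_of_ne a2 fun e => by rw [← e] at a3; omega)
  have p := C.perp_anti a2 (a1.le_perp hx)
  have s := ts_sup1 hW p (a1.1 x hx)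
  have e := zc_step hC p (a1.1 x hx) n
  have f := finrank_sup_span_singleton n
  rw [zc_eq hW, zc_eq s, ih _ s (by omega), f, show finrank F V - finrank F W = finrank F W + 2 * j + d + 2 by omega,
    show finrank F W + 2 * j + d + 2 - 1 = finrank F W + 2 * j + d + 1 from rfl] at e
  have q0 : 0 < 𝓆 := Nat.card_pos
  refine Nat.eq_of_mul_eq_mul_right q0 ?_
  generalize Nat.card {v // v ∈ C.perp W ∧ C.N v = 0 ∧ v ∉ W} = z at e ⊢
  zify [Nat.one_le_pow _ _ q0] at e ⊢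
  rcases j with _ | j
  · simp only [Nat.zero_add, Nat.sub_self, Nat.zero_sub] at e ⊢
    linear_combination e
  · simp only [Nat.add_sub_cancel] at e ⊢
    linear_combination e

theorem par : PAR := by
  intro F _ _ m
  refine ⟨⟨alt_hasTS' spForm_nondeg (by simp; omega), fun W hW => ?_⟩,
    fun h2 => ?_, ?_, fun a b h => ?_⟩
  · have h1 := hW.two_mul_finrank_le spForm_nondeg
    have h2 := (spForm_nondeg (ι := Fin m) (F := F)).finrank_add_finrank_perp W
    have h3 := card_diff hW.le_perp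
    rw [finrank_fintype_fun_eq_card, Fintype.card_sum, Fintype.card_fin] at h1 h2
    obtain ⟨j, hj⟩ := Nat.exists_eq_add_of_le (show finrank F W ≤ m by omega)
    refine ⟨by omega, ?_⟩
    rw [card_iff (r := fun v => v ∈ (spForm _ F).perp W ∧ v ∉ W) fun a => by simp [spForm, CForm.ofAlt],
      show m - finrank F W = j by omega]
    rw [show finrank F ((spForm _ F).perp W) = finrank F W + 2 * j by omega] at h3
    zify [Nat.one_le_pow _ _ (Nat.card_pos (α := F))] at h3 ⊢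
    rcases j with _ | j
    · linear_combination h3
    · simp only [Nat.add_sub_cancel]
      linear_combination h3
  · have hC := qOdd_nondeg h2 m
    simpa using par_quad hC (d := 1) (quad_hasTS m hC (by simp; omega)) (fun k => by
      have := k.two_mul_le hC; simp at this; omega) (by simp; omega)
  · simpa using par_quad (qPlus_nondeg m) (d := 0) (qPlus_hasTS m) (fun k => by
      have := k.two_mul_le (qPlus_nondeg m); simp at this; omega) (by simp; omega)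
  · have d := disc_ne_zero_of_aniso h
    exact par_quad (qMinus_nondeg m d) (quad_hasTS_pred (qMinus_nondeg m d) (by simp; omega)) (qMinus_not_hasTS m d h)
      (by simp; omega)

/-! ### points of `W^⊥ / W` -/

theorem xw_ex (Y : XW C W) : ∃ y ∈ Y.1, y ∉ W :=
  SetLike.exists_of_lt (lt_of_le_of_ne Y.2.2.1 fun e => by have := Y.2.2.2; rw [← e] at this; omega)
theorem xw_eq (Y : XW C W) (h : y ∈ Y.1) (n : y ∉ W) : W ⊔ F ∙ y = Y.1 :=
  eq_of_le_of_finrank_eq (sup_le Y.2.2.1 ((span_singleton_le_iff_mem _ _).2 h)) ((finrank_sup_span_singleton n).trans Y.2.2.2.symm)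
theorem xw_ext {Y Z : XW C W} (h : y ∈ Y.1) (h' : y ∈ Z.1) (n : y ∉ W) : Y = Z :=
  Subtype.ext ((xw_eq Y h n).symm.trans (xw_eq Z h' n))
theorem xw_perp {Y Z : XW C W} (h : x ∈ Y.1) (n : x ∉ W) (h' : y ∈ Z.1) (n' : y ∉ W) : Z.1 ≤ C.perp Y.1 ↔ C.B x y = 0 := by
  refine ⟨fun k => k h' x h, fun k => ?_⟩
  rw [← xw_eq Z h' n', sup_le_iff, span_singleton_le_iff_mem, C.le_perp_comm, ← xw_eq Y h n, perp_sup1]
  exact ⟨(xw_eq Y h n).le.trans Y.le_perp, Z.le_perp h', k⟩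

theorem card_xw (hW : C.TS W) (h : W ≤ U) (h' : W ≤ C.perp U) :
    zc C U = 𝓆 ^ finrank F W + Nat.card {Y : XW C W // Y.1 ≤ C.perp U} * (𝓆 ^ finrank F W * (𝓆 - 1)) := by
  rw [zc, card_split _ (· ∈ W), card_iff (r := (· ∈ W)) fun a => ⟨And.right, fun h => ⟨⟨h' h, hW.1 a h⟩, h⟩⟩,
    natCard_eq_pow_finrank (K := F)]
  congr 1
  refine card_fib (fun v => ⟨⟨W ⊔ F ∙ v.1, ts_sup1 hW (C.perp_anti h v.2.1.1) v.2.1.2, le_sup_left,
    finrank_sup_span_singleton v.2.2⟩, sup_le h' ((span_singleton_le_iff_mem _ _).2 v.2.1.1)⟩) fun Y => ?_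
  have := card_diff Y.1.2.2.1
  rw [Y.1.2.2.2, pow_succ] at this
  rw [Nat.mul_sub_one, ← this, Nat.add_sub_cancel]
  refine Nat.card_eq_of_bijective (fun a => ⟨a.1.1, (congrArg (·.1.1) a.2 : W ⊔ _ = Y.1.1).le mem_sup1, a.1.2.2⟩)
    ⟨fun a b e => Subtype.ext (Subtype.ext (congrArg (·.1) e :)), fun u => ?_⟩
  exact ⟨⟨⟨u, ⟨Y.2 u.2.1, Y.1.2.1.1 _ u.2.1⟩, u.2.2⟩, Subtype.ext (Subtype.ext (xw_eq _ u.2.1 u.2.2))⟩, rfl⟩

theorem card_xw' (h : Par C w t) (hW : C.TS W) :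
    Nat.card (XW C W) * (𝓆 - 1) = (𝓆 ^ (w - finrank F W) - 1) * (𝓆 ^ (w - finrank F W - 1) * t + 1) := by
  have := card_xw hW le_rfl hW.le_perp
  rw [zc_eq hW, (h.2 W hW).2, Nat.card_congr (Equiv.subtypeUnivEquiv XW.le_perp), mul_left_comm (Nat.card _)] at this
  exact (Nat.eq_of_mul_eq_mul_left (pow_pos Nat.card_pos _) (Nat.add_left_cancel this)).symm

theorem im_sup1 {g : C.isom} (h : ∀ x ∈ W, g.1 x = x) : im C g (W ⊔ F ∙ x) = W ⊔ F ∙ g.1 x := by
  rw [im, Submodule.map_sup, map_span, Set.image_singleton, ← im, mem_St_im.1 (mem_St_of fun v hv => (h v hv).symm ▸ hv)]; rfl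

theorem tr1 (hC : C.Nondeg) (Y Y' : XW C W) : ∃ g : C.isom, (∀ x ∈ W, g.1 x = x) ∧ im C g Y.1 = Y'.1 := by
  obtain ⟨y, a, b⟩ := xw_ex Y
  obtain ⟨y', a', b'⟩ := xw_ex Y'
  obtain ⟨g, hg, h1, h2⟩ := hC.witt_step W b b' (fun x hx => (Y'.le_perp a' x hx).trans (Y.le_perp a x hx).symm)
    ((Y'.2.1.1 _ a').trans (Y.2.1.1 _ a).symm)
  exact ⟨⟨g, hg⟩, h1, by rw [← xw_eq Y a b, im_sup1 h1, ← xw_eq Y' a' b', ← h2]⟩

theorem tr3 (hC : C.Nondeg) : Tr3 C W (St C W) := fun Y Z Y' Z' h1 h2 => by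
  obtain ⟨g, hg, e⟩ := tr1 hC Y Y'
  have gS : g ∈ St C W := mem_St_of fun v hv => (hg v hv).symm ▸ hv
  by_cases k : Y = Z
  · exact ⟨g, gS, e, k ▸ h1.1 k ▸ e⟩
  obtain ⟨y, a, b⟩ := xw_ex Y'
  obtain ⟨z, c, d⟩ := xw_ex ((⟨g, gS⟩ : St C W) • Z)
  obtain ⟨z', c', d', f⟩ : ∃ z' ∈ Z'.1, z' ∉ W ∧ C.B y z' = C.B y z := by
    obtain ⟨z', c', d'⟩ := xw_ex Z'
    rw [← im_mono (C := C) (g := g), ← perp_im, e, xw_perp a b c' d'] at h2
    replace h2 := (xw_perp a b c d).symm.trans h2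
    by_cases k : C.B y z' = 0
    · exact ⟨z', c', d', k.trans (h2.2 k).symm⟩
    exact ⟨(C.B y z / C.B y z') • z', smul_mem _ _ c', fun m => d' ((smul_mem_iff _ (div_ne_zero (mt h2.1 k) k)).1 m), by
      rw [C.B_smul_right, div_mul_cancel₀ _ k]⟩
  obtain ⟨g', hg', h3, h4⟩ := hC.witt_step Y'.1 (u := z) (v := z') (fun m => k (Subtype.ext (le_antisymm
      (im_mono.1 (e.le.trans (congrArg Subtype.val (xw_ext m c d)).le)) (im_mono.1 ((congrArg Subtype.val
        (xw_ext m c d)).ge.trans e.ge))))) (fun m => k (h1.2 (xw_ext m c' d'))) (fun x hx => by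
      rw [← xw_eq Y' a b] at hx
      obtain ⟨u, hu, _, hv, rfl⟩ := Submodule.mem_sup.1 hx
      obtain ⟨s, rfl⟩ := mem_span_singleton.1 hv
      rw [C.B_add_left, C.B_add_left, Z'.le_perp c' u hu, XW.le_perp _ c u hu]
      exact congrArg _ ((C.B_smul_left _ _ _).trans (f ▸ (C.B_smul_left _ _ _).symm)))
    ((Z'.2.1.1 _ c').trans (((⟨g, gS⟩ : St C W) • Z).2.1.1 _ c).symm)
  have h5 : ∀ x ∈ W, g' x = x := fun x hx => h3 x (Y'.2.2.1 hx)
  refine ⟨⟨g', hg'⟩ * g, mul_mem (mem_St_of fun v hv => (h5 v hv).symm ▸ hv) gS, ?_, ?_⟩ <;> rw [im_mul]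
  · rw [e]; exact mem_St_im.1 (mem_St_of fun v hv => (h3 v hv).symm ▸ hv)
  · exact (congrArg _ (xw_eq _ c d).symm).trans ((im_sup1 h5).trans (h4 ▸ xw_eq Z' c' d'))

theorem fx_one : fx C W 1 = Nat.card (XW C W) := Nat.card_congr (Equiv.subtypeUnivEquiv fun _ => im_one)
theorem fx_ad {g : C.isom} (h : ∀ Y : XW C W, im C g Y.1 = Y.1) : fx C W g = fx C W 1 ∧ ad C W g = ad C W 1 :=
  ⟨card_iff fun Y => by rw [h, im_one], card_iff fun Y => by rw [h, im_one]⟩
theorem kw_fix {g : C.isom} (h : KW C W g) (Y : XW C W) : im C g Y.1 = Y.1 := h.im Y.2.2.1 Y.le_perp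
theorem ng_fix {g : C.isom} (h : Ng C g) (Y : XW C W) : im C g Y.1 = Y.1 := mem_St_im.1 h.mem

theorem r1 : R1 := by
  intro F _ _ T V _ _ _ C hT hC w t W h hW
  refine ⟨fun k => ?_, fun t0 k => ?_⟩
  · obtain ⟨X, a, b⟩ := h.1.mono k
    obtain ⟨Y, c, d, e⟩ := hW.exists_le hC a (by omega)
    exact ⟨⟨Y, c, d, e.trans b⟩⟩
  have c := card_xw' h hW
  rw [← k, Nat.add_sub_cancel_left, pow_one, Nat.sub_self, pow_zero, one_mul, mul_comm] at c
  replace c := Nat.eq_of_mul_eq_mul_left (by have := q2 (F := F); omega) c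
  have p : ∀ Y Z : XW C W, Y ≠ Z → ¬ Z.1 ≤ C.perp Y.1 := fun Y Z n m => by
    have h1 := (h.2 _ (Y.2.1.sup Z.2.1 m)).1
    have h2 := finrank_lt_finrank_of_lt (lt_of_le_of_ne (le_sup_left : Y.1 ≤ Y.1 ⊔ Z.1) fun e => n (Subtype.ext
      (eq_of_le_of_finrank_eq (le_sup_right.trans e.ge) (Z.2.2.2.trans Y.2.2.2.symm)).symm))
    have := Y.2.2.2
    omega
  have : MulAction.IsPretransitive (St C W) (XW C W) := ⟨fun Y Z =>
    let ⟨g, a, b⟩ := tr1 hC Y Z; ⟨⟨g, mem_St_of fun v hv => (a v hv).symm ▸ hv⟩, Subtype.ext b⟩⟩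
  refine ⟨⟨?_, fun u k => by rw [(fx_ad (kw_fix k)).1], fun u k => by rw [(fx_ad (ng_fix k)).1]⟩, fx_one.trans c⟩
  have := (isIrr_perm_sub_one_iff (G := St C W) (XW C W) (by omega)).2 (MulAction.is_two_pretransitive_iff.2 fun a b =>
    let ⟨g, h1, h2, h3⟩ := tr3 hC _ _ _ _ (iff_of_false a b) (iff_of_false (p _ _ a) (p _ _ b))
    ⟨⟨g, h1⟩, Subtype.ext h2, Subtype.ext h3⟩)
  simp only [← fx_eq] at this
  exact this

end H12.DG
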