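import Cfsg.Agent.H12.DG1

/-! S4984: the rank three permutation character on the points of a polar space. -/

set_option autoImplicit false
set_option linter.unusedSectionVars false

open Cfsg Module H12 H5 Finset H16.DG H11 Submodule
open scoped Classical

namespace H12.DG
section
variable {G X : Type} [Group G] [MulAction G X] [Fintype X]

theorem ch_mat (M : Matrix X X ℂ) (i : ∀ (g : G) x y, M (g • x) (g • y) = M x y) (e : M * M = M) :
    IsCharacter G fun g => ∑ x, M x (g • x) := by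
  have := isCharacter_trace_comp_idempotent (permRep G X) (Matrix.toLin' M) (by rw [← Matrix.toLin'_mul, e]) fun g => by
    refine LinearMap.ext fun f => funext fun x => ?_
    change ∑ y, M x y * f (g⁻¹ • y) = ∑ y, M (g⁻¹ • x) y * f y
    rw [← Equiv.sum_comp (MulAction.toPerm g)]
    exact sum_congr rfl fun y _ => by rw [← i g (g⁻¹ • x)]; simp
  convert this using 2 with g
  rw [LinearMap.trace_eq_matrix_trace ℂ (Pi.basisFun ℂ X), Matrix.trace]
  refine sum_congr rfl fun x _ => ?_
  rw [← i g⁻¹]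
  simp [permRep, LinearMap.toMatrix_apply]

theorem card_ite (p : X → Prop) : (Nat.card {y // p y} : ℂ) = ∑ y, if p y then 1 else 0 := by
  rw [Nat.card_eq_fintype_card, Fintype.card_subtype, card_filter]; push_cast; rfl

/-- strongly regular graphs -/
theorem ch_srg [Nonempty X] (r : X → X → Prop) (i : ∀ (g : G) x y, r (g • x) (g • y) ↔ r x y) (s : ∀ x y, r x y ↔ r y x)
    {K a b μ : ℚ} (ab : a ≠ b) (h1 : ∀ x, Nat.card {y // r x y} = K) (h2 : ∀ x y, Nat.card {z // r x z ∧ r y z} =
      (a + b) * (if r x y then 1 else 0) - a * b * (if x = y then 1 else 0) + μ) : IsCharacter G fun g =>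
    (((Nat.card {x // r x (g • x)} - b * Nat.card (MulAction.fixedBy X g) - (K - b)) / (a - b) : ℚ) : ℂ) := by
  let A : Matrix X X ℂ := .of fun x y => if r x y then 1 else 0
  let J : Matrix X X ℂ := .of fun _ _ => 1
  have N0 : (Fintype.card X : ℂ) ≠ 0 := Nat.cast_ne_zero.2 Fintype.card_ne_zero
  have ab' : (a : ℂ) - b ≠ 0 := sub_ne_zero.2 (by exact_mod_cast ab)
  have h1' : ∀ x, ∑ y, A x y = K := fun x => by rw [← h1 x, Rat.cast_natCast, card_ite]; rfl
  have AJ : A * J = (K : ℂ) • J := Matrix.ext fun x y => by simpa [Matrix.mul_apply, J] using h1' x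
  have JA : J * A = (K : ℂ) • J := Matrix.ext fun x y => by
    simpa [Matrix.mul_apply, J, A, s _ y] using h1' y
  have JJ : J * J = (Fintype.card X : ℂ) • J := Matrix.ext fun x y => by simp [Matrix.mul_apply, J]
  have AA : A * A = ((a : ℂ) + b) • A - ((a : ℂ) * b) • 1 + (μ : ℂ) • J := Matrix.ext fun x y => by
    have := congrArg (Rat.cast : ℚ → ℂ) (h2 x y)
    rw [Rat.cast_natCast, card_ite] at this
    push_cast [apply_ite (Rat.cast : ℚ → ℂ)] at this
    refine (sum_congr rfl fun z _ => ?_).trans (this.trans ?_)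
    · simp only [A, Matrix.of_apply, ite_zero_mul_ite_zero, s z y, mul_one]
      congr
    · simp [A, J, Matrix.one_apply]
  have k : ((K : ℂ) - a) * (K - b) = μ * Fintype.card X := by
    have := mul_assoc A A J
    simp only [AA, AJ, mul_smul_comm, add_mul, sub_mul, smul_mul_assoc, one_mul, JJ] at this
    have := congrFun₂ this (Classical.arbitrary X) (Classical.arbitrary X)
    simp only [J, Matrix.add_apply, Matrix.sub_apply, Matrix.smul_apply, smul_eq_mul, Matrix.of_apply] at this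
    linear_combination -this
  have := ch_mat (G := G) (((a : ℂ) - b)⁻¹ • (A - (b : ℂ) • 1 - ((K - b : ℂ) / Fintype.card X) • J)) (fun g x y => by
    simp [A, J, i, Matrix.one_apply]) (by
    simp only [smul_mul_assoc, mul_smul_comm, mul_sub, sub_mul, AA, AJ, JA, JJ, mul_one, one_mul]
    match_scalars <;> field_simp
    · ring
    · ring
    · linear_combination -k)
  convert this using 2 with g
  push_cast
  rw [card_ite, show Nat.card (MulAction.fixedBy X g) = Nat.card {x // x = g • x} from card_iff fun _ => eq_comm, card_ite]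
  simp only [A, J, Matrix.sub_apply, Matrix.smul_apply, Matrix.one_apply, smul_eq_mul, ← mul_sum, sum_sub_distrib, sum_const,
    card_univ, nsmul_eq_mul, Matrix.of_apply]
  field_simp

theorem three_irr [Fintype G] {α β : G → ℂ} (ha : IsCharacter G α) (hb : IsCharacter G β) (a0 : α 1 ≠ 0) (b0 : β 1 ≠ 0)
    {n : ℕ} (hn : n ≤ 3) (h : classInner ((fun _ => 1) + α + β) ((fun _ => 1) + α + β) = n) :
    IsIrrCharacter G α ∧ IsIrrCharacter G β := by
  have o := isCharacter_one (G := G)
  obtain ⟨a, h1⟩ := ha.exists_classInner_nat ha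
  obtain ⟨b, h2⟩ := hb.exists_classInner_nat hb
  obtain ⟨c, h3⟩ := (o.add ha).exists_classInner_nat hb
  obtain ⟨d, h4⟩ := hb.exists_classInner_nat (o.add ha)
  obtain ⟨e, h5⟩ := o.exists_classInner_nat ha
  obtain ⟨f, h6⟩ := ha.exists_classInner_nat o
  rw [classInner_add_left, classInner_add_right, classInner_add_right β, h2, h3, h4, classInner_add_left, classInner_add_right,
    classInner_add_right α, h1, h5, h6, isIrrCharacter_one.classInner_self] at h
  have h : 1 + e + (f + a) + c + (d + b) = n := by exact_mod_cast h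
  have a1 : a ≠ 0 := fun k => a0 (by rw [classInner_self_eq_zero.1 (h1.trans (by rw [k, Nat.cast_zero]))]; rfl)
  have b1 : b ≠ 0 := fun k => b0 (by rw [classInner_self_eq_zero.1 (h2.trans (by rw [k, Nat.cast_zero]))]; rfl)
  exact ⟨ha.isIrr_of_classInner_self (by rw [h1, show a = 1 by omega, Nat.cast_one]),
    hb.isIrr_of_classInner_self (by rw [h2, show b = 1 by omega, Nat.cast_one])⟩
end

variable {F : Type} [Field F] [Finite F] {T : FormType F} {V : Type} [AddCommGroup V] [Module F V] [Finite V]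
  {C : CForm T V} {U W : Submodule F V} {w t : ℕ} {v x y z : V}

theorem zc_hyp (hU : C.TS U) (hy : y ∈ U) (h : C.B z y ≠ 0) : zc C U = zc C (U ⊔ F ∙ z) * Nat.card F := by
  have n : ∀ v ∈ C.perp U, ∀ c : F, C.N (v + c • y) = C.N v := fun v hv c => by
    rw [C.N_add_of_orth (C.B_swap_zero (hv _ (smul_mem _ c hy))), C.N_smul_of_zero (hU.1 y hy), add_zero]
  rw [zc, zc, ← Nat.card_prod]
  refine (Nat.card_eq_of_bijective (fun a => ⟨a.1.1 + a.2 • y, add_mem (perp_sup1.1 a.1.2.1).1 (smul_mem _ _ (hU.le_perp hy)),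
    (n _ (perp_sup1.1 a.1.2.1).1 _).trans a.1.2.2⟩) ⟨fun a a' e => ?_, fun u => ?_⟩).symm
  · have e : a.1.1 + a.2 • y = a'.1.1 + a'.2 • y := congrArg Subtype.val e
    have e1 := congrArg (C.B z) e
    rw [map_add, map_add, (perp_sup1.1 a.1.2.1).2, (perp_sup1.1 a'.1.2.1).2, C.B_smul_right, C.B_smul_right, zero_add,
      zero_add, mul_left_inj' h] at e1
    exact Prod.ext (Subtype.ext (by simpa [e1] using e)) e1
  exact ⟨(⟨u + (-(C.B z u / C.B z y)) • y, perp_sup1.2 ⟨add_mem u.2.1 (smul_mem _ _ (hU.le_perp hy)), by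
    rw [map_add, C.B_smul_right]; field_simp; ring⟩, (n _ u.2.1 _).trans u.2.2⟩, C.B z u / C.B z y), Subtype.ext (by simp)⟩

theorem xw_two {Y Z : XW C W} (n : Y ≠ Z) : finrank F ↥(Y.1 ⊔ Z.1) = finrank F W + 2 := by
  obtain ⟨z, a, b⟩ := xw_ex Z
  rw [← xw_eq Z a b, ← sup_assoc, sup_eq_left.2 Y.2.2.1, finrank_sup_span_singleton fun k => n (xw_ext k a b), Y.2.2.2]

theorem r3 : R3 := by
  intro F _ _ T V _ _ _ C hT hC w t j W h hW t0 j2 hj
  obtain ⟨i, rfl⟩ := Nat.exists_eq_add_of_le' j2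
  have := Fintype.ofFinite (XW C W)
  have := (r1 F T V C hT hC w t W h hW).1 (by omega)
  have q2 := q2 (F := F)
  have p : ∀ n, 1 ≤ Nat.card F ^ n := fun n => Nat.one_le_pow _ _ (by omega)
  have cN := card_xw' h hW
  have cU : ∀ U, W ≤ U → W ≤ C.perp U → (zc C U : ℚ) = Nat.card F ^ finrank F W * (1 + Nat.card {Y : XW C W // Y.1 ≤ C.perp U} *
      (Nat.card F - 1)) := fun U a b => by rw [card_xw hW a b]; push_cast [show 1 ≤ Nat.card F by omega]; ring
  have zY : ∀ Y : XW C W, (zc C Y.1 : ℚ) = Nat.card F ^ finrank F W * (Nat.card F * (1 + (Nat.card F * Nat.card F ^ i - 1) *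
      (Nat.card F ^ i * t + 1))) := fun Y => by
    rw [zc_eq Y.2.1, (h.2 _ Y.2.1).2, Y.2.2.2, show w - (finrank F W + 1) = i + 1 by omega]
    push_cast [p]; ring
  have WY : ∀ Y : XW C W, W ≤ C.perp Y.1 := fun Y => C.le_perp_comm.1 Y.le_perp
  rw [show w - finrank F W = i + 2 by omega, show i + 2 - 1 = i + 1 from rfl] at cN
  qify [p, show 1 ≤ Nat.card F by omega] at cN
  have qk : (Nat.card F : ℚ) ^ finrank F W ≠ 0 := by positivity
  have hq : (2 : ℚ) ≤ Nat.card F := by exact_mod_cast q2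
  have ht : (1 : ℚ) ≤ t := by exact_mod_cast t0
  have hQ : (1 : ℚ) ≤ Nat.card F ^ i := by exact_mod_cast p i
  have q1 : (Nat.card F : ℚ) - 1 ≠ 0 := by linarith
  let r : XW C W → XW C W → Prop := fun Y Z => Z.1 ≤ C.perp Y.1
  have ri : ∀ (g : St C W) x y, r (g • x) (g • y) ↔ r x y := fun g x y => by
    simp only [r, smul_val, perp_im, im_mono]
  have h1 : ∀ x, (Nat.card {y // r x y} : ℚ) = 1 + Nat.card F * (Nat.card F * Nat.card F ^ i - 1) * (Nat.card F ^ i * t + 1) /
      (Nat.card F - 1) := fun Y => by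
    have := mul_left_cancel₀ qk ((zY Y).symm.trans (cU _ Y.2.2.1 (WY Y)))
    field_simp; linear_combination -this
  have h2 : ∀ x y, (Nat.card {z // r x z ∧ r y z} : ℚ) = (Nat.card F * Nat.card F ^ i + -(Nat.card F ^ i * t)) *
      (if r x y then 1 else 0) - Nat.card F * Nat.card F ^ i * -(Nat.card F ^ i * t) * (if x = y then 1 else 0) +
      (Nat.card F * Nat.card F ^ i - 1) * (Nat.card F ^ i * t + 1) / (Nat.card F - 1) := fun Y Z => by
    by_cases e : Y = Z
    · rw [← e, card_iff fun _ => and_self_iff, h1, if_pos Y.2.1.le_perp, if_pos rfl]; field_simp; ring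
    have c := cU (Y.1 ⊔ Z.1) (Y.2.2.1.trans le_sup_left) (C.perp_sup _ _ ▸ le_inf (WY Y) (WY Z))
    rw [card_iff (r := fun z => r Y z ∧ r Z z) fun _ => by rw [C.perp_sup, le_inf_iff]] at c
    rw [if_neg e]
    split_ifs with k
    · have s := Y.2.1.sup Z.2.1 k
      rw [zc_eq s, (h.2 _ s).2, xw_two e, show w - (finrank F W + 2) = i by omega] at c
      push_cast [p] at c
      rw [pow_add, mul_assoc, ← mul_add] at c
      replace c := mul_left_cancel₀ qk c
      field_simp
      rcases i with _ | i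
      · linear_combination -c
      · rw [Nat.add_sub_cancel] at c; linear_combination -c
    obtain ⟨y, a, b⟩ := xw_ex Y
    obtain ⟨z, a', b'⟩ := xw_ex Z
    have := zY Y
    rw [zc_hyp Y.2.1 a (C.B_swap_ne (mt (xw_perp a b a' b').2 k)), show Y.1 ⊔ F ∙ z = Y.1 ⊔ Z.1 by
      rw [← xw_eq Z a' b', ← sup_assoc, sup_eq_left.2 Y.2.2.1], Nat.cast_mul, c, mul_assoc] at this
    have := mul_left_cancel₀ (by linarith : (Nat.card F : ℚ) ≠ 0) ((mul_comm _ _).trans (mul_left_cancel₀ qk this))
    field_simp; linear_combination this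
  generalize hK : 1 + Nat.card F * (Nat.card F * Nat.card F ^ i - 1) * (Nat.card F ^ i * t + 1) / (Nat.card F - 1 : ℚ) = K at h1
  have ab : (Nat.card F * Nat.card F ^ i : ℚ) - -(Nat.card F ^ i * t) ≠ 0 := by nlinarith
  have ab' : (Nat.card F : ℚ) + t ≠ 0 := by linarith
  have cr : ∀ g : St C W, Nat.card {x // r x (g • x)} = fx C W g + ad C W g := fun g => by
    rw [card_split _ fun Y => im C g Y.1 = Y.1, card_iff fun _ => and_comm (b := ¬ _)]
    exact congrArg (· + _) (card_iff fun Y => and_iff_right_of_imp fun e => e.le.trans Y.2.1.le_perp)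
  let φ : ℚ → ℚ → C.isom → ℂ := fun a b g => ((((fx C W g + ad C W g : ℕ) - b * fx C W g - (K - b)) / (a - b) : ℚ) : ℂ)
  have ca : Ch (St C W) (φ (Nat.card F * Nat.card F ^ i) (-(Nat.card F ^ i * t))) := by
    have := ch_srg r ri (fun _ _ => C.le_perp_comm) (sub_ne_zero.1 ab) h1 h2
    simp only [cr, ← fx_eq] at this
    exact this
  have cb : Ch (St C W) (φ (-(Nat.card F ^ i * t)) (Nat.card F * Nat.card F ^ i)) := by
    have := ch_srg r ri (fun _ _ => C.le_perp_comm) (sub_ne_zero.1 ab).symm h1 fun x y => by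
      rw [h2, add_comm (-_), mul_comm (-_)]
    simp only [cr, ← fx_eq] at this
    exact this
  have sm : ∀ a b g, a - b ≠ 0 → (fx C W g : ℂ) = 1 + φ a b g + φ b a g := fun a b g n => by
    have n' : b - a ≠ 0 := fun e => n (by linarith)
    simp only [φ]
    norm_cast
    push_cast
    field_simp; ring
  have a1 : ad C W 1 = 0 := by
    have : IsEmpty {Y : XW C W // im C 1 Y.1 ≠ Y.1 ∧ im C 1 Y.1 ≤ C.perp Y.1} := ⟨fun Y => Y.2.1 im_one⟩
    exact Nat.card_of_isEmpty
  obtain ⟨f, hf⟩ := ca.out.exists_apply_one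
  obtain ⟨g, hg⟩ := cb.out.exists_apply_one
  have fa : FA (Nat.card F) t (i + 2) f := by
    have : _ = (f : ℚ) := Rat.cast_injective (α := ℂ) (hf.trans (Rat.cast_natCast f).symm)
    rw [OneMemClass.coe_one, a1, fx_one, ← hK, div_eq_iff ab] at this
    rw [FA, Nat.add_sub_cancel]
    qify [p, show 1 ≤ Nat.card F by omega]
    refine mul_left_cancel₀ (by linarith : (Nat.card F : ℚ) ^ i ≠ 0) ?_
    field_simp at this
    linear_combination (1 + Nat.card F ^ i * t) * cN - this
  have gb : GB (Nat.card F) t (i + 2) g := by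
    have : _ = (g : ℚ) := Rat.cast_injective (α := ℂ) (hg.trans (Rat.cast_natCast g).symm)
    rw [OneMemClass.coe_one, a1, fx_one, ← hK, div_eq_iff fun e => ab (by linarith)] at this
    rw [GB, show i + 2 - 1 = i + 1 from rfl]
    qify [p, show 1 ≤ Nat.card F by omega]
    refine mul_left_cancel₀ (by linarith : (Nat.card F : ℚ) ^ i ≠ 0) ?_
    field_simp at this
    linear_combination (Nat.card F * Nat.card F ^ i - 1) * cN + this
  have ir : ∀ J ≤ St C W, Tr3 C W J → Ir J (φ (Nat.card F * Nat.card F ^ i) (-(Nat.card F ^ i * t))) ∧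
      Ir J (φ (-(Nat.card F ^ i * t)) (Nat.card F * Nat.card F ^ i)) := fun J l tr => by
    have := Fintype.ofFinite J
    let := MulAction.compHom (XW C W) (Subgroup.inclusion l)
    refine three_irr (ca.out.comp (Subgroup.inclusion l)) (cb.out.comp (Subgroup.inclusion l)) (hf.trans_ne ?_) (hg.trans_ne ?_)
      (n := Nat.card (MulAction.orbitRel.Quotient J (XW C W × XW C W))) ?_ ?_
    · refine Nat.cast_ne_zero.2 fun e => ?_
      rw [FA, e, zero_mul] at fa
      exact (Nat.mul_pos (by positivity) (Nat.sub_pos_of_lt (Nat.one_lt_pow (by omega) q2))).ne fa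
    · refine Nat.cast_ne_zero.2 fun e => ?_
      rw [GB, e, zero_mul] at gb
      exact (Nat.mul_pos (Nat.mul_pos (by positivity) (Nat.sub_pos_of_lt (Nat.one_lt_pow (by omega) q2))) (by omega)).ne gb
    · let ψ : XW C W × XW C W → Fin 3 := fun a => if a.1 = a.2 then 0 else if r a.1 a.2 then 1 else 2
      refine (Nat.card_le_card_of_injective (fun o => ψ (Quotient.out o)) fun o o' e => ?_).trans_eq (Nat.card_fin 3)
      replace e : ψ o.out = ψ o'.out := e
      rw [← o.out_eq, ← o'.out_eq]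
      generalize o.out = a, o'.out = b at e
      obtain ⟨g, g1, g2, g3⟩ := tr b.1 b.2 a.1 a.2 (by simp only [ψ] at e; split_ifs at e <;> simp_all) (by
        simp only [ψ] at e
        split_ifs at e with k1 k2 k3 k4 k5 k6 k7 k8
        any_goals simp at e
        exacts [iff_of_true (k2 ▸ b.1.2.1.le_perp) (k1 ▸ a.1.2.1.le_perp), iff_of_true (by assumption) (by assumption),
          iff_of_false (by assumption) (by assumption)])
      exact Quotient.sound ⟨⟨g, g1⟩, Prod.ext (Subtype.ext g2) (Subtype.ext g3)⟩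
    rw [← classInner_perm_perm]
    congr 1 <;> exact funext fun g => (sm _ _ g ab).symm.trans (congrArg _ (fx_eq (Subgroup.inclusion l g)))
  have ta : ∀ a b, Ir (St C W) (φ a b) → Ta C W (φ a b) := fun a b h =>
    ⟨h, fun u k => by simp only [φ, fx_ad (kw_fix k)], fun u k => by simp only [φ, fx_ad (ng_fix k)]⟩
  have rt : ∀ a b, Rt C W (φ a b) := fun a b => ⟨(1 - b) / (a - b), 1 / (a - b), -(K - b) / (a - b), fun g _ => by
    simp only [φ]; push_cast; ring⟩
  have sb : ∀ a b, a - b ≠ 0 → Ch (St C W) (φ b a) → Sub C W (φ a b) := fun a b n c => by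
    have := isCharacter_one.add c.out
    refine (congrArg (IsCharacter _) (funext fun g => ?_)).mp this
    simp [sm a b g n, add_right_comm _ (φ a b g)]
  have ir' := ir _ le_rfl (tr3 hC)
  exact ⟨_, _, f, g, ta _ _ ir'.1, ta _ _ ir'.2, sb _ _ ab cb, sb _ _ (fun e => ab (by linarith)) ca, rt _ _, rt _ _, hf, hg,
    fa, gb, ir⟩

theorem om : OM := by
  intro F V _ _ _ _ _ Q hQ h7 Y Z Y' Z' h1 h2
  obtain ⟨g, -, g1, g2⟩ := tr3 hQ Y Z Y' Z' h1 h2
  have ne : NotExc F V := .inr (by omega)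
  have d : finrank F ↥(Y.1 ⊔ Z.1) ≤ 2 := by
    have := finrank_add_le_finrank_add_finrank Y.1 Z.1
    have h3 := Y.2.2.2
    have h4 := Z.2.2.2
    have := finrank_bot F V
    omega
  generalize hU : Y.1 ⊔ Z.1 = U at d
  obtain ⟨M, hM⟩ := U.exists_isCompl
  have d1 := hQ.finrank_add_finrank_perp U
  have d2 := finrank_add_eq_of_isCompl hM
  have d3 := finrank_sup_add_finrank_inf_eq M ((CForm.ofQuad Q).perp U)
  have d4 := finrank_le (M ⊔ (CForm.ofQuad Q).perp U)
  obtain ⟨e, a, e0, b⟩ := exists_singular_mem Q (W := M ⊓ (CForm.ofQuad Q).perp U) (by omega)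
  obtain ⟨f, a', b', c⟩ := hQ.exists_partner (Z := U) (fun k => e0 (disjoint_def.1 hM.disjoint e k a.1)) b a.2
  let H : Subgroup (orth Q) := St _ Y.1 ⊓ St _ Z.1
  let φ := (dickson Q).prod (spinor Q)
  have k : ⊤ ≤ (H.map φ).comap φ := by
    rw [← closure_reflSet hQ ne, Subgroup.closure_le]
    rintro _ ⟨v, hv, rfl⟩
    have q := Q_hyp' b b' c (Q v)
    have fix : ∀ x ∈ U, (refl Q (e + Q v • f)).1 x = x := fun x hx => refl_apply_of_orth
      ((CForm.ofQuad Q).B_swap_zero (add_mem a.2 (smul_mem _ _ a') x hx))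
    exact ⟨refl Q (e + Q v • f), ⟨mem_St_of fun x hx => (fix x (hU.le (mem_sup_left hx))).symm ▸ hx,
      mem_St_of fun x hx => (fix x (hU.le (mem_sup_right hx))).symm ▸ hx⟩, Prod.ext
        ((dickson_refl hQ ne (q.trans_ne hv)).trans (dickson_refl hQ ne hv).symm)
        ((spinor_refl hQ ne (q.trans_ne hv)).trans (q.symm ▸ (spinor_refl hQ ne hv).symm))⟩
  obtain ⟨h, hh, e⟩ := k (Subgroup.mem_top g)
  have e : φ (g * h⁻¹) = 1 := by rw [map_mul, map_inv, e, mul_inv_cancel]
  exact ⟨g * h⁻¹, (mem_commutator_iff hQ ne _).2 ⟨congrArg Prod.fst e, congrArg Prod.snd e⟩,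
    by rw [im_mul, mem_St_im.1 (inv_mem hh.1), g1], by rw [im_mul, mem_St_im.1 (inv_mem hh.2), g2]⟩

end H12.DG
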