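import Cfsg.Agent.H12.DG2
import Cfsg.Agent.H16.DG4

/-! S4984: a character of `O₈⁻(3)` of degree divisible by `195`. -/

set_option autoImplicit false
set_option linter.unusedSectionVars false

open Cfsg Module H12 H5 Finset H16.DG H11 Submodule QuadraticMap
open scoped Classical

namespace H12.DG
variable {F : Type} [Field F] [Finite F] {V : Type} [AddCommGroup V] [Module F V] [Finite V] {Q : QuadraticForm F V}
  {W : Submodule F V} {e f r : V}

theorem fx_refl (hr : Q r ≠ 0) : fx (.ofQuad Q) W (refl Q r) =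
    Nat.card {Y : XW (.ofQuad Q) W // Y.1 ≤ (CForm.ofQuad Q).perp (W ⊔ F ∙ r)} ∧ ad (.ofQuad Q) W (refl Q r) = 0 := by
  have k1 : ∀ Y : XW (.ofQuad Q) W, im _ (refl Q r) Y.1 ≤ (CForm.ofQuad Q).perp Y.1 → Y.1 ≤ (CForm.ofQuad Q).perp (W ⊔ F ∙ r) :=
    fun Y h y hy => perp_sup1.2 ⟨Y.le_perp hy, by
      have := h (apply_mem_im.2 hy) y hy
      rw [refl_apply, map_sub, Y.2.1.2 y hy y hy, map_smul] at this
      simpa [hr, polar_comm Q y r] using this⟩
  have k2 : ∀ Y : XW (.ofQuad Q) W, Y.1 ≤ (CForm.ofQuad Q).perp (W ⊔ F ∙ r) → im _ (refl Q r) Y.1 = Y.1 := fun Y h =>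
    mem_St_im.1 (mem_St_of fun y hy => (refl_apply_of_orth (perp_sup1.1 (h hy)).2).symm ▸ hy)
  have : IsEmpty {Y : XW (.ofQuad Q) W // im _ (refl Q r) Y.1 ≠ Y.1 ∧ im _ (refl Q r) Y.1 ≤ (CForm.ofQuad Q).perp Y.1} :=
    ⟨fun Y => Y.2.1 (k2 _ (k1 _ Y.2.2))⟩
  exact ⟨card_iff fun Y => ⟨fun h => k1 Y (h.le.trans Y.2.1.le_perp), k2 Y⟩, Nat.card_of_isEmpty⟩

theorem eich_q (he : Q e = 0) (hr : polar Q e r = 0) : eich Q e r ∈ QW (.ofQuad Q) (F ∙ e) :=
  ⟨fun x hx => by
    obtain ⟨c, rfl⟩ := mem_span_singleton.1 hx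
    exact eich_apply_of_orth he hr (by simp [polar_self', he]) (by simp [polar_comm Q r e, hr]), fun x hx => by
    have : polar Q e x = 0 := (CForm.mem_perp_singleton _).1 hx
    exact mem_span_singleton.2 ⟨polar Q r x, by simp [eich_apply he hr, this]⟩⟩

theorem rb (rt : RT) (cud : CUD) : RB := by
  intro F V _ _ _ _ _ Q hQ h3 h8 hP
  have hT : OS (quadType F) := .inr rfl
  have := Fintype.ofFinite F
  have sq1 : ∀ c : F, c ≠ 0 → c * c = 1 := fun c h => by
    have := FiniteField.pow_card_sub_one_eq_one c h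
    rwa [← Nat.card_eq_fintype_card, h3, pow_two] at this
  obtain ⟨e, e0, he⟩ := CForm.hasTS_one_iff.1 (hP.1.mono (by decide : 1 ≤ 3))
  replace he : Q e = 0 := he
  obtain ⟨f, hf, ef⟩ := exists_hyp_partner hQ e0 he
  have fe : polar Q f e = 1 := (polar_comm _ _ _).trans ef
  have ee : polar Q e e = 0 := by rw [polar_self', he, mul_zero]
  have ff : polar Q f f = 0 := by rw [polar_self', hf, mul_zero]
  obtain ⟨s, hs, se, sf⟩ : ∃ s : V ≃ₗ[F] V, (∀ x, Q (s x) = -Q x) ∧ s e = e ∧ s (-f) = f := by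
    obtain ⟨s, hs⟩ := quad_iso_iff.1 (quad_even_iso (qNondeg_smul hQ (c := -1) (by simp)) hQ (m := 4) h8 h8
      (hasTS_smul_iff (by simp)))
    replace hs : ∀ x, Q (s x) = -Q x := fun x => (hs x).trans (by simp)
    have k : polar Q (s e) (s (-f)) = 1 := by
      rw [← ef, ← neg_neg (polar Q e f), ← polar_neg_right]; simp only [polar, ← map_add, hs]; ring
    obtain ⟨g, hg, g1, g2⟩ := hQ.witt_two (linearIndependent_of_polar (by rw [hs, he, neg_zero]) k)
      (linearIndependent_of_polar he ef) (by simp [hs, he]) (by simp [hs, hf]) (ef.trans k.symm)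
    exact ⟨s.trans g, fun x => (hg.2 _).trans (hs x), g1, g2⟩
  have sp : ∀ x y, polar Q (s x) (s y) = -polar Q x y := fun x y => by simp only [polar, ← map_add, hs]; ring
  have qw : Q (e - f) = -1 := by simp [Q_sub, he, hf, ef]
  generalize hw : refl Q (e - f) = w
  have wx : ∀ x, w.1 x = x + (polar Q e x - polar Q f x) • (e - f) := fun x => by
    rw [← hw, refl_apply, qw, polar_sub_left, inv_neg, inv_one]; module
  have we : w.1 e = f := by simp [wx, ee, fe]
  have wf : w.1 f = e := by simp [wx, ff, ef]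
  have ww : w * w = 1 := hw ▸ refl_mul_self _
  have wi : w⁻¹ = w := inv_eq_of_mul_eq_one_right ww
  have hW : (CForm.ofQuad Q).TS (F ∙ e) := CForm.ts_singleton he
  have d1 := finrank_span_singleton (K := F) e0
  have op : Op (.ofQuad Q) (F ∙ e) (F ∙ f) := ⟨hW, CForm.ts_singleton hf, (finrank_span_singleton fun k => by
    simp [k] at ef).trans d1.symm, eq_bot_iff.2 fun x hx => by
      obtain ⟨c, rfl⟩ := mem_span_singleton.1 hx.1
      have := (CForm.mem_perp_singleton _).1 hx.2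
      simp_all⟩
  have im1 : ∀ (g : orth Q) x, im (.ofQuad Q) g (F ∙ x) = F ∙ g.1 x := fun g x => by simp [im, map_span]
  have wy : Wy (.ofQuad Q) (F ∙ e) (F ∙ f) w := ⟨hQ, op, by rw [im1, we], fun x hx => by
    have := perp_sup1.1 hx
    rw [CForm.mem_perp_singleton, CForm.ofQuad_B, CForm.ofQuad_B] at this
    simp [wx, this], ww ▸ one_mem _⟩
  obtain ⟨σ, cu, hσ⟩ := cud F (F ∙ e) d1 h3
  have σ1 : σ 1 = 1 := by simp [cu.deg, d1]
  have st : ∀ (g : orth Q) (c : F), g.1 e = c • e → g ∈ St (.ofQuad Q) (F ∙ e) ∧ ∀ y ∈ F ∙ e, g.1 y = c • y := fun g c h => by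
    have : ∀ y ∈ F ∙ e, g.1 y = c • y := fun y hy => by
      obtain ⟨a, rfl⟩ := mem_span_singleton.1 hy
      rw [map_smul, h, smul_comm]
    exact ⟨mem_St_of fun y hy => (this y hy).symm ▸ smul_mem _ _ hy, this⟩
  have s1 : ∀ g : orth Q, g.1 e = (1 : F) • e → σ (H16.DG.rho (.ofQuad Q) (F ∙ e) g) = σ 1 := fun g h =>
    congrArg σ (rho_eq (k := 1) (st g _ h).1 fun y => (((st g _ h).2 y y.2).trans (one_smul _ _)).symm)
  have s2 : ∀ g : orth Q, g.1 e = (-1 : F) • e → σ (H16.DG.rho (.ofQuad Q) (F ∙ e) g) = -1 := fun g h =>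
    hσ _ fun y => Subtype.ext ((H16.DG.rho_apply (st g _ h).1 y).trans (((st g _ h).2 y y.2).trans (neg_one_smul _ _)))
  obtain ⟨τ, -, n, -, ta, -, sb, -, ⟨a, b, c, hr⟩, -, τ1, -, fa, -⟩ := r3 F _ V _ hT hQ 3 9 2 _ hP hW (by decide) le_rfl (by rw [d1])
  have H := wy.rth hT (van el mi) (by simpa using e0) cu ta (.inr sb) (by rw [ww, rho_one]) fun l h1 h2 => s1 _ (by
    obtain ⟨c, hc⟩ := mem_span_singleton.1 ((mem_St.1 (inv_mem h1) e).1 (mem_span_singleton_self e))
    obtain ⟨d, hd⟩ := mem_span_singleton.1 ((mem_St.1 h2 f).1 (mem_span_singleton_self f))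
    have k := orth_polar_inv l f e
    rw [← hc, ← hd, polar_smul_left, polar_smul_right, fe, smul_left_inj one_ne_zero] at k
    change w⁻¹.1 (l.1 (w.1 (l⁻¹.1 e))) = _
    rw [← hc, map_smul, we, map_smul, ← hd, ← k, wi, smul_smul, map_smul, wf, sq1 c fun k => e0 (by simpa [k] using hc.symm)])
  obtain ⟨χ, χ', d, d', i1, -, sm, e1, e2, -, -, eq⟩ := rt _ _ _ _ _ H
  refine ⟨χ, d, i1, e1, ?_⟩
  let M := {r : V // polar Q e r = 0 ∧ polar Q f r = 0}
  have ef' : ∀ r : M, (eich Q e r).1 f = f - r - Q r • e := fun r => by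
    simp [eich_apply he r.2.1, ef, polar_comm Q r f, r.2.2]
  have g1 : ∀ r : M, cc (St (.ofQuad Q) (F ∙ e)) (psi _ _ σ τ) w (eich Q e r) =
      if Q r = 0 then 0 else if Q r = 1 then -τ (refl Q r) else τ (refl Q r) := fun r => by
    have re : polar Q r e = 0 := (polar_comm _ _ _).trans r.2.1
    have cj : w * eich Q e r * w = eich Q f r := by
      nth_rw 2 [← wi]; rw [eich_conj w he r.2.1, we, wx]; simp [r.2.1, r.2.2]
    by_cases h : Q r = 0
    · rw [if_pos h]
      refine cc_zero fun ⟨p, hp, p', hp', k⟩ => e0 ((op.im hp).zero (mem_span_singleton_self e) ?_)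
      rw [← wy.im, ← mem_St_im.1 hp', ← im_mul, ← im_mul, ← k, cj, im1, CForm.mem_perp_singleton]
      simp [eich_apply hf r.2.2, h, ee, re]
    have hp : polar Q e (-(Q r)⁻¹ • r.1) = 0 := by simp [r.2.1]
    have pq := eich_q he hp
    generalize hδ : w * refl Q (e + Q r • f) = δ
    have δx : ∀ x, polar Q e x = 0 → δ.1 x = x - (polar Q f x * (1 + Q r)) • e := fun x hx => by
      rw [← hδ]
      change w.1 ((refl Q _).1 x) = _
      rw [refl_apply, Q_hyp' he hf ef, map_sub, map_smul, map_add, map_smul, we, wf, wx, polar_add_left, polar_smul_left, hx, smul_eq_mul]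
      match_scalars <;> field_simp <;> ring
    have δk : KW (.ofQuad Q) (F ∙ e) δ := fun x hx => by
      rw [δx x ((CForm.mem_perp_singleton _).1 hx), sub_sub_cancel_left]
      exact neg_mem (smul_mem _ _ (mem_span_singleton_self e))
    have rs := st (refl Q r) 1 (by rw [refl_apply_of_orth re, one_smul])
    have p1 := H.le pq
    have p2 := mul_mem (inv_mem p1) rs.1
    have p3 := mul_mem (δk.mem hW) p2
    rw [if_neg h, H.cc_eq p1 p3 (by
      rw [cj, eich_eq_refl_mul hf r.2.2 h, ← hδ, mul_assoc _ w, ← mul_assoc w, ← mul_assoc w, ww, one_mul, ← mul_assoc, ← mul_assoc,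
        refl_conj]
      congr 2
      rw [map_add, map_smul, pq.1 e (mem_span_singleton_self e), ef' ⟨_, hp, by simp [r.2.2]⟩, Q_smul]
      match_scalars <;> field_simp <;> simp), H.irr.ch.ker_mul p1 (H.ker _ pq) p3, psi,
      ta.irr.ch.ker_mul (δk.mem hW) (ta.inv _ δk) p2, ta.irr.ch.ker_mul (inv_mem p1) (ta.inv _ (inv_mem pq).2) rs.1]
    have k : (δ * ((eich Q e (-(Q r)⁻¹ • r.1))⁻¹ * refl Q r)).1 e = (-Q r) • e := by
      change δ.1 ((eich Q e _)⁻¹.1 ((refl Q _).1 e)) = _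
      rw [refl_apply_of_orth re, (inv_mem pq).1 e (mem_span_singleton_self e), δx e ee, fe]
      module
    split_ifs with h1
    · rw [s2 _ (h1 ▸ k), neg_one_mul]
    · rw [s1 _ (by rw [k, (mul_self_eq_one_iff.1 (sq1 _ h)).resolve_left h1, neg_neg]), σ1, one_mul]
  have pe : ∀ v, polar Q e (s v) = -polar Q e v := fun v => by rw [← sp, se]
  have pf : ∀ v, polar Q f (s v) = polar Q f v := fun v => by rw [← neg_neg (polar Q f v), ← polar_neg_left, ← sp, sf]
  let S : M → M := fun r => ⟨s r, by rw [pe, r.2.1, neg_zero], by rw [pf, r.2.2]⟩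
  have g2 : ∀ r : M, Q r ≠ 0 → τ (refl Q (s r)) = τ (refl Q r) := fun r h => by
    have k : ∀ r : M, Q r ≠ 0 → τ (refl Q r) = a * ((zc (.ofQuad Q) ((F ∙ e) ⊔ F ∙ r.1) - 3) / 6) + c := fun r h => by
      have re : polar Q r e = 0 := (polar_comm _ _ _).trans r.2.1
      rw [hr _ (st (refl Q r) 1 (by rw [refl_apply_of_orth re, one_smul])).1, (fx_refl h).1, (fx_refl h).2,
        card_xw hW le_sup_left ((span_singleton_le_iff_mem _ _).2 (perp_sup1.2 ⟨(CForm.mem_perp_singleton _).2 ee, re⟩))]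
      simp only [d1, h3]
      push_cast; ring
    rw [k r h, k (S r) (by rwa [hs, neg_ne_zero])]
    congr 5
    refine (Nat.card_congr (s.toEquiv.subtypeEquiv fun v => ?_)).symm
    simp only [perp_sup1, CForm.mem_perp_singleton, CForm.ofQuad_B, CForm.ofQuad_N, LinearEquiv.coe_toEquiv, S, sp, hs, neg_eq_zero, pe]
  have z : ∑ᶠ u : QW (.ofQuad Q) (F ∙ e), cc (St (.ofQuad Q) (F ∙ e)) (psi _ _ σ τ) w u = 0 := by
    rw [← finsum_eq_of_bijective (fun r : M => (⟨eich Q e r, eich_q he r.2.1⟩ : QW (.ofQuad Q) (F ∙ e))) ⟨fun r r' k => ?_,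
      fun u => ?_⟩ fun r => (g1 r).symm, ← CharZero.eq_neg_self_iff, ← finsum_neg_distrib]
    · refine (finsum_eq_of_bijective S (Finite.injective_iff_bijective.1 fun r r' k =>
        Subtype.ext (s.injective (congrArg (·.1) k :))) fun r => ?_).symm
      simp only [S, hs, neg_eq_zero]
      split_ifs with h h1 h2 h2
      · simp
      · exact (h (by
          have := FiniteField.cast_card_eq_zero F
          rw [← Nat.card_eq_fintype_card, h3] at this
          linear_combination this + h2 + 2 * h1)).elim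
      · rw [g2 r h, neg_neg]
      · rw [g2 r h]
      · exact (h2 (by rw [(mul_self_eq_one_iff.1 (sq1 _ h)).resolve_left h1, neg_neg])).elim
    · have k : f - r - Q r • e = f - r' - Q r' • e := (ef' r).symm.trans ((congrArg (·.1.1 f) k).trans (ef' r'))
      have k' := congrArg (polar Q f) k
      simp only [polar_sub_right, polar_smul_right, r.2.2, r'.2.2, fe, sub_right_inj, smul_eq_mul, mul_one] at k'
      exact Subtype.ext (by simpa [k'] using k)
    have ey : polar Q e (u.1.1 f) = 1 := (q_B u.2 (mem_span_singleton_self e) f).trans ef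
    let r : M := ⟨f - u.1.1 f + polar Q f (u.1.1 f) • e, by simp [ey, ef, ee], by simp [ff, fe]⟩
    refine ⟨r, Subtype.ext (inv_mul_eq_one.1 (op.q_one hQ (mul_mem (inv_mem u.2) (eich_q he r.2.1)) (mem_St_im.2 ?_))).symm⟩
    rw [im_mul, im1, ef', show f - r - Q r • e = u.1.1 f by
      simp [r, Q_add, Q_sub, Q_smul, hf, he, orth_Q, fe, polar_comm Q (u.1.1 f) e, ey]; abel, ← im1, ← im_mul, inv_mul_cancel, im_one]
  have ix := ix F _ V _ hT hQ 3 9 _ hP hW
  rw [d1, h3] at ix
  rw [FA, h3] at fa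
  have := congrFun sm 1
  rw [z, psi_one, σ1, τ1] at eq
  rw [ind_one, psi_one, σ1, τ1, Pi.add_apply, e1, e2, show n = 90 by omega, show (St _ _).index = 1066 by
    simp [Pk] at ix; omega] at this
  obtain rfl : d = d' := by simpa [show n = 90 by omega, Nat.card_pos.ne', sub_eq_zero] using eq
  have : 1066 * 90 = d + d := by exact_mod_cast (one_mul (90 : ℂ) ▸ this :)
  omega

end H12.DG
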