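import Cfsg.Agent.H19.Amb3
import Cfsg.Agent.H10.Dihedral

/-!
# Small group theoretic lemmas on involutions and coprime action
-/

set_option autoImplicit false
set_option maxHeartbeats 400000

namespace H12

open Subgroup H19

variable {G : Type*} [Group G] [Finite G] {Y E K L : Subgroup G} {t e : G} {p : ℕ}

theorem exists_dihedral' (ht : t ∈ Y) (he : e ∈ Y) (ht2 : t * t = 1) (he2 : e * e = 1)
    (h : Even (orderOf (t * e))) : ∃ c ∈ Y, c ≠ 1 ∧ c * c = 1 ∧ c * t = t * c ∧ c * e = e * c ∧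
      ∃ y ∈ Y, c * t = y * t * y⁻¹ ∨ c * t = y * e * y⁻¹ := by
  obtain ⟨a1, a2, a3⟩ := H10.exists_central_invol_of_even ht2 he2 (orderOf_pos _).ne' h
  refine ⟨_, pow_mem (mul_mem ht he) _, H10.ne_one_of_orderOf_two a1,
    H10.mul_self_of_orderOf_two a1, a2, a3, ?_⟩
  have h1 : ∀ j : ℕ, t * ((t * e) ^ j)⁻¹ = (t * e) ^ j * t := fun j => by
    have := H10.zpow_mul_of_inverts (H10.inverts_left ht2 he2) j
    rw [zpow_neg, zpow_natCast] at this
    exact this.symm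
  obtain ⟨j, hj | hj⟩ := Nat.even_or_odd' (orderOf (t * e) / 2) <;> rw [hj]
  · exact ⟨_, pow_mem (mul_mem ht he) j, .inl (by rw [mul_assoc, h1, two_mul, pow_add, mul_assoc])⟩
  · refine ⟨_, mul_mem (pow_mem (mul_mem ht he) j) ht, .inr ?_⟩
    rw [mul_inv_rev, inv_eq_of_mul_eq_one_left ht2, mul_assoc _ e, h1, two_mul, add_assoc, pow_add,
      add_comm j 1, pow_add]
    simp only [pow_one, mul_assoc]

theorem even_of_not_conj (ht : t ∈ Y) (he : e ∈ Y) (ht2 : t * t = 1) (he2 : e * e = 1)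
    (h : ∀ x ∈ Y, x * t * x⁻¹ ≠ e) : Even (orderOf (t * e)) :=
  (Nat.even_or_odd _).resolve_right fun h1 =>
    let ⟨_, hk⟩ := H10.exists_zpow_conj_of_odd ht2 he2 h1
    h _ (zpow_mem (mul_mem ht he) _) hk

theorem not_dvd_of_cent (hp : p.Prime) (hE : PG p E) (hn : E ≤ N(K))
    (h : ∀ k ∈ K, k ∈ C(E) → k ^ p = 1 → k = 1) : ¬ p ∣ #K := fun hd => by
  obtain ⟨P, a1, a2⟩ := hE.exists_syl (le_sup_right (a := K))
  have a3 := a1.inf_of_norm le_sup_left ((a1.le.trans (sup_le le_normalizer hn)))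
  have a4 := a3.pi.meet_cent hE (norms_inf (norms_of_le a2) hn) (a3.sne_bot hp hd)
  have := Fact.mk hp
  obtain ⟨⟨k, a5⟩, a6⟩ := exists_prime_orderOf_dvd_card' p ((a3.pi.infl _).dvd_of_ne_bot a4)
  rw [← orderOf_coe] at a6
  have := h k a5.1.2 a5.2 (a6 ▸ pow_orderOf_eq_one k)
  exact hp.ne_one (by rw [← a6, orderOf_eq_one_iff]; exact this)

theorem le_of_noncyc (hp : p.Prime) (hE : PG p E) (hA : Ab E) (hc : ¬ Cyc E) (hn : E ≤ N(K))
    (h1 : ∀ x ∈ E, x ≠ 1 → K ⊓ C[x] ≤ L) (h2 : ∀ k ∈ K, k ∈ L → k ^ p = 1 → k = 1) : K ≤ L := by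
  obtain ⟨x, a1, a2⟩ := exists_ne_one (H := E) fun e => hc (e ▸ inferInstance)
  exact le_of_cent1_le hA hc hn ((PiN.of_not_dvd (not_dvd_of_cent hp hE hn fun k b1 b2 =>
    h2 k b1 (h1 x a1 a2 ⟨b1, cent_le_cent1 a1 b2⟩))).coprime' hE) h1

end H12
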