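import Cfsg.Agent.H6.Real2
import Cfsg.Agent.H6.Glaub4
import Cfsg.Agent.H6.Infl

/-! Kernels of the irreducible characters of `p'`-degree (Navarro), without the classification. -/

set_option autoImplicit false
set_option linter.unusedSectionVars false

open Cfsg Subgroup
namespace H12.KP
open H6 H20 H19
open scoped ComplexConjugate Classical

universe u

variable {Γ : Type u} [Group Γ] [Finite Γ] {G H K L N P R : Subgroup Γ}
  {θ χ ψ φ : Γ → ℂ} {p : ℕ}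

/-- a character of `p'`-degree has an irreducible constituent of `p'`-degree -/
theorem ex_const (hφ : φ ∈ Chr G) (hd : ¬ p ∣ deg φ) :
    ∃ ψ ∈ Irr G, ¬ p ∣ deg ψ ∧ dot G φ ψ ≠ 0 := by
  by_contra! h'
  rw [deg_eq_sum hφ] at hd
  refine hd (Finset.dvd_sum fun ξ hξ => ?_)
  by_cases e : p ∣ deg ξ
  · exact e.mul_left _
  · rw [mu_of_eq (n := 0) (by simpa using h' ξ hξ e), zero_mul]; exact dvd_zero p

theorem ex_below (hχ : χ ∈ Chr G) (hH : H ≤ G) (hd : ¬ p ∣ deg χ) :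
    ∃ ψ ∈ Irr H, ¬ p ∣ deg ψ ∧ dot H χ ψ ≠ 0 := by
  obtain ⟨ψ, h1, h2, h3⟩ := ex_const (chr_Res hχ hH) (p := p) (by rwa [deg_Res])
  exact ⟨ψ, h1, h2, by rwa [dot_Res_left] at h3⟩

theorem ex_above (hp : p.Prime) (hψ : ψ ∈ Chr H) (hH : H ≤ G) (hi : ¬ p ∣ H.relIndex G)
    (hd : ¬ p ∣ deg ψ) : ∃ χ ∈ Irr G, ¬ p ∣ deg χ ∧ dot H χ ψ ≠ 0 := by
  obtain ⟨χ, h1, h2, h3⟩ := ex_const (chr_Ind hψ hH) (p := p) (by
    rw [deg_Ind hψ hH, hp.dvd_mul]; tauto)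
  rw [dot_Ind_left hH _ (irr_cinv h1)] at h3
  exact ⟨χ, h1, h2, fun e => h3 (dot_eq_zero_comm.1 e)⟩

/-- a `p'`-degree character has a `P`-invariant constituent on a subgroup normalized by `P` -/
theorem ex_inv (hP : PG p P) (hχ : χ ∈ Chr G) (hN : N ≤ G) (hPG : P ≤ G) (hn : P ≤ N(N))
    (hd : ¬ p ∣ deg χ) : ∃ θ ∈ IrrI N P, dot N χ θ ≠ 0 := by
  by_contra! h'
  have h1 := dvd_sum_sub_fixed hP (F := fun φ => ((H6.mu N (Res N χ) φ * deg φ : ℕ) : ℤ)) (Irr N)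
    (fun g hg φ h => irr_cfj h (hn hg)) (fun g hg φ _ => by
      have : H6.mu N (Res N χ) (cfj g φ) = H6.mu N (Res N χ) φ := by
        unfold H6.mu
        rw [dot_Res_left, dot_Res_left]
        conv_lhs => rw [← (chr_cinv hχ).cfj_eq (hPG hg)]
        rw [dot_cfj_of_norm (hn hg)]
      simp only [this, deg_cfj])
  rw [Finset.sum_eq_zero (s := (Irr N).filter (CInv P)) fun φ h => by
    rw [mu_of_eq (n := 0) (by simpa using h' φ h)]; simp, sub_zero, ← Nat.cast_sum,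
    ← deg_eq_sum (chr_Res hχ hN), deg_Res, Int.natCast_dvd_natCast] at h1
  exact hd h1

theorem triv_irrI (hn : P ≤ N(N)) : triv N ∈ IrrI N P :=
  mem_IrrI.2 ⟨triv_mem_Irr N, cinv_triv hn⟩

/-- Glauberman: trivial fixed points means only the principal character is invariant -/
theorem inv_triv (hP : PG p P) (hn : P ≤ N(N)) (hc : PiG {p}ᶜ N) (h : N ⊓ C(P) = ⊥)
    (hθ : θ ∈ IrrI N P) : θ = triv N := by
  have h1 := card_IrrI hP.sol hn (hc.coprime' hP)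
  have h2 : (Irr (N ⊓ C(P))).card ≤ 1 := by
    rw [h]
    exact Finset.card_le_one.2 fun a ha b hb => by
      rw [(irr_le_cker_iff ha).1 bot_le, (irr_le_cker_iff hb).1 bot_le]
  exact Finset.card_le_one.1 (h1 ▸ h2) _ hθ _ (triv_irrI hn)

theorem cent_bot (hP : PG p P) (hn : P ≤ N(N)) (hc : PiG {p}ᶜ N)
    (h : ∀ θ ∈ IrrI N P, θ = triv N) : N ⊓ C(P) = ⊥ := by
  have h1 := card_IrrI hP.sol hn (hc.coprime' hP)
  have h2 : (IrrI N P).card ≤ 1 := Finset.card_le_one.2 fun a ha b hb => by rw [h a ha, h b hb]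
  rw [h1] at h2
  refine le_bot_iff.1 (le_of_forall_cker (G := N ⊓ C(P)) ⟨bot_le, le_normalizer_of_normal⟩ le_rfl fun χ hχ _ => ?_)
  rw [Finset.card_le_one.1 h2 _ hχ _ (triv_mem_Irr _), cker_triv]

theorem deg_one (hK : K ⊴ H) (hi : PiN {p} (K.relIndex H)) (hψ : ψ ∈ Irr H) (h : K ≤ cker ψ)
    (hd : ¬ p ∣ deg ψ) : deg ψ = 1 := by
  by_contra e
  exact hd ((hi.dvd (irr_deg_dvd_relIndex hK hψ h)).dvd_of_ne_one e).2

theorem idx_sup (hP : PG p P) (hn : P ≤ N(K)) : PiN {p} (K.relIndex (K ⊔ P)) := by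
  rw [relIndex_sup_of_norm hn]; exact hP.relIndex _

theorem pi' (hP : Syl p P G) (hN : N ⊴ G) (h : N ⊓ C(P) = ⊥) : PiG {p}ᶜ N := by
  have h1 := hP.inf_normal' hN
  have h2 : N ⊓ P = ⊥ := by
    by_contra e
    refine nil_meet_center hP.pi.nil (hN.inf_le hP.le) e (le_bot_iff.1 ?_)
    exact h ▸ inf_le_inf_right _ inf_le_left
  rw [h2] at h1
  exact h1.pi'_of_eq_bot

/-- the core of `N P'` lies in the kernels -/
theorem le_ker (hP : Syl p P G) (hN : N ⊴ G) (h : N ⊓ C(P) = ⊥) (hL : L ⊴ G)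
    (hLN : L ≤ N ⊔ ⁅P, P⁆) (hχ : χ ∈ Irr G) (hd : ¬ p ∣ deg χ) : L ≤ cker χ := by
  have hn := hN.norms hP.le
  obtain ⟨θ, h1, h2⟩ := ex_inv hP.pi (irr_chr hχ) hN.le hP.le hn hd
  rw [inv_triv hP.pi hn (pi' hP hN h) h h1] at h2
  have h3 : N ≤ cker χ := by
    by_contra e; exact h2 (irr_dot_triv_normal hχ hN e)
  have hH : N ⊔ P ≤ G := sup_le hN.le hP.le
  obtain ⟨ψ, h4, h5, h6⟩ := ex_below (irr_chr hχ) hH hd
  have h7 := le_cker_of_below (irr_chr hχ) hH h4 h6 le_sup_left h3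
  have h8 := (der_le_cker h4).2 (deg_one (left_normal_sup hn) (idx_sup hP.pi hn) h4 h7 h5)
  exact le_cker_of_above hχ hH (irr_chr h4) h6 hL.norm
    (hLN.trans (sup_le_sup_left (der_le P) _))
    (hLN.trans (sup_le h7 ((der_mono le_sup_right).trans h8)))

/-- a normal subgroup in all the kernels lies in `R P'` with `R` normal, `C_R(P) = 1` -/
theorem ker_le (hp : p.Prime) (hP : Syl p P G) (hK : K ⊴ G)
    (h : ∀ χ ∈ Irr G, ¬ p ∣ deg χ → K ≤ cker χ) :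
    ∃ R, R ⊴ G ∧ R ⊓ C(P) = ⊥ ∧ K ≤ R ⊔ ⁅P, P⁆ := by
  have hn := hK.norms hP.le
  have hH : K ⊔ P ≤ G := sup_le hK.le hP.le
  have key : ∀ H X, P ≤ H → H ≤ G → X ≤ H → X ≤ K → ∀ ψ ∈ Irr H, ¬ p ∣ deg ψ → X ≤ cker ψ := by
    intro H X h1 h2 h3 h4 ψ h5 h6
    obtain ⟨χ, h7, h8, h9⟩ := ex_above hp (irr_chr h5) h2 (hP.not_dvd_relIndex hp h1) h6
    exact le_cker_of_below (irr_chr h7) h2 h5 h9 h3 (h4.trans (h χ h7 h8))
  have hT := thompson_hall (G := K ⊔ P) hp fun ψ hψ _ e => by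
    by_contra e'
    exact e (deg_one (left_normal_sup hn) (idx_sup hP.pi hn) hψ
      (key _ _ le_sup_right hH le_sup_left le_rfl ψ hψ e') e')
  set R := Ores p (K ⊔ P) with hR
  have hRn : R ⊴ K ⊔ P := Ores_normal p _
  have hRK : R ≤ K := le_of_pi_of_relIndex (hK.norms (hT.le.trans hH)) le_sup_left hT.le hT.pi
    (idx_sup hP.pi hn).compl_compl
  have hRG : R ⊴ G := ⟨hRK.trans hK.le, fun g hg => mem_norm_of_cj_le
    (hT.le_of_normal hRn.norm ((cj_le_of_mem_norm (hK.norm hg) hRK).trans le_sup_left)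
      (hT.pi.J g))⟩
  have hPR := hRG.norms hP.le
  have hRP : R ⊔ P = K ⊔ P := (hP.of_le le_sup_right hH).sup_eq hT.le (by simpa using hT.idx)
  refine ⟨R, hRG, cent_bot hP.pi hPR hT.pi fun θ hθ => ?_, ?_⟩
  · obtain ⟨χ, h1, h2⟩ := exists_can hRn (irrI_irr hθ)
      (hRP ▸ cinv_sup (irr_cinv (irrI_irr hθ)) (irrI_cinv hθ)) hT.coprime.symm
    have h3 : ¬ p ∣ deg χ := fun e => hT.pi.not_dvd hp rfl (e.trans h1.deg_dvd)
    have h4 := le_cker_Res le_rfl (key _ R le_sup_right hH hT.le hRK χ h1.irr h3)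
    rw [h2] at h4
    exact (irr_le_cker_iff (irrI_irr hθ)).1 h4
  · have h1 : ⁅K ⊔ P, K ⊔ P⁆ ≤ R ⊔ ⁅P, P⁆ := hRP ▸ der_sup_le hPR
    refine le_of_forall_cker (G := K ⊔ P) (normal_of_der_le h1
      (sup_le hT.le ((der_le P).trans le_sup_right))) le_sup_left fun χ hχ e => ?_
    refine key _ _ le_sup_right hH le_sup_left le_rfl χ hχ ?_
    rw [(der_le_cker hχ).1 (h1.trans e)]
    exact hp.not_dvd_one

theorem main (hp : p.Prime) (hP : Syl p P ⊤) [N.Normal] (h : N ⊓ C(P) = ⊥)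
    (hmax : ∀ L : Subgroup Γ, L.Normal → L ⊓ C(P) = ⊥ → L ≤ N) (g : Γ) :
    (∀ χ ∈ Irr (⊤ : Subgroup Γ), ¬ p ∣ deg χ → χ g = χ 1) ↔ g ∈ (N ⊔ ⁅P, P⁆).normalCore := by
  constructor
  · intro hg
    obtain ⟨R, h1, h2, h3⟩ := ker_le (K := normalClosure {g}) hp hP normalIn_top fun χ hχ hd => by
      have := (cker_normal hχ).normal
      exact normalClosure_le_normal (by
        simpa using (chr_mem_cker (irr_chr hχ) (mem_top g)).2 (hg χ hχ hd))
    exact normal_le_normalCore.2 (h3.trans (sup_le_sup_right (hmax R h1.normal h2) _))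
      (subset_normalClosure rfl)
  · intro hg χ hχ hd
    exact cker_apply (le_ker hP normalIn_top h normalIn_top (normalCore_le _) hχ hd hg)

end H12.KP
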