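/-
S4578, chunk F3: column orthogonality of the coefficients of Schur's Q-functions.
-/
import Cfsg.Agent.H26.RB0

set_option autoImplicit false

namespace H12.RB
open Finset Matrix H7.Sn H26.RB

variable {N : ℕ}

theorem ph_out {k : ℤ} (h : (N : ℤ) < |k|) : ph N k = 0 := by
  have := abs_cases k
  rw [ph, dif_neg (by omega), if_neg (by omega), dif_neg (by omega)]

/-- vectors killed by the annihilation operators above `m` -/
def Low (m : ℤ) (v : Fk N → ℤ) : Prop := ∀ j, m < j → ph N (-j) *ᵥ v = 0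

theorem Low.mono {m m' : ℤ} {v : Fk N → ℤ} (h : Low m v) (e : m ≤ m') : Low m' v :=
  fun j hj => h j (by omega)

theorem Low.bb (cm : COMM) {m m' r : ℤ} {v : Fk N → ℤ} (h : Low m v) (hr : Odd r) (h0 : 0 ≤ m')
    (e : m ≤ m') (e' : m ≤ m' + r) : Low m' (bb N r *ᵥ v) := fun j hj => by
  by_cases c : (N : ℤ) < |-j|
  · rw [ph_out c, zero_mulVec]
  have := congrArg (· *ᵥ v) (cm N r (-j) hr (by omega))
  simp only [sub_mulVec, smul_mulVec, ← mulVec_mulVec] at this
  rw [h j (by omega), show -j - r = -(j + r) by ring, h _ (by omega), mulVec_zero, smul_zero,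
    zero_sub, neg_eq_zero] at this
  exact this

theorem Low.sw (car : CAR) {m i j : ℤ} {v : Fk N → ℤ} (h : Low m v) (hi : i < -m) :
    (ph N i * ph N j) *ᵥ v = if i + j = 0 ∧ |i| ≤ N then (2 * i.negOnePow : ℤ) • v else 0 := by
  have := congrArg (· *ᵥ v) (car N i j)
  have e := h (-i) (by omega)
  rw [neg_neg] at e
  simp only [add_mulVec] at this
  rw [← mulVec_mulVec v (ph N j), e, mulVec_zero, add_zero] at this
  rw [this]
  split_ifs
  · rw [smul_mulVec, one_mulVec]
  · exact zero_mulVec _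

theorem Low.bb0 (car : CAR) {r : ℤ} {v : Fk N → ℤ} (h : Low 0 v) (hr : 0 < r) : H26.RB.bb N r *ᵥ v = 0 := by
  rw [H26.RB.bb, sum_mulVec]
  refine sum_eq_zero fun k _ => ?_
  rw [smul_mulVec]
  by_cases c : k < 0
  · rw [h.sw car (by omega), if_neg (by omega), smul_zero]
  · rw [← mulVec_mulVec, show -k - r = -(k + r) by ring, h _ (by omega), mulVec_zero, smul_zero]

theorem low0 (c : ℤ) : Low 0 (Pi.single (∅ : Fk N) c) := fun j hj => by
  by_cases h : j ≤ N
  · rw [ph, dif_neg (by omega), if_neg (by omega), dif_pos (by omega)]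
    rw [smul_mulVec]
    refine smul_eq_zero_of_right _ (funext fun T => ?_)
    simp [cr, (insert_ne_empty _ _).symm]
  · rw [ph_out (by rw [abs_neg, abs_of_pos hj]; omega), zero_mulVec]

theorem bb_col (car : CAR) {r : ℤ} (hr : 0 < r) (T : Fk N) : bb N r T ∅ = 0 := by
  simpa using congrFun ((low0 (N := N) 1).bb0 car hr) T

theorem sum_shift {M : Type*} [AddCommMonoid M] (f : ℤ → M) (a b r : ℤ) :
    ∑ k ∈ Ico a b, f (k - r) = ∑ k ∈ Ico (a - r) (b - r), f k :=
  sum_bij' (fun k _ => k - r) (fun k _ => k + r) (fun _ h => by simp at h ⊢; omega) (fun _ h => by simp at h ⊢; omega)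
    (by simp) (by simp) (by simp)

theorem sum_Ico_cons {M : Type*} [AddCommMonoid M] (f : ℤ → M) {a b c : ℤ} (h1 : a ≤ b) (h2 : b ≤ c) :
    ∑ k ∈ Ico a b, f k + ∑ k ∈ Ico b c, f k = ∑ k ∈ Ico a c, f k := by
  rw [← sum_union (Ico_disjoint_Ico_consecutive _ _ _), Ico_union_Ico_eq_Ico h1 h2]

theorem bb_adj (adj : ADJ) {s : ℤ} (hs : 0 < s) (S T : Fk N) :
    2 ^ #S * bb N (-s) S T = bb N s T S * 2 ^ #T := by
  let f : ℤ → ℤ := fun k => k.negOnePow * (ph N k * ph N (-k - s)) T S * 2 ^ #T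
  have e : ∀ k : ℤ, 2 ^ #S * ((k.negOnePow : ℤ) * (ph N k * ph N (-k - -s)) S T) = f (k - s) := fun k => by
    simp only [f, mul_apply, mul_sum, sum_mul]
    refine sum_congr rfl fun U _ => ?_
    have h1 := adj N k S U
    have h2 := adj N (-k - -s) U T
    have h3 : (k.negOnePow : ℤ) * k.negOnePow = 1 := by rw [← Units.val_mul, Int.units_mul_self]; rfl
    rw [show -(-k - -s) = k - s by ring, show -k - -s = -(k - s) by ring, Int.negOnePow_neg] at h2
    rw [show -(k - s) - s = -k by ring, show -k - -s = -(k - s) by ring]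
    linear_combination (k.negOnePow * ph N (-(k - s)) U T : ℤ) * h1 + (ph N (-k) U S : ℤ) * h2 +
      (2 ^ #U * ph N (-k) U S * ph N (-(k - s)) U T : ℤ) * h3
  have z : ∀ k : ℤ, k < -N ∨ N - s < k → f k = 0 := fun k hk => by
    have := abs_cases k
    have := abs_cases (-k - s)
    rcases hk with hk | hk
    · simp [f, ph_out (N := N) (k := k) (by omega)]
    · simp [f, ph_out (N := N) (k := -k - s) (by omega)]
  simp only [bb, Matrix.sum_apply, Matrix.smul_apply, smul_eq_mul, mul_sum, sum_mul, e]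
  rw [← Ico_add_one_right_eq_Icc, sum_shift]
  refine (sum_subset (s₁ := Ico (-N : ℤ) (N + 1 - s)) ?_ ?_).symm.trans (sum_subset ?_ ?_)
  · exact Ico_subset_Ico (by omega) le_rfl
  · intro k h1 h2; simp at h1 h2; exact z k (by omega)
  · exact Ico_subset_Ico le_rfl (by omega)
  · intro k h1 h2; simp at h1 h2; exact z k (by omega)

theorem heis0 (car : CAR) (cm : COMM) {r s : ℤ} (hr : Odd r) (r0 : 0 < r) (s0 : 0 < s) (sN : s ≤ N)
    {v : Fk N → ℤ} (h : Low (N - s) v) :
    bb N r *ᵥ bb N (-s) *ᵥ v = bb N (-s) *ᵥ bb N r *ᵥ v + (if r = s then 8 * r else 0) • v := by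
  let a : ℤ → Mx N := fun j => (j.negOnePow : ℤ) • (ph N j * ph N (s - r - j))
  have e : bb N (-s) = ∑ k ∈ Ico (s - N) (N + 1), (k.negOnePow : ℤ) • (ph N k * ph N (s - k)) := by
    rw [bb, ← Ico_add_one_right_eq_Icc]
    refine (sum_subset (Ico_subset_Ico (by omega) le_rfl) fun k h1 h2 => ?_).symm.trans
      (sum_congr rfl fun k _ => by rw [show -k - -s = s - k by ring])
    simp at h1 h2
    have := abs_cases (-k - -s)
    rw [ph_out (N := N) (k := -k - -s) (by omega), mul_zero, smul_zero]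
  have e2 : bb N r * bb N (-s) - bb N (-s) * bb N r =
      (-4 : ℤ) • (∑ k ∈ Ico (s - N) (N + 1), a k - ∑ k ∈ Ico (s - N - r) (N + 1 - r), a k) := by
    rw [e, mul_sum, sum_mul, ← sum_shift, ← sum_sub_distrib, ← sum_sub_distrib, smul_sum]
    refine sum_congr rfl fun k hk => ?_
    simp at hk
    have h1 := cm N r k hr (abs_le.2 ⟨by omega, by omega⟩)
    have h2 := cm N r (s - k) hr (abs_le.2 ⟨by omega, by omega⟩)
    have h3 : ((k - r).negOnePow : ℤ) = -k.negOnePow := by
      rw [Int.negOnePow_sub, Int.negOnePow_odd _ hr]; simp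
    simp only [a]
    rw [h3, show s - r - (k - r) = s - k by ring, show s - r - k = s - k - r by ring, mul_smul_comm,
      smul_mul_assoc, ← smul_sub, neg_smul (k.negOnePow : ℤ), sub_neg_eq_add, ← smul_add, smul_comm, smul_add,
      ← mul_smul_comm, ← smul_mul_assoc, ← h1, ← h2]
    congr 1
    noncomm_ring
  have u1 := sum_Ico_cons a (show s - N - r ≤ s - N by omega) (show s - N ≤ N + 1 by omega)
  have u2 := sum_Ico_cons a (show s - N - r ≤ N + 1 - r by omega) (show (N : ℤ) + 1 - r ≤ N + 1 by omega)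
  have u3 : ∑ k ∈ Ico (s - N) (N + 1), a k - ∑ k ∈ Ico (s - N - r) (N + 1 - r), a k =
      ∑ k ∈ Ico (N + 1 - r) (N + 1), a k - ∑ k ∈ Ico (s - N - r) (s - N), a k := by
    rw [sub_eq_sub_iff_add_eq_add, add_comm, u1, ← u2, add_comm]
  have z1 : (∑ k ∈ Ico (N + 1 - r) (N + 1), a k) *ᵥ v = 0 := by
    rw [sum_mulVec]
    refine sum_eq_zero fun k hk => ?_
    simp at hk
    rw [smul_mulVec, ← mulVec_mulVec, show s - r - k = -(k + r - s) by ring, h _ (by omega), mulVec_zero,
      smul_zero]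
  have z2 : (∑ k ∈ Ico (s - N - r) (s - N), a k) *ᵥ v = (if r = s then 2 * r else 0) • v := by
    rw [sum_mulVec, sum_congr rfl (g := fun _ => (if r = s then 2 else 0 : ℤ) • v) fun k hk => ?_]
    · rw [sum_const, Int.card_Ico, ← natCast_zsmul, smul_smul, Int.toNat_of_nonneg (by omega)]
      split_ifs <;> congr 1 <;> ring
    simp at hk
    have h3 : (k.negOnePow : ℤ) * k.negOnePow = 1 := by rw [← Units.val_mul, Int.units_mul_self]; rfl
    rw [smul_mulVec, h.sw car (by omega)]
    by_cases c : r = s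
    · rw [if_pos ⟨by omega, abs_le.2 ⟨by omega, by omega⟩⟩, if_pos c, smul_smul]
      congr 1
      linear_combination 2 * h3
    · rw [if_neg (by omega), if_neg c, smul_zero, zero_smul]
  have := congrArg (· *ᵥ v) e2
  simp only [u3, sub_mulVec, smul_mulVec, z1, z2, ← mulVec_mulVec, zero_sub, smul_neg, smul_smul,
    ← neg_smul] at this
  rw [sub_eq_iff_eq_add'.1 this]
  split_ifs <;> congr 2 <;> ring

/-- the functional given by a column -/
noncomputable def LL (μ : Multiset ℕ) (v : Fk N → ℤ) : ℤ := ∑ S, XS S μ * v S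

theorem LL_cons (mn : MN) {r : ℕ} {μ : Multiset ℕ} (hr : Odd r) (hμ : Od μ) (v : Fk N → ℤ) :
    -4 * LL (r ::ₘ μ) v = LL μ (bb N r *ᵥ v) := by
  simp only [LL, mul_sum, ← mul_assoc, mn N r μ _ hr hμ, sum_mul, mulVec, dotProduct]
  rw [sum_comm]
  exact sum_congr rfl fun _ _ => sum_congr rfl fun _ _ => by ring

theorem Od.of_le {μ ν : Multiset ℕ} (h : Od ν) (e : μ ≤ ν) : Od μ := fun k hk => h k (Multiset.mem_of_le e hk)

theorem heis (car : CAR) (adj : ADJ) (cm : COMM) (mn : MN) (x0 : XS0) {s : ℕ} (hs : Odd s) (sN : s ≤ N)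
    (μ : Multiset ℕ) : Od μ → ∀ v : Fk N → ℤ, Low (N - s) v →
      LL μ (bb N (-s) *ᵥ v) = -2 * s * μ.count s * LL (μ.erase s) v := by
  have s0 : (0 : ℤ) < s := by have := hs.pos; omega
  induction μ using Multiset.induction_on with
  | empty =>
    intro _ v _
    have : ∀ T : Fk N, bb N (-s) ∅ T = 0 := fun T => by simpa [bb_col car s0] using bb_adj adj s0 ∅ T
    simp [LL, x0 N, mulVec, dotProduct, this]
  | cons r μ ih =>
    intro o v h
    have hr : Odd r := o r (by simp)
    have r0 : (0 : ℤ) < r := by have := hr.pos; omega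
    have o' : Od μ := Od.of_le o (Multiset.le_cons_self _ _)
    have e1 := LL_cons mn hr o' (bb N (-s) *ᵥ v)
    have e2 := LL_cons mn hr (Od.of_le o' (Multiset.erase_le s μ)) v
    have e3 : ∀ (a b : Fk N → ℤ) (c : ℤ), LL μ (a + c • b) = LL μ a + c * LL μ b := fun a b c => by
      simp only [LL, mul_sum, ← sum_add_distrib]
      exact sum_congr rfl fun _ _ => by simp; ring
    rw [heis0 car cm hr.natCast r0 s0 (by omega) h, e3,
      ih o' _ (h.bb cm hr.natCast (by omega) le_rfl (by omega)), ← e2] at e1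
    by_cases c : r = s
    · subst c
      rw [if_pos rfl] at e1
      rw [Multiset.erase_cons_head, Multiset.count_cons_self]
      by_cases m : r ∈ μ
      · rw [Multiset.cons_erase m] at e1
        push_cast
        linarith
      · rw [Multiset.count_eq_zero.2 m] at e1 ⊢
        push_cast at e1 ⊢
        linarith
    · rw [if_neg (by omega)] at e1
      rw [Multiset.erase_cons_tail _ c, Multiset.count_cons_of_ne (Ne.symm c)]
      linarith

/-- the dual vectors -/
noncomputable def ww (N : ℕ) (ν : Multiset ℕ) : Fk N → ℤ := fun S => 2 ^ (N - #S) * XS S ν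

theorem pw2 (S : Fk N) : (2 : ℤ) ^ #S * 2 ^ (N - #S) = 2 ^ N := by
  rw [← pow_add, Nat.add_sub_cancel' (by simpa using card_le_univ S)]

theorem ww_cons (adj : ADJ) (mn : MN) {s : ℕ} {ν : Multiset ℕ} (hs : Odd s) (o : Od ν) :
    bb N (-s) *ᵥ ww N ν = (-4 : ℤ) • ww N (s ::ₘ ν) := funext fun S => by
  have s0 : (0 : ℤ) < s := by have := hs.pos; omega
  refine mul_left_cancel₀ (a := 2 ^ #S) (by positivity) ?_
  have := mn N s ν S hs o
  simp only [mulVec, dotProduct, ww, mul_sum, ← mul_assoc, bb_adj adj s0, Pi.smul_apply, smul_eq_mul]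
  simp only [mul_assoc _ (2 ^ _ : ℤ) (2 ^ _), pw2]
  rw [show (2 : ℤ) ^ #S * -4 * 2 ^ (N - #S) * XS S (s ::ₘ ν) =
    (2 ^ #S * 2 ^ (N - #S)) * (-4 * XS S (s ::ₘ ν)) by ring, pw2, this, mul_sum]
  exact sum_congr rfl fun _ _ => by ring

theorem ww0 (x0 : XS0) : ww N 0 = Pi.single ∅ (2 ^ N) := funext fun S => by
  by_cases h : S = ∅ <;> simp [ww, x0 N, h]

theorem ww_low (adj : ADJ) (cm : COMM) (mn : MN) (x0 : XS0) (ν : Multiset ℕ) :
    Od ν → Low ν.sum (ww N ν) := by
  induction ν using Multiset.induction_on with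
  | empty => exact fun _ => ww0 (N := N) x0 ▸ low0 _
  | cons s ν ih =>
    intro o j hj
    have hs : Odd s := o s (by simp)
    have o' : Od ν := Od.of_le o (Multiset.le_cons_self _ _)
    have := (ih o').bb cm (m' := (s ::ₘ ν).sum) hs.natCast.neg (by omega) (by simp) (by simp) j hj
    rwa [ww_cons adj mn hs o', mulVec_smul, smul_eq_zero_iff_right (by norm_num)] at this

theorem col0 (car : CAR) (adj : ADJ) (cm : COMM) (mn : MN) (x0 : XS0) (ν : Multiset ℕ) :
    Od ν → ν.sum ≤ N → ∀ μ, Od μ →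
      2 ^ ν.card * LL μ (ww N ν) = if μ = ν then 2 ^ N * (zz ν : ℤ) else 0 := by
  induction ν using Multiset.induction_on with
  | empty =>
    intro _ _ μ o
    have e : LL μ (ww N 0) = XS (∅ : Fk N) μ * 2 ^ N := by simp [LL, ww0 x0, Pi.single_apply]
    rw [e]
    induction μ using Multiset.induction_on with
    | empty => simp [x0 N, zz]
    | cons r μ _ =>
      have hr : Odd r := o r (by simp)
      have := mn N r μ ∅ hr (Od.of_le o (Multiset.le_cons_self _ _))
      simp only [bb_col car (show (0 : ℤ) < r by have := hr.pos; omega), zero_mul, sum_const_zero] at this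
      simp [show XS (∅ : Fk N) (r ::ₘ μ) = 0 by omega]
  | cons s ν ih =>
    intro o hn μ oμ
    rw [Multiset.sum_cons] at hn
    have hs : Odd s := o s (by simp)
    have o' : Od ν := Od.of_le o (Multiset.le_cons_self _ _)
    have e1 := heis (N := N) car adj cm mn x0 hs (by omega) μ oμ _ ((ww_low adj cm mn x0 ν o').mono (by omega))
    have e2 := ih o' (by omega) _ (Od.of_le oμ (Multiset.erase_le s μ))
    have e3 : LL μ ((-4 : ℤ) • ww N (s ::ₘ ν)) = -4 * LL μ (ww N (s ::ₘ ν)) := by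
      simp only [LL, mul_sum]
      exact sum_congr rfl fun _ _ => by simp; ring
    rw [ww_cons adj mn hs o', e3] at e1
    have e4 : 2 ^ (s ::ₘ ν).card * LL μ (ww N (s ::ₘ ν)) =
        s * μ.count s * (2 ^ ν.card * LL (μ.erase s) (ww N ν)) := by
      rw [Multiset.card_cons, pow_succ]
      have : 2 * LL μ (ww N (s ::ₘ ν)) = s * μ.count s * LL (μ.erase s) (ww N ν) := by linarith
      linear_combination 2 ^ ν.card * this
    rw [e4, e2]
    by_cases c : μ = s ::ₘ ν
    · subst c
      simp [zz_cons]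
      ring
    · rw [if_neg c]
      by_cases m : s ∈ μ
      · rw [if_neg fun e => c (by rw [← e, Multiset.cons_erase m]), mul_zero]
      · simp [Multiset.count_eq_zero.2 m]

theorem col (car : CAR) (adj : ADJ) (cm : COMM) (mn : MN) (x0 : XS0) : COL := fun N μ ν oμ o hn => by
  have := congrArg (Int.cast : ℤ → ℚ) (col0 car adj cm mn x0 ν o hn μ oμ)
  have e : ∑ S : Fk N, (2 : ℚ)⁻¹ ^ #S * XS S μ * XS S ν = (2 ^ N : ℚ)⁻¹ * LL μ (ww N ν) := by
    simp only [LL, ww, Int.cast_sum, mul_sum]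
    refine sum_congr rfl fun S _ => ?_
    have := congrArg (Int.cast : ℤ → ℚ) (pw2 S)
    push_cast at this ⊢
    rw [← this, inv_pow]
    field_simp
  rw [e]
  split_ifs at this ⊢ with c
  · subst c
    push_cast at this
    rw [inv_pow]
    field_simp
    linarith
  · simpa using this

end H12.RB
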