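/-
S4578, chunk F5: the degree formula.
-/
import Cfsg.Agent.H26.RB0

set_option autoImplicit false

namespace H12.RB
open H7.Sn hiding X
open Finset Matrix H26.RB Polynomial
open scoped Nat

variable {N l : ℕ}

theorem lagr {ι : Type*} [Fintype ι] [DecidableEq ι] (x : ι → ℚ)
    (h : Function.Injective fun i => x i ^ 2 - x i) :
    ∑ i, x i * ∏ j ∈ univ.erase i, ((x i ^ 2 - x i - (x j ^ 2 + x j)) / (x i ^ 2 - x i - (x j ^ 2 - x j))) =
      ∑ i, x i := by
  rcases isEmpty_or_nonempty ι with _ | _
  · simp
  have m : ∀ f : ι → ℚ, (∏ i, (X - C (f i))).Monic := fun f => monic_prod_of_monic _ _ fun _ _ => monic_X_sub_C _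
  have d : ∀ f : ι → ℚ, (∏ i, (X - C (f i))).degree = ((#(univ : Finset ι) : ℕ) : WithBot ℕ) := fun f => by
    rw [degree_prod]; simp
  have := Lagrange.coeff_eq_sum (s := univ) h.injOn
    (P := ∏ i, (X - C (x i ^ 2 + x i)) - ∏ i, (X - C (x i ^ 2 - x i)))
    ((degree_sub_lt_left ((d _).trans (d _).symm) (m _).ne_zero ((m _).trans (m _).symm)).trans_eq (d _))
  rw [coeff_sub, prod_X_sub_C_coeff_card_pred _ _ univ_nonempty.card_pos, prod_X_sub_C_coeff_card_pred _ _ univ_nonempty.card_pos,
    sum_add_distrib, sum_sub_distrib] at this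
  replace this := this.trans (sum_congr rfl (g := fun i => -2 * (x i * ∏ j ∈ univ.erase i,
      ((x i ^ 2 - x i - (x j ^ 2 + x j)) / (x i ^ 2 - x i - (x j ^ 2 - x j))))) fun i _ => ?_)
  · rw [← mul_sum] at this
    linarith
  simp only [eval_sub, eval_prod, eval_X, eval_C]
  rw [prod_eq_zero (f := fun j => x i ^ 2 - x i - (x j ^ 2 - x j)) (mem_univ i) (sub_self _), ← mul_prod_erase _ _ (mem_univ i), prod_div_distrib]
  ring

noncomputable def FF (α : Fin l → ℤ) : ℚ :=
  ∏ i, (((α i).toNat ! : ℚ)⁻¹ * ∏ j with i < j, ((α i - α j : ℚ) / (α i + α j)))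

theorem FF_sub {α : Fin l → ℤ} (h : StrictAnti α) (p : ∀ i, 0 < α i) (i : Fin l) :
    FF (α - Pi.single i 1) = FF α * (α i * ∏ j ∈ univ.erase i,
      (((α i : ℚ) ^ 2 - α i - (α j ^ 2 + α j)) / (α i ^ 2 - α i - (α j ^ 2 - α j)))) := by
  set r : Fin l → ℚ := fun j => ((α i : ℚ) ^ 2 - α i - (α j ^ 2 + α j)) / (α i ^ 2 - α i - (α j ^ 2 - α j))
  have k : ∀ j, j ≠ i → ((α i : ℚ) - 1 - α j) / (α i - 1 + α j) = (α i - α j) / (α i + α j) * r j := fun j hj => by
    have h1 : (1 : ℚ) ≤ α i := by exact_mod_cast p i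
    have h2 : (1 : ℚ) ≤ α j := by exact_mod_cast p j
    have h3 : (α i : ℚ) - α j ≠ 0 := by exact_mod_cast sub_ne_zero.2 (h.injective.ne hj.symm)
    have h4 : (α i : ℚ) - 1 + α j ≠ 0 := by linarith
    have h5 : (α i : ℚ) + α j ≠ 0 := by linarith
    simp only [r]
    rw [show (α i : ℚ) ^ 2 - α i - (α j ^ 2 - α j) = (α i - α j) * (α i - 1 + α j) by ring]
    field_simp
    ring
  have e : α i * ∏ j ∈ univ.erase i, r j =
      ∏ a, if a = i then α i * ∏ j with i < j, r j else if a < i then r a else 1 := by
    rw [← mul_prod_erase _ _ (mem_univ i), if_pos rfl, mul_assoc, prod_filter,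
      ← mul_prod_erase _ _ (mem_univ i), if_neg (lt_irrefl _), one_mul, ← prod_mul_distrib]
    congr 1
    refine prod_congr rfl fun j hj => ?_
    have := ne_of_mem_erase hj
    rw [if_neg this]
    rcases lt_or_gt_of_ne this with c | c
    · rw [if_neg c.not_gt, if_pos c, one_mul]
    · rw [if_pos c, if_neg c.not_gt, mul_one]
  rw [e, FF, FF, ← prod_mul_distrib]
  refine prod_congr rfl fun a _ => ?_
  by_cases c : a = i
  · subst c
    obtain ⟨m, hm⟩ : ∃ m : ℕ, α a = m + 1 := ⟨(α a - 1).toNat, by have := p a; omega⟩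
    rw [if_pos rfl, mul_mul_mul_comm, ← prod_mul_distrib]
    congr 1
    · simp only [Pi.sub_apply, Pi.single_eq_same, hm]
      rw [show ((m : ℤ) + 1 - 1).toNat = m by omega, show ((m : ℤ) + 1).toNat = m + 1 by omega, Nat.factorial_succ]
      push_cast
      field_simp
    · refine prod_congr rfl fun j hj => ?_
      have := (mem_filter.1 hj).2.ne'
      simpa [this] using k j this
  · rw [if_neg c, mul_assoc]
    congr 1
    · simp [c]
    have : (if a < i then r a else 1) = ∏ j with a < j, if j = i then r a else 1 := by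
      rw [prod_ite_eq']; simp
    rw [this, ← prod_mul_distrib]
    refine prod_congr rfl fun j _ => ?_
    by_cases c' : j = i
    · subst c'
      have := k a c
      simp only [Pi.sub_apply, Pi.single_eq_same, Pi.single_eq_of_ne c, if_true]
      push_cast
      rw [← neg_inj, ← neg_div, ← neg_mul, ← neg_div]
      convert this using 2 <;> ring
    · simp [c, c']

theorem FF_sum {α : Fin l → ℤ} (h : StrictAnti α) (p : ∀ i, 0 < α i) :
    ∑ i, FF (α - Pi.single i 1) = FF α * ∑ i, (α i : ℚ) := by
  simp only [FF_sub h p]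
  rw [← mul_sum, lagr (fun i => (α i : ℚ)) fun i j e => ?_]
  have h1 : (1 : ℚ) ≤ α i := by exact_mod_cast p i
  have h2 : (1 : ℚ) ≤ α j := by exact_mod_cast p j
  have : ((α i : ℚ) - α j) * (α i - 1 + α j) = 0 := by simp only at e; linarith
  exact h.injective (by exact_mod_cast sub_eq_zero.1 ((mul_eq_zero.1 this).resolve_right (by linarith)))

theorem prod0 {M : Type*} [MonoidWithZero M] (l : ℕ) : ∀ (f : Fin (l + 1) → M) (i : Fin l),
    f i.castSucc * f i.succ = 0 → (List.ofFn f).prod = 0 := by
  induction l with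
  | zero => exact fun _ i => i.elim0
  | succ l ih =>
    intro f i h
    rw [List.ofFn_succ, List.prod_cons]
    cases i using Fin.cases with
    | zero => rw [List.ofFn_succ, List.prod_cons, ← mul_assoc]; exact mul_eq_zero_of_left h _
    | succ i => rw [ih _ i h, mul_zero]

theorem XX_cons (α : Fin l → ℤ) (r : ℕ) (μ : Multiset ℕ) :
    XX N α (r ::ₘ μ) = ∑ i, XX N (α - Pi.single i (r : ℤ)) μ := by
  simp only [XX, pm_cons, ip_ps_mul]
  simp only [ip, Finsupp.sum, mul_sum]
  rw [sum_comm]
  exact sum_congr rfl fun _ _ => sum_congr rfl fun _ _ => by rw [sub_sub, add_comm]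

theorem deg (car : CAR) (lk : LINK) : DEG := fun N l n => by
  change ∀ α : Fin l → ℤ, _ → _ → _ → _ = _ * FF α
  induction n generalizing l with
  | zero =>
    intro α _ p hs
    cases l with
    | zero => simp [XX, FF, ip, ket, AddMonoidAlgebra.one_def]
    | succ l =>
      have := sum_pos (s := univ) (fun i _ => (p i).1) univ_nonempty
      omega
  | succ n ih =>
    intro α h p hs
    have o : Od (.replicate n 1) := fun k hk => by rw [Multiset.eq_of_mem_replicate hk]; exact odd_one
    rw [Multiset.replicate_succ, XX_cons, Int.cast_sum,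
      sum_congr rfl (g := fun i => n ! * FF (α - Pi.single i 1)) fun i _ => ?_, ← mul_sum,
      FF_sum h fun i => (p i).1, ← Int.cast_sum, hs, Nat.factorial_succ]
    · push_cast; ring
    rw [Nat.cast_one]
    set β := α - Pi.single i 1 with hβ
    have b1 : ∀ j, β j = α j - if j = i then 1 else 0 := fun j => by simp [β, Pi.single_apply]
    have b2 : ∀ j, β j ≤ N := fun j => by have := b1 j; have := p j; split_ifs at * <;> omega
    have b3 : ∑ j, β j = n := by simp [b1, hs]
    clear_value β
    cases l with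
    | zero => exact i.elim0
    | succ l =>
    by_cases c : StrictAnti β
    · by_cases c' : ∀ j, 0 < β j
      · exact ih _ β c (fun j => ⟨c' j, b2 j⟩) b3
      have z : β (Fin.last l) = 0 := by
        push Not at c'
        obtain ⟨j, hj⟩ := c'
        have := c.antitone (Fin.le_last j)
        have := b1 (Fin.last l)
        have := p (Fin.last l)
        split_ifs at * <;> omega
      have q : ∀ j : Fin l, 0 < β j.castSucc := fun j => z ▸ c (Fin.castSucc_lt_last j)
      have e1 : XX N β (.replicate n 1) = XX N (Fin.init β) (.replicate n 1) := by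
        rw [lk N _ β _ b2 o, lk N _ (Fin.init β) _ (fun j => b2 _) o]
        refine sum_congr rfl fun S _ => ?_
        rw [ket, List.ofFn_succ', List.prod_concat, z]
        simp [ph, par, ket, Fin.init]
      have e2 : FF β = FF (Fin.init β) := by
        simp only [FF, prod_filter, Fin.prod_univ_castSucc, z, Fin.init]
        simp [fun j => (q j).ne', Fin.castSucc_lt_last, fun j : Fin l => (Fin.castSucc_lt_last j).not_gt]
      rw [e1, e2]
      exact ih _ _ (fun a b e => c (by simpa)) (fun j => ⟨q j, b2 _⟩) (by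
        rw [← b3, Fin.sum_univ_castSucc, z, add_zero]; rfl)
    · rw [Fin.strictAnti_iff_succ_lt] at c
      push Not at c
      obtain ⟨j, hj⟩ := c
      have h1 := h (Fin.castSucc_lt_succ (i := j))
      have h2 := b1 j.castSucc
      have h3 := b1 j.succ
      have h4 := p j.succ
      have h5 : j.castSucc = i → j.succ ≠ i := fun e e' => (Fin.castSucc_lt_succ (i := j)).ne (e.trans e'.symm)
      have h6 : β j.castSucc = β j.succ ∧ 0 < β j.succ := by split_ifs at * <;> first | omega | tauto
      have e1 : ∀ S, ket N β S = 0 := fun S => by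
        rw [ket, prod0 _ _ j, Matrix.zero_apply]
        have := car N (β j.succ) (β j.succ)
        rw [if_neg (by omega)] at this
        ext T U
        simpa [h6.1] using congrFun (congrFun this T) U
      have e2 : FF β = 0 := prod_eq_zero (mem_univ j.castSucc) (mul_eq_zero_of_right _
        (prod_eq_zero (i := j.succ) (by simp) (by simp [h6.1])))
      simp [lk N _ β _ b2 o, e1, e2]

end H12.RB

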