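import Cfsg.Agent.H9.RL0
import Cfsg.Agent.H10.Wreathed2

/-! S3860: the structure of the Sylow subgroup in the case `a = 1`. -/

set_option autoImplicit false
set_option linter.unusedVariables false

namespace H12.RL
open Cfsg Subgroup H19 H17.GS H9.RL

universe u
variable {G : Type u} [Group G] [Finite G] {A B : Subgroup G} {x t : G}

theorem last_out (g : G) (k : ℕ) (h : g ^ 2 ^ k ∈ B) (h0 : g ∉ B) : ∃ w ∈ zpowers g, w ∉ B ∧ w * w ∈ B := by
  induction k with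
  | zero => exact absurd (by simpa using h) h0
  | succ k ih =>
    by_cases c : g ^ 2 ^ k ∈ B
    · exact ih c
    · exact ⟨_, pow_mem (mem_zpowers g) _, c, by rwa [← pow_add, ← two_mul, ← pow_succ']⟩

theorem exists_sq (hA : H19.PG 2 A) (h : ¬ A ≤ B) : ∃ w ∈ A, w ∉ B ∧ w * w ∈ B := by
  obtain ⟨g, a, b⟩ := SetLike.not_le_iff_exists.1 h
  obtain ⟨k, hk⟩ := hA.exists_card
  obtain ⟨w, c, d⟩ := last_out (B := B) g k (by
    rw [← hk, orderOf_dvd_iff_pow_eq_one.1 (orderOf_dvd_card' a)]; exact one_mem _) b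
  exact ⟨w, zpowers_le' a c, d⟩

theorem ox_nc (o : Ox x t) (h : t * x = x * t) : False := by
  have e : x * x = 1 := by
    have := o.inv
    rw [h, mul_inv_cancel_right] at this
    exact mul_eq_one_iff_eq_inv.2 this
  have := o.odd
  rcases (Nat.dvd_prime Nat.prime_two).1 (orderOf_dvd_of_pow_eq_one (sq x ▸ e)) with k | k
  · exact o.ne (orderOf_eq_one_iff.1 k)
  · rw [k] at this; exact absurd this (by decide)

theorem ox_mul (o : Ox x t) {m : G} (h : m ∈ C[x]) : Ox x (t * m) :=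
  ⟨o.ne, o.odd, by rw [← o.inv, mul_assoc t, mem_cent1.1 h]; group⟩

theorem cent1_inv (q : G) : C[q⁻¹] = C[q] :=
  le_antisymm (cent1_le_cent1_of_mem_zpowers (by simp)) (cent1_le_cent1_of_mem_zpowers (by simp))

theorem a2 (f1 : F1.{u}) : A2.{u} := fun {G} _ _ {b L Q x u v} h => by
  have QM := h.sq.le
  have cz : ∀ g, g * (u * u) = u * u * g := mem_center_iff.1 h.cz
  have cc : u * u * (u * u) = 1 := by
    have e : u * (v * v) * u⁻¹ = (v * v)⁻¹ := by rw [← conj_mul, h.uv, mul_inv_rev]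
    rw [h.vv] at e
    exact mul_eq_one_iff_eq_inv.2 (by rw [← e]; group)
  have uQ : ∀ q ∈ Q, u * q * u⁻¹ ∈ Q := fun q => conj_mem_of_norm h.nq
  have nd : ∀ d ∈ Q, d * u = u * d → ∀ m ∈ C[x], m * d * m⁻¹ = d⁻¹ → d ∈ center G := fun d a e m p q =>
    f1 h.toSt (ox_mul h.ox p) h.ox (h.sq.pi.elt a) (QM a)
      (by rw [mul_inv_rev, mul_assoc u, mul_assoc u, ← mul_assoc (m * d), q, ← mul_assoc, mul_inv_eq_iff_eq_mul,
        eq_inv_mul_iff_mul_eq, ← mul_assoc, e, mul_inv_cancel_right]) (by rw [← e, mul_inv_cancel_right])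
  have iz : ∀ q ∈ Q, u * q * u⁻¹ = q⁻¹ → ∀ r ∈ Q, r * q = q * r := fun q a e => by
    have un : u ∈ N(C[q]) := mem_norm_iff_cj.2 (by rw [cj_cent1, e, cent1_inv])
    have u0 : u ∈ N(Q ⊓ C[q]) := norms_inf (zpowers_le' h.nq) (zpowers_le' un) (mem_zpowers u)
    have u2 : u ^ 2 ∈ Q ⊓ C[q] := sq u ▸ ⟨h.uq, mem_cent1.2 (cz q).symm⟩
    have uo : u ∉ Q := fun k => ox_nc h.ox (mem_cent1.1 (QM k))
    have T0 : ∀ s ∈ Q ⊓ C[q] ⊔ zpowers u, s ∈ Q → s ∈ C[q] := fun s p k =>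
      ((H10.mem_sup_zpowers_of_sq u0 u2).1 p).elim (·.2) fun j => absurd
        ((inv_mem_iff).1 ((mul_mem_cancel_left k).1 j.1)) uo
    suffices k : Q ≤ C[q] from fun r p => mem_cent1.1 (k p)
    by_contra k
    have lt : Q ⊓ C[q] ⊔ zpowers u < Q ⊔ zpowers u := (sup_le_sup_right inf_le_left _).lt_of_ne fun j =>
      k fun s p => T0 s (j.ge (mem_sup_left p)) p
    obtain ⟨g, ⟨gQ, gn⟩, g0, g2⟩ : ∃ g ∈ Q ⊓ N(Q ⊓ C[q] ⊔ zpowers u), g ∉ C[q] ∧ g * g ∈ C[q] :=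
      exists_sq (h.sq.pi.of_le inf_le_left) fun j => (h.ss.pi.lt_norm lt).not_ge fun s p => by
        rcases (H10.mem_sup_zpowers_of_sq h.nq (sq u ▸ h.uq)).1 p.1 with i | i
        · exact mem_sup_left ⟨i, j ⟨i, p.2⟩⟩
        · simpa using mul_mem_sup (S := Q ⊓ C[q]) ⟨i, j ⟨i, mul_mem p.2
            (Subgroup.inv_mem _ (le_normalizer (mem_sup_right (mem_zpowers u))))⟩⟩ (mem_zpowers u)
    have qT : q ∈ Q ⊓ C[q] ⊔ zpowers u := mem_sup_left ⟨a, mem_cent1_self q⟩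
    have c1 : g * q * g⁻¹ * q = q * (g * q * g⁻¹) :=
      mem_cent1.1 (T0 _ (conj_mem_of_norm gn qT) (conj_mem_of_norm (le_normalizer gQ) a))
    have c2 : u * (g * q * g⁻¹) * u⁻¹ = (g * q * g⁻¹)⁻¹ := by
      rcases (H10.mem_sup_zpowers_of_sq u0 u2).1 (conj_mem_of_norm' gn (mem_sup_right (mem_zpowers u))) with i | i
      · exact absurd (by simpa [mul_assoc] using Q.mul_mem (Q.mul_mem gQ i.1) (Q.inv_mem gQ)) uo
      · have i2 : g⁻¹ * u * g * u⁻¹ * q * (g⁻¹ * u * g * u⁻¹)⁻¹ = q := by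
          rw [mem_cent1.1 i.2, mul_inv_cancel_right]
        calc _ = g * (g⁻¹ * u * g * u⁻¹) * (u * q * u⁻¹) * (g⁻¹ * u * g * u⁻¹)⁻¹ * g⁻¹ := by group
          _ = g * (g⁻¹ * u * g * u⁻¹ * q * (g⁻¹ * u * g * u⁻¹)⁻¹)⁻¹ * g⁻¹ := by rw [e]; group
          _ = _ := by rw [i2]; group
    have c3 : g * (g * q * g⁻¹) * g⁻¹ = q := by
      calc _ = g * g * q * (g * g)⁻¹ := by group
        _ = q := by rw [mem_cent1.1 g2, mul_inv_cancel_right]
    have i1 : u * (q⁻¹ * (g * q * g⁻¹)) * u⁻¹ = (q⁻¹ * (g * q * g⁻¹))⁻¹ := by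
      rw [← conj_mul, c2, ← conj_inv, e, inv_inv, mul_inv_rev q⁻¹, inv_inv, eq_inv_mul_iff_mul_eq, ← mul_assoc, c1,
        mul_inv_cancel_right]
    have i2 : g * (q⁻¹ * (g * q * g⁻¹)) * g⁻¹ = (q⁻¹ * (g * q * g⁻¹))⁻¹ := by
      rw [← conj_mul, c3]; group
    have hQ := mul_mem (inv_mem a) (conj_mem_of_norm (le_normalizer gQ) a)
    have z := mem_center_iff.1 (f1 h.toSt h.ox (ox_mul h.ox (QM gQ)) (h.sq.pi.elt hQ) (QM hQ) i1 (by
      rw [mul_inv_rev, mul_assoc u, mul_assoc u, ← mul_assoc (g * _), i2, ← mul_assoc, ← conj_inv, i1, inv_inv]))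
    have gn : g ∈ N(C[q]) := mem_norm_of_cj_le (by
      rw [cj_cent1]
      exact fun y k => mem_cent1.2 (mul_right_cancel (b := q⁻¹ * (g * q * g⁻¹)) (by
        calc _ = y * (g * q * g⁻¹) := by group
          _ = q * (q⁻¹ * (g * q * g⁻¹) * y) := by rw [mem_cent1.1 k]; group
          _ = _ := by rw [← z]; group)))
    have qx : q * x = x * q := mem_cent1.1 (QM a)
    have eC := cent1_mul (h.sq.pi.elt a) (H2.GW.odd_iff_pi.1 h.ox.odd) qx
    have n : C[q] ⊓ C[x] ⊴ C[q] ⊓ C[x] ⊔ zpowers g :=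
      left_normal_sup (norms_inf (zpowers_le' gn) ((zpowers_le' (QM gQ)).trans le_normalizer))
    obtain ⟨R, p, r⟩ := (piG_zpowers.2 (h.sq.pi.elt gQ)).exists_syl (le_sup_right (a := C[q] ⊓ C[x]))
    have d1 := h.hy (q * x) ⟨u, by rw [← conj_mul, e, h.ox.inv, qx, mul_inv_rev]⟩
      (fun j => ox_nc h.ox (mem_cent1.1 (eC.le (mem_cent1.2 (mem_center_iff.1 j u))).2)) (R ⊓ (C[q] ⊓ C[x])) (by rw [eC]; exact p.inf_normal n)
    have d2 := h.hy x ⟨u, h.ox.inv⟩ (fun j => ox_nc h.ox (mem_center_iff.1 j u)) _ h.sq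
    obtain ⟨y, -, d3⟩ := h.sq.scj_le (p.le.trans (sup_le inf_le_right (zpowers_le' (QM gQ)))) p.pi
    have d4 := card_le d3
    rw [card_cj, d2, ← d1] at d4
    exact g0 ((H4.eq_of_le_of_card_le inf_le_left d4).ge (r (mem_zpowers g))).2.1
  have ij : ∀ r, u * (r⁻¹ * (u * r * u⁻¹)) * u⁻¹ = (r⁻¹ * (u * r * u⁻¹))⁻¹ := fun r => by
    calc _ = u * r⁻¹ * u⁻¹ * (u * u * r) * u⁻¹ * u⁻¹ := by group
      _ = _ := by rw [← cz]; group
  have om : ∀ r ∈ Q, r⁻¹ * (u * r * u⁻¹) * (r⁻¹ * (u * r * u⁻¹)) = 1 →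
      u * r * u⁻¹ = r ∨ u * r * u⁻¹ = r * (u * u) := fun r a e => by
    have e' := mul_eq_one_iff_eq_inv.1 e
    have z := nd _ (mul_mem (inv_mem a) (uQ r a)) (mul_inv_eq_iff_eq_mul.1 ((ij r).trans e'.symm)).symm 1 (one_mem _)
      (by simpa using e')
    refine (h.au r⁻¹ (by simpa [mul_assoc] using z)).imp (fun k => ?_) fun k => ?_
    · calc _ = r * (r⁻¹ * u * r⁻¹⁻¹) * u⁻¹ := by group
        _ = r := by rw [k, mul_inv_cancel_right]
    · calc _ = r * (r⁻¹ * u * r⁻¹⁻¹) * u⁻¹ := by group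
        _ = r * (u * u)⁻¹ := by rw [k]; group
        _ = _ := by rw [inv_eq_of_mul_eq_one_left cc]
  refine ⟨nd, iz, om, fun d a e r p s k => ?_⟩
  have fin : d * r = r * d → False := fun j => h.c1 (by
    rw [j, mul_inv_cancel_right] at k
    exact s.symm.trans (mul_eq_one_iff_eq_inv.2 k))
  rcases (H10.mem_sup_zpowers_of_sq h.nq (sq u ▸ h.uq)).1 p with i | i
  · have j := iz _ (mul_mem (inv_mem i) (uQ r i)) (ij r) r i
    have j2 : r⁻¹ * (u * r * u⁻¹) * (r⁻¹ * (u * r * u⁻¹)) = 1 := by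
      have : u * r * u⁻¹ * (u * r * u⁻¹) = r * r := by rw [conj_mul, s]; group
      calc _ = r⁻¹ * r⁻¹ * (r * (r * (r⁻¹ * (u * r * u⁻¹))) * (r⁻¹ * (u * r * u⁻¹))) := by group
        _ = r⁻¹ * r⁻¹ * (u * r * u⁻¹ * (u * r * u⁻¹)) := by rw [j]; group
        _ = 1 := by rw [this]; group
    rcases om r i j2 with o | o
    · exact fin (mem_center_iff.1 (nd r i (mul_inv_eq_iff_eq_mul.1 o).symm d (QM a) k) d)
    · refine fin (iz r i (o.trans (eq_inv_of_mul_eq_one_left ?_)) d a)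
      rw [← s] at cc ⊢
      rw [← cc]; group
  · have j := iz _ i (eq_inv_of_mul_eq_one_right (by
      calc _ = r * u⁻¹ * u * r * (u * u)⁻¹ := by group
        _ = 1 := by rw [← s]; group)) d a
    exact fin (by
      calc d * r = d * (r * u⁻¹) * u := by group
        _ = r * u⁻¹ * (u * d) := by rw [j, mul_assoc, e]
        _ = _ := by group)

end H12.RL
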