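/-
S3140, the case `PSp₆(3)`: assembly of the chunks.
-/
import Cfsg.Agent.H12.T31
import Cfsg.Agent.H11.SpSimple

set_option autoImplicit false

namespace H12.T3
open Cfsg Subgroup Matrix H8.LS

universe u

theorem ps (md : MD.{u}) (sc : SC.{u}) (b1 : B1.{u}) (b2 : B2.{u}) (b3 : B3.{u}) (b4 : B4.{u}) (k3 : K3.{u}) (nm : NM)
    (jy : JY.{u}) (ct : CT.{u}) (ho : HO.{u}) : PS.{u} := fun G _ _ F φ t f X a b x y P => by
  obtain ⟨ι, M⟩ := md G F φ t f X a b x y P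
  obtain ⟨K, _, _, ψ0, oK, i0, E⟩ := b4 b1 b2 b3 G F φ t X ι M (sc G F φ t X ι M)
  obtain ⟨⟨ψ, i, e⟩, hc⟩ := k3 G F φ t X ι K ψ0 M oK i0 E
  rw [← e] at E hc
  obtain ⟨U, hU⟩ : φ u0 ∈ ψ.range := M.eu ▸ E.hT wu (by decide)
  obtain ⟨V, hV⟩ : φ v0 ∈ ψ.range := M.ev ▸ E.hT wv (by decide)
  obtain ⟨Z, hZ⟩ : φ z0 ∈ ψ.range := M.ez ▸ E.hT wz (by decide)
  obtain ⟨W, hW⟩ := E.hw
  obtain ⟨C, hC⟩ := E.hc
  obtain rfl : Z = Z0 := by
    rcases (H11.sp_mem_center_iff Z).1 (mem_center_iff.2 fun s => i (by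
      rw [map_mul, map_mul, hZ, ← M.ez, E.hQ wz (by decide) _ ⟨s, rfl⟩])) with e | e
    · rw [show Z = 1 from Subtype.ext e, map_one, ← φ.map_one] at hZ
      exact (r0.2.1 (M.st.inj hZ).symm).elim
    · exact Subtype.ext e
  obtain ⟨⟨-, r1, r2, r3, -, -, r4, r5, r6⟩, -, -, -, r7, r8, -⟩ := r0
  have r9 : c0 ^ 3 = 1 := by decide +kernel
  obtain ⟨g, g1, g2, g3, g4⟩ := nm U V W C (i (by rw [map_mul, hU, ← map_mul, r1, map_one, map_one]))
    (i (by rw [map_mul, hV, ← map_mul, r2, map_one, map_one])) (i (by rw [map_mul, hW, hZ, ← map_mul, r3]))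
    (i (by simp only [map_mul, hU, hV, hZ]; rw [← map_mul, r4, map_mul, map_mul]))
    (i (by simp only [map_mul, hU, hV, hW]; rw [← map_mul, r5, map_mul]))
    (i (by simp only [map_mul, hU, hV, hW]; rw [← map_mul, r6, map_mul]))
    (i (by rw [map_pow, hC, ← map_pow, r9, map_one, map_one]))
    (i (by simp only [map_mul, map_inv, hU, hV, hW, hC]; rw [← r7]; simp only [map_mul, map_inv]))
    (i (by simp only [map_mul, map_inv, hU, hV, hW, hC]; rw [← map_mul, ← map_inv, ← map_mul, r8, map_mul, map_mul]))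
  let ψ' : P4 →* G := ψ.comp (MulAut.conj g).toMonoidHom
  have e' : ψ'.range = ψ.range := by
    rw [MonoidHom.range_comp, MonoidHom.range_eq_top.2 (MulAut.conj g).surjective, MonoidHom.range_eq_map]
  have nz : Nz φ ψ' := ⟨i.comp (MulAut.conj g).injective, (congrArg ψ g1).trans hU, (congrArg ψ g2).trans hV,
    (congrArg ψ g3).trans hW, (congrArg ψ g4).trans hC⟩
  rw [← e'] at E hc
  obtain ⟨cm, hm⟩ := jy G F φ t X ι ψ' M nz E hc
  have l : φ.range ≤ F := by rintro _ ⟨s, rfl⟩; exact M.φF s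
  exact ho G F φ t X ι _ M (sup_le l E.le) le_sup_left (ct G φ ψ' nz cm) hm fun s k => E.hQ s k _ E.hw

end H12.T3
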